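import Cfsg.Agent.Lib.Block.FirstMain2
import Cfsg.Agent.Lib.Block.BrauerSub

set_option autoImplicit false
open Cfsg

namespace Cfsg.Agent.Lib.Block

section

variable {G : Type*} [Group G] [Fintype G] {p : ℕ} [hp : Fact p.Prime] {M : Ideal AlgInt}
  {D : Subgroup G} [Fintype (Subgroup.normalizer (D : Set G))]

/-- Two blocks induced by the same block coincide. -/
theorem induced_block_unique [M.IsPrime] {H : Subgroup G} {b : Set (IrrCharacter H)} {B B' : Set (IrrCharacter G)}
    (h : IsInducedBlock M H b B) (h' : IsInducedBlock M H b B') : B = B' := by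
  obtain ⟨hb, hB, hc⟩ := h
  obtain ⟨-, hB', hc'⟩ := h'
  obtain ⟨ξ, hξ⟩ := IsPBlock_nonempty hb
  obtain ⟨χ, hχ⟩ := IsPBlock_nonempty hB
  obtain ⟨χ', hχ'⟩ := IsPBlock_nonempty hB'
  have hs : SameBlock M (χ : G → ℂ) (χ' : G → ℂ) := by
    intro g
    exact memLocalIdeal_sub_trans (memLocalIdeal_sub_comm.mp (hc ξ hξ χ hχ g)) (hc' ξ hξ χ' hχ' g)
  have hmem : χ' ∈ B := by
    have h1 := blockOf_eq_of_mem hB hχ
    rw [h1]
    exact hs
  rw [blockOf_eq_of_mem hB hmem, blockOf_eq_of_mem hB' hχ']

/-- **Brauer's first main theorem, counting form.** -/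
theorem card_blocks_defect_eq_normalizer (hM : IsPModular p M) (hD : IsPGroup p D) :
    Nat.card {B : Set (IrrCharacter G) // IsPBlock M B ∧ IsDefectGroup p M B D} =
      Nat.card {b : Set (IrrCharacter (Subgroup.normalizer (D : Set G))) //
        IsPBlock M b ∧ IsDefectGroup p M b (D.subgroupOf (Subgroup.normalizer (D : Set G)))} := by
  classical
  have := isPModular_isPrime hM
  have hex : ∀ b : {b : Set (IrrCharacter (Subgroup.normalizer (D : Set G))) //
        IsPBlock M b ∧ IsDefectGroup p M b (D.subgroupOf (Subgroup.normalizer (D : Set G)))},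
      ∃ B : Set (IrrCharacter G), IsInducedBlock M _ b.1 B :=
    fun b => inducedBlockDefined_of_normalizer hM hD (le_normalizer_self D)
      (centralizer_le_normalizer_self D) le_rfl b.2.1
  choose f hf using hex
  refine (Nat.card_congr (Equiv.ofBijective
    (fun b => (⟨f b, (hf b).2.1, isDefectGroup_of_induced_up hM hD b.2.2 (hf b)⟩ :
      {B : Set (IrrCharacter G) // IsPBlock M B ∧ IsDefectGroup p M B D})) ⟨?_, ?_⟩)).symm
  · rintro b b' h
    have h1 : f b = f b' := congrArg Subtype.val h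
    have h2 := hf b
    have h3 := hf b'
    rw [← h1] at h3
    exact Subtype.ext (block_unique_of_induced hM hD b'.2.2 h3 h2)
  · rintro ⟨B, hB, hDB⟩
    obtain ⟨b, hb, hDb⟩ := exists_block_normalizer hM hB hDB
    refine ⟨⟨b, hb.1, hDb⟩, Subtype.ext ?_⟩
    exact induced_block_unique (hf _) hb

end

end Cfsg.Agent.Lib.Block
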