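import Cfsg.Agent.S4443
import Cfsg.Agent.Lib.Block.FirstCount
import Cfsg.Agent.Lib.Degree.UniqueDvd3

set_option autoImplicit false
open Cfsg

namespace Cfsg.Agent.Lib.Block

section

variable {N : Type*} [Group N] [Finite N] {p : ℕ} [hp : Fact p.Prime]

/-- Regular elements centralizing a `p`-subgroup containing their quotient coincide. -/
theorem eq_of_regular_of_mul_inv_mem {D : Subgroup N} (hD : IsPGroup p D) {y z : N}
    (hy : ¬ p ∣ orderOf y) (hz : ¬ p ∣ orderOf z) (hyc : y ∈ Subgroup.centralizer (D : Set N))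
    (h : z * y⁻¹ ∈ D) : z = y := by
  obtain ⟨t, ht⟩ : ∃ t, t = z * y⁻¹ := ⟨_, rfl⟩
  rw [← ht] at h
  have hz' : z = t * y := by rw [ht]; group
  have hc : Commute t y := (Subgroup.mem_centralizer_iff.mp hyc) t h
  obtain ⟨k, hk⟩ := (hD ⟨t, h⟩)
  have hk' : t ^ (p ^ k) = 1 := by
    have := congrArg Subtype.val hk
    simpa using this
  obtain ⟨j, -, hj⟩ := (Nat.dvd_prime_pow hp.out).mp (orderOf_dvd_of_pow_eq_one hk')
  have hcop : (orderOf t).Coprime (orderOf y) := by
    rw [hj]
    exact Nat.Coprime.pow_left _ ((Nat.Prime.coprime_iff_not_dvd hp.out).mpr hy)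
  have hord := hc.orderOf_mul_eq_mul_orderOf_of_coprime hcop
  rw [← hz', hj] at hord
  have hj0 : j = 0 := by
    by_contra hj0
    apply hz
    rw [hord]
    exact Dvd.dvd.mul_right (dvd_pow_self p hj0) _
  rw [hj0, pow_zero, orderOf_eq_one_iff] at hj
  rw [hz', hj, one_mul]

/-- The number of blocks of a group with a normal Sylow `p`-subgroup `D` with defect group `D` is the number of classes
of regular elements centralizing `D`. -/
theorem card_blocks_normal_sylow (M : Ideal AlgInt) (hM : IsPModular p M) (D : Subgroup N) [D.Normal]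
    (S : Sylow p N) (hS : (S : Subgroup N) = D) :
    Nat.card {B : Set (IrrCharacter N) // IsPBlock M B ∧ IsDefectGroup p M B D} =
      Nat.card {C : ConjClasses N // ∀ n : N, ConjClasses.mk n = C → ¬ p ∣ orderOf n ∧ n ∈ Subgroup.centralizer (D : Set N)} := by
  classical
  have := Fintype.ofFinite N
  have : Fintype (ConjClasses N) := Fintype.ofFinite _
  have hD : IsPGroup p D := hS ▸ S.isPGroup'
  have hfac : (Nat.card N).factorization p - (Nat.card D).factorization p = 0 := by
    rw [← hS, S.card_eq_multiplicity, Nat.factorization_pow]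
    simp [Nat.Prime.factorization_self hp.out]
  have hK : ∀ C : ConjClasses N, (∃ i : {C : ConjClasses N // ∀ n : N, ConjClasses.mk n = C → ¬ p ∣ orderOf n ∧ n ∈ Subgroup.centralizer (D : Set N)}, (i : ConjClasses N) = C) ↔
      ∃ x ∈ C.carrier, ¬ p ∣ orderOf x ∧ ∃ Q : Sylow p (Subgroup.centralizer ({x} : Set N)), (Q : Subgroup (Subgroup.centralizer ({x} : Set N))).map (Subgroup.centralizer ({x} : Set N)).subtype = D := by
    intro C
    constructor
    · rintro ⟨⟨C', hC'⟩, rfl⟩
      obtain ⟨x, rfl⟩ := ConjClasses.mk_surjective C'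
      obtain ⟨h1, h2⟩ := hC' x rfl
      refine ⟨x, ConjClasses.mem_carrier_mk, h1, ?_⟩
      have hSC : (S : Subgroup N) ≤ Subgroup.centralizer ({x} : Set N) := by
        rw [hS]
        intro q hq
        rw [Subgroup.mem_centralizer_singleton_iff]
        exact ((Subgroup.mem_centralizer_iff.mp h2) q hq)
      refine ⟨S.subtype hSC, ?_⟩
      rw [Sylow.coe_subtype, Subgroup.map_subgroupOf_eq_of_le hSC, hS]
    · rintro ⟨x, hx, h1, Q, hQ⟩
      have hxc : x ∈ Subgroup.centralizer (D : Set N) := by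
        refine Subgroup.mem_centralizer_iff.mpr fun q hq => ?_
        rw [← hQ] at hq
        obtain ⟨a, _, rfl⟩ := hq
        exact (Subgroup.mem_centralizer_singleton_iff.mp a.2)
      refine ⟨⟨C, ?_⟩, rfl⟩
      intro n hn
      have hx' : ConjClasses.mk x = C := ConjClasses.mem_carrier_iff_mk_eq.mp hx
      have hconj : IsConj x n := ConjClasses.mk_eq_mk_iff_isConj.mp (hx'.trans hn.symm)
      refine ⟨?_, ?_⟩
      · obtain ⟨a, rfl⟩ := isConj_iff.mp hconj
        have : orderOf (a * x * a⁻¹) = orderOf x := (MulAut.conj a).orderOf_eq x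
        rwa [this]
      · obtain ⟨a, rfl⟩ := isConj_iff.mp hconj
        refine Subgroup.mem_centralizer_iff.mpr fun q hq => ?_
        have hq' : a⁻¹ * q * a ∈ D := by
          have := (inferInstance : D.Normal).conj_mem q hq a⁻¹
          simpa using this
        have h3 := Subgroup.mem_centralizer_iff.mp hxc _ hq'
        calc q * (a * x * a⁻¹) = a * ((a⁻¹ * q * a) * x) * a⁻¹ := by group
          _ = a * (x * (a⁻¹ * q * a)) * a⁻¹ := by rw [h3]
          _ = a * x * a⁻¹ * q := by group
  rw [Cfsg.Agent.S4443.result p M hM D hD S Subtype.val Subtype.val_injective hK]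
  have hmat : (Matrix.of fun i j : {C : ConjClasses N // ∀ n : N, ConjClasses.mk n = C → ¬ p ∣ orderOf n ∧ n ∈ Subgroup.centralizer (D : Set N)} => ((Nat.card {yz : N × N // yz.1 ∈ (i : ConjClasses N).carrier ∧ yz.2 ∈ (j : ConjClasses N).carrier ∧ yz.2 * yz.1⁻¹ ∈ (S : Subgroup N)} / p ^ ((Nat.card N).factorization p - (Nat.card D).factorization p) : ℕ) : ZMod p)) =
      Matrix.diagonal (fun i : {C : ConjClasses N // ∀ n : N, ConjClasses.mk n = C → ¬ p ∣ orderOf n ∧ n ∈ Subgroup.centralizer (D : Set N)} => ((Nat.card (i : ConjClasses N).carrier : ℕ) : ZMod p)) := by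
    ext i j
    rw [Matrix.of_apply, hfac, pow_zero, Nat.div_one]
    by_cases hij : i = j
    · subst hij
      rw [Matrix.diagonal_apply_eq]
      congr 1
      refine Nat.card_congr (Equiv.ofBijective (fun x : (i : ConjClasses N).carrier =>
        (⟨(x.1, x.1), x.2, x.2, ?_⟩ : {yz : N × N // yz.1 ∈ (i : ConjClasses N).carrier ∧ yz.2 ∈ (i : ConjClasses N).carrier ∧ yz.2 * yz.1⁻¹ ∈ (S : Subgroup N)})) ⟨?_, ?_⟩).symm
      · simpa using (S : Subgroup N).one_mem
      · intro x y h
        exact Subtype.ext (congrArg (fun a => a.1.1) h)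
      · rintro ⟨⟨y, z⟩, hy, hz, hzy⟩
        have h1 := i.2 y (ConjClasses.mem_carrier_iff_mk_eq.mp hy)
        have h2 := i.2 z (ConjClasses.mem_carrier_iff_mk_eq.mp hz)
        rw [hS] at hzy
        have h3 : z = y := eq_of_regular_of_mul_inv_mem hD h1.1 h2.1 h1.2 hzy
        refine ⟨⟨y, hy⟩, Subtype.ext ?_⟩
        simp [h3]
    · rw [Matrix.diagonal_apply_ne _ hij]
      have : IsEmpty {yz : N × N // yz.1 ∈ (i : ConjClasses N).carrier ∧ yz.2 ∈ (j : ConjClasses N).carrier ∧ yz.2 * yz.1⁻¹ ∈ (S : Subgroup N)} := by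
        refine ⟨?_⟩
        rintro ⟨⟨y, z⟩, hy, hz, hzy⟩
        have h1 := i.2 y (ConjClasses.mem_carrier_iff_mk_eq.mp hy)
        have h2 := j.2 z (ConjClasses.mem_carrier_iff_mk_eq.mp hz)
        rw [hS] at hzy
        have h3 : z = y := eq_of_regular_of_mul_inv_mem hD h1.1 h2.1 h1.2 hzy
        apply hij
        apply Subtype.ext
        have hy' := ConjClasses.mem_carrier_iff_mk_eq.mp hy
        have hz' := ConjClasses.mem_carrier_iff_mk_eq.mp hz
        simp only at h3 hy' hz'
        rw [← hy', ← hz', h3]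
      rw [Nat.card_of_isEmpty]
      simp
  rw [hmat, Matrix.rank_diagonal, Nat.card_eq_fintype_card]
  have hne : ∀ i : {C : ConjClasses N // ∀ n : N, ConjClasses.mk n = C → ¬ p ∣ orderOf n ∧ n ∈ Subgroup.centralizer (D : Set N)}, ((Nat.card (i : ConjClasses N).carrier : ℕ) : ZMod p) ≠ 0 := by
    intro i
    rw [Ne, ZMod.natCast_eq_zero_iff]
    obtain ⟨x, hx⟩ := ConjClasses.mk_surjective (i : ConjClasses N)
    have hxc := (i.2 x hx).2
    have hSC : (S : Subgroup N) ≤ Subgroup.centralizer ({x} : Set N) := by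
      rw [hS]
      intro q hq
      rw [Subgroup.mem_centralizer_singleton_iff]
      exact ((Subgroup.mem_centralizer_iff.mp hxc) q hq)
    have hcard : Nat.card (i : ConjClasses N).carrier = (Subgroup.centralizer ({x} : Set N)).index := by
      rw [← hx]
      exact Cfsg.Agent.Lib.Degree.card_carrier_eq_index x
    rw [hcard]
    intro hdvd
    exact S.not_dvd_index (hdvd.trans (Subgroup.index_dvd_of_le hSC))
  exact Fintype.card_congr (Equiv.subtypeUnivEquiv hne)

end

end Cfsg.Agent.Lib.Block
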