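import Cfsg.Agent.Lib.CharExtra.PRegRank
import Cfsg.Agent.Lib.Block.Subsect

/-!
# The Brauer--Feit bounds

The integers `n χ ψ = p^d · |G|⁻¹ ∑_{y regular} χ(y) conj ψ(y)` on a block of defect `d`, and the consequences of
`N² = p^d N`.
-/

set_option autoImplicit false
set_option linter.unusedSectionVars false
set_option linter.unusedSimpArgs false
set_option linter.unusedVariables false

open scoped ComplexConjugate
open Cfsg MonoidAlgebra Module Cfsg.Agent.Lib.CharExtra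

namespace Cfsg.Agent.Lib.Block

section Form

variable {G : Type*} [Group G] [Fintype G] {p : ℕ} [hp : Fact p.Prime] {M : Ideal AlgInt}

/-- Parseval for `regCoeff`. -/
theorem sum_regCoeff_mul (χ ψ : IrrCharacter G) :
    ∑ ξ : IrrCharacter G, regCoeff p χ ξ * regCoeff p ξ ψ =
      (p : ℤ) ^ (Nat.card G).factorization p * regCoeff p χ ψ := by
  classical
  have hr : ∀ ξ : IrrCharacter G, (regCoeff p ξ ψ : ℂ) = (Nat.card G : ℂ)⁻¹ * ((p ^ (Nat.card G).factorization p : ℕ) : ℂ) *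
      ∑ x : G, (if p ∣ orderOf x then (0 : ℂ) else (ξ : G → ℂ) x * conj ((ψ : G → ℂ) x)) := fun ξ => by
    rw [← regCoeff_spec, classInner_regPart]
  have key : ∑ ξ : IrrCharacter G, (regCoeff p χ ξ : ℂ) * (regCoeff p ξ ψ : ℂ) =
      ((p ^ (Nat.card G).factorization p : ℕ) : ℂ) * (regCoeff p χ ψ : ℂ) := by
    calc ∑ ξ : IrrCharacter G, (regCoeff p χ ξ : ℂ) * (regCoeff p ξ ψ : ℂ)
        = ∑ ξ : IrrCharacter G, (regCoeff p χ ξ : ℂ) * ((Nat.card G : ℂ)⁻¹ * ((p ^ (Nat.card G).factorization p : ℕ) : ℂ) *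
            ∑ x : G, (if p ∣ orderOf x then (0 : ℂ) else (ξ : G → ℂ) x * conj ((ψ : G → ℂ) x))) := by
          refine Finset.sum_congr rfl fun ξ _ => ?_
          rw [hr ξ]
      _ = (Nat.card G : ℂ)⁻¹ * ((p ^ (Nat.card G).factorization p : ℕ) : ℂ) *
            ∑ x : G, (if p ∣ orderOf x then (0 : ℂ) else
              (∑ ξ : IrrCharacter G, (regCoeff p χ ξ : ℂ) * (ξ : G → ℂ) x) * conj ((ψ : G → ℂ) x)) := by
          simp only [mul_left_comm ((regCoeff p χ _ : ℤ) : ℂ) ((Nat.card G : ℂ)⁻¹ * ((p ^ (Nat.card G).factorization p : ℕ) : ℂ))]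
          rw [← Finset.mul_sum]
          congr 1
          simp only [Finset.mul_sum]
          rw [Finset.sum_comm]
          refine Finset.sum_congr rfl fun x _ => ?_
          split_ifs with h
          · simp
          · rw [Finset.sum_mul]
            refine Finset.sum_congr rfl fun ξ _ => ?_
            ring
      _ = (Nat.card G : ℂ)⁻¹ * ((p ^ (Nat.card G).factorization p : ℕ) : ℂ) *
            ∑ x : G, (if p ∣ orderOf x then (0 : ℂ) else
              ((p ^ (Nat.card G).factorization p : ℕ) : ℂ) * ((χ : G → ℂ) x * conj ((ψ : G → ℂ) x))) := by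
          congr 1
          refine Finset.sum_congr rfl fun x _ => ?_
          split_ifs with h
          · rfl
          · rw [← regPart_eq_sum]
            simp only [regPart, if_neg h]
            ring
      _ = ((p ^ (Nat.card G).factorization p : ℕ) : ℂ) * (regCoeff p χ ψ : ℂ) := by
          rw [hr χ, mul_left_comm]
          congr 2
          rw [Finset.mul_sum]
          refine Finset.sum_congr rfl fun x _ => ?_
          split_ifs <;> simp
  exact_mod_cast key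

theorem card_block_eq (B : Set (IrrCharacter G)) [DecidablePred (· ∈ B)] :
    Nat.card B = (Finset.univ.filter fun χ : IrrCharacter G => χ ∈ B).card := by
  classical
  rw [Nat.card_eq_fintype_card, Fintype.card_subtype]

open Classical in
/-- The trace of the integer form. -/
theorem sum_regCoeff_self_eq (hM : IsPModular p M) {B : Set (IrrCharacter G)} (hB : IsPBlock M B) :
    ∑ ξ : IrrCharacter G, (if ξ ∈ B then regCoeff p ξ ξ else 0) =
      (p : ℤ) ^ (Nat.card G).factorization p * (blockRank p B : ℤ) := by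
  have h1 := card_mul_blockRank hM hB
  have hG : (Nat.card G : ℂ) ≠ 0 := by exact_mod_cast Nat.card_pos.ne'
  have hr : ∀ ξ : IrrCharacter G, (Nat.card G : ℂ) * (regCoeff p ξ ξ : ℂ) = ((p ^ (Nat.card G).factorization p : ℕ) : ℂ) *
      ∑ x : G, pRegularPart p (ξ : G → ℂ) x * (ξ : G → ℂ) x⁻¹ := by
    intro ξ
    rw [← regCoeff_spec, classInner_regPart, ← mul_assoc, ← mul_assoc, mul_inv_cancel₀ hG, one_mul]
    congr 1
    refine Finset.sum_congr rfl fun x _ => ?_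
    by_cases hx : p ∣ orderOf x
    · rw [if_pos hx, pRegularPart_eq_zero_of_dvd _ hx, zero_mul]
    · rw [if_neg hx, pRegularPart_eq_of_regular _ hx,
        Cfsg.Agent.Lib.Char.IsCharacter.map_inv' (Cfsg.Agent.Lib.Char.IsIrrCharacter.isCharacter ξ.2) x]
  have key : ∑ ξ : IrrCharacter G, (if ξ ∈ B then (regCoeff p ξ ξ : ℂ) else 0) =
      ((p ^ (Nat.card G).factorization p : ℕ) : ℂ) * (blockRank p B : ℂ) := by
    apply mul_left_cancel₀ hG
    rw [mul_left_comm, h1]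
    simp only [finsum_mem_irr]
    rw [Finset.sum_comm, Finset.mul_sum, Finset.mul_sum]
    refine Finset.sum_congr rfl fun ξ _ => ?_
    by_cases h : ξ ∈ B
    · simp only [if_pos h]
      exact hr ξ
    · simp [h]
  exact_mod_cast key

/-- The `p`-part of an integer from `MemLocalIdeal`. -/
theorem pow_succ_dvd_of_memLocalIdeal (hM : IsPModular p M) {r : ℤ} {N : ℕ} (hN : N ≠ 0) (hr : (p : ℤ) ^ N.factorization p ∣ r)
    (h : MemLocalIdeal M ((r : ℂ) / (N : ℂ))) : (p : ℤ) ^ (N.factorization p + 1) ∣ r := by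
  have := isPModular_isPrime hM
  obtain ⟨e, he⟩ : ∃ e, e = N.factorization p := ⟨_, rfl⟩
  rw [← he] at hr ⊢
  obtain ⟨k, rfl⟩ := hr
  have h0 := Nat.ordProj_mul_ordCompl_eq_self N p
  obtain ⟨c, hc⟩ : ∃ c, c = N / p ^ N.factorization p := ⟨_, rfl⟩
  rw [← hc, ← he] at h0
  have hp0 : (p : ℂ) ≠ 0 := by exact_mod_cast hp.out.ne_zero
  have hc0 : (c : ℂ) ≠ 0 := by
    have : c ≠ 0 := by
      rintro rfl
      simp at h0
      exact hN h0.symm
    exact_mod_cast this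
  have h1 : ((((p : ℤ) ^ e * k : ℤ)) : ℂ) / (N : ℂ) = (k : ℂ) * (c : ℂ)⁻¹ := by
    rw [← h0]
    push_cast
    field_simp
  rw [h1] at h
  have h2 := memLocalIdeal_mul_right h (memLocalRing_natCast (M := M) c)
  rw [mul_assoc, inv_mul_cancel₀ hc0, mul_one] at h2
  obtain ⟨v, rfl⟩ := (memLocalIdeal_intCast_iff hM k).mp h2
  exact ⟨v, by ring⟩

/-- The integer form on a block. -/
theorem exists_block_form (hM : IsPModular p M) {B : Set (IrrCharacter G)} (hB : IsPBlock M B) :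
    ∃ (χ₀ : IrrCharacter G) (n : IrrCharacter G → IrrCharacter G → ℤ), χ₀ ∈ B ∧
      blockHeight p B (χ₀ : G → ℂ) = 0 ∧
      (∀ ξ ψ, n ξ ψ = n ψ ξ) ∧
      (open Classical in ∀ χ ψ, χ ∈ B → ψ ∈ B →
        ∑ ξ : IrrCharacter G, (if ξ ∈ B then n χ ξ * n ξ ψ else 0) = (p : ℤ) ^ blockDefect p B * n χ ψ) ∧
      (∀ ξ ψ, ξ ∈ B → ψ ∈ B → (p : ℤ) ^ blockHeight p B (ξ : G → ℂ) ∣ n ξ ψ) ∧
      (∀ θ ξ, θ ∈ B → ξ ∈ B → blockHeight p B (θ : G → ℂ) = 0 → n ξ θ ≠ 0) ∧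
      (∀ χ₁, χ₁ ∈ B → 0 < blockHeight p B (χ₁ : G → ℂ) → (p : ℤ) ^ (blockHeight p B (χ₁ : G → ℂ) + 1) ∣ n χ₁ χ₁) ∧
      (open Classical in
        ∑ ξ : IrrCharacter G, (if ξ ∈ B then n ξ ξ else 0) = (p : ℤ) ^ blockDefect p B * (blockRank p B : ℤ)) := by
  classical
  have := isPModular_isPrime hM
  obtain ⟨χ₀, h₀, h₁, hmin⟩ := exists_min_height hB hM
  obtain ⟨b₀, hb₀⟩ : ∃ b₀, b₀ = (charDegree (χ₀ : G → ℂ)).factorization p := ⟨_, rfl⟩
  rw [← hb₀] at h₁ hmin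
  obtain ⟨a, ha⟩ : ∃ a, a = (Nat.card G).factorization p := ⟨_, rfl⟩
  have hdef : blockDefect p B = a - b₀ := by
    unfold blockDefect; rw [← h₁, ha]
  have hle : b₀ ≤ a := by
    rw [hb₀, ha]
    exact factorization_le_card χ₀
  have hheight : ∀ ξ : IrrCharacter G, blockHeight p B (ξ : G → ℂ) = (charDegree (ξ : G → ℂ)).factorization p - b₀ := by
    intro ξ
    unfold blockHeight
    rw [← h₁]
  have hheight' : ∀ ξ ∈ B, (charDegree (ξ : G → ℂ)).factorization p = b₀ + blockHeight p B (ξ : G → ℂ) := by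
    intro ξ hξ
    rw [hheight]
    have := hmin ξ hξ
    omega
  have hpz : (p : ℤ) ^ b₀ ≠ 0 := pow_ne_zero _ (by exact_mod_cast hp.out.ne_zero)
  have hdvd : ∀ ξ ∈ B, ∀ ψ, (p : ℤ) ^ b₀ ∣ regCoeff p ξ ψ := fun ξ hξ ψ =>
    dvd_trans (pow_dvd_pow _ (hmin ξ hξ)) (pow_dvd_regCoeff ξ ψ)
  refine ⟨χ₀, fun ξ ψ => regCoeff p ξ ψ / (p : ℤ) ^ b₀, h₀, ?_, ?_, ?_, ?_, ?_, ?_, ?_⟩
  · rw [hheight, ← hb₀, Nat.sub_self]
  · intro ξ ψ
    show regCoeff p ξ ψ / (p : ℤ) ^ b₀ = regCoeff p ψ ξ / (p : ℤ) ^ b₀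
    rw [regCoeff_comm]
  · intro χ ψ hχ hψ
    have e1 : ∀ ξ, (if ξ ∈ B then (regCoeff p χ ξ / (p : ℤ) ^ b₀) * (regCoeff p ξ ψ / (p : ℤ) ^ b₀) else 0) * ((p : ℤ) ^ b₀ * (p : ℤ) ^ b₀) =
        regCoeff p χ ξ * regCoeff p ξ ψ := by
      intro ξ
      split_ifs with h
      · have h1 := Int.mul_ediv_cancel' (hdvd χ hχ ξ)
        have h2 := Int.mul_ediv_cancel' (hdvd ξ h ψ)
        calc _ = ((p : ℤ) ^ b₀ * (regCoeff p χ ξ / (p : ℤ) ^ b₀)) * ((p : ℤ) ^ b₀ * (regCoeff p ξ ψ / (p : ℤ) ^ b₀)) := by ring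
          _ = _ := by rw [h1, h2]
      · rw [regCoeff_eq_zero_of_notMem hM hB hχ h]
        simp
    have e2 := sum_regCoeff_mul (p := p) χ ψ
    rw [← ha] at e2
    have e3 : (∑ ξ : IrrCharacter G, (if ξ ∈ B then (regCoeff p χ ξ / (p : ℤ) ^ b₀) * (regCoeff p ξ ψ / (p : ℤ) ^ b₀) else 0)) * ((p : ℤ) ^ b₀ * (p : ℤ) ^ b₀) =
        (p : ℤ) ^ (a - b₀) * (regCoeff p χ ψ / (p : ℤ) ^ b₀) * ((p : ℤ) ^ b₀ * (p : ℤ) ^ b₀) := by
      rw [Finset.sum_mul]
      simp only [e1]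
      rw [e2]
      have h1 := Int.mul_ediv_cancel' (hdvd χ hχ ψ)
      have h2 : (p : ℤ) ^ a = (p : ℤ) ^ (a - b₀) * (p : ℤ) ^ b₀ := by
        rw [← pow_add, Nat.sub_add_cancel hle]
      rw [h2]
      conv_lhs => rw [← h1]
      ring
    rw [hdef]
    exact mul_right_cancel₀ (mul_ne_zero hpz hpz) e3
  · intro ξ ψ hξ hψ
    have h1 := pow_dvd_regCoeff (p := p) ξ ψ
    rw [hheight' ξ hξ, pow_add] at h1
    have h2 := Int.mul_ediv_cancel' (hdvd ξ hξ ψ)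
    rw [← h2] at h1
    exact (mul_dvd_mul_iff_left hpz).mp h1
  · intro θ ξ hθ hξ hh
    intro h0
    have hθmin : ∀ u ∈ B, (charDegree (θ : G → ℂ)).factorization p ≤ (charDegree (u : G → ℂ)).factorization p := by
      intro u hu
      rw [hheight' θ hθ, hh, add_zero]
      exact hmin u hu
    have h1 := memLocalIdeal_regCoeff_div_iff hM hB hθ hθmin hθ
    have h2 : ¬ MemLocalIdeal M ((regCoeff p θ θ : ℂ) / (θ : G → ℂ) 1) := by
      rw [h1]
      exact lt_irrefl _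
    have h3 := memLocalIdeal_regCoeff_div_sub hM (sameBlock_of_mem hB hξ hθ) θ
    have h4 : regCoeff p ξ θ = 0 := by
      have h5 := Int.mul_ediv_cancel' (hdvd ξ hξ θ)
      show regCoeff p ξ θ = 0
      rw [← h5]
      have h6 : regCoeff p ξ θ / (p : ℤ) ^ b₀ = 0 := h0
      rw [h6, mul_zero]
    rw [h4] at h3
    simp only [Int.cast_zero, zero_div, zero_sub] at h3
    apply h2
    simpa using memLocalIdeal_neg h3
  · intro χ₁ hχ₁ hh
    have h2 : MemLocalIdeal M ((regCoeff p χ₀ χ₁ : ℂ) / (χ₀ : G → ℂ) 1) := by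
      rw [memLocalIdeal_regCoeff_div_iff hM hB h₀ (by rw [← hb₀]; exact hmin) hχ₁, ← hb₀, hheight' χ₁ hχ₁]
      omega
    have h3 := memLocalIdeal_regCoeff_div_sub hM (sameBlock_of_mem hB hχ₁ h₀) χ₁
    have h5 : MemLocalIdeal M ((regCoeff p χ₁ χ₁ : ℂ) / (χ₁ : G → ℂ) 1) := by
      simpa using memLocalIdeal_add h3 h2
    have hdeg : (χ₁ : G → ℂ) 1 = (charDegree (χ₁ : G → ℂ) : ℂ) := Cfsg.Agent.Lib.Char.map_one_eq_charDegree (Cfsg.Agent.Lib.Char.IsIrrCharacter.isCharacter χ₁.2)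
    rw [hdeg] at h5
    have h6 := pow_succ_dvd_of_memLocalIdeal hM (Cfsg.Agent.Lib.Char.charDegree_pos_of_irr χ₁.2).ne' (pow_dvd_regCoeff χ₁ χ₁) h5
    rw [hheight' χ₁ hχ₁, add_assoc, pow_add] at h6
    have h7 := Int.mul_ediv_cancel' (hdvd χ₁ hχ₁ χ₁)
    rw [← h7] at h6
    exact (mul_dvd_mul_iff_left hpz).mp h6
  · have e1 : ∀ ξ, (if ξ ∈ B then regCoeff p ξ ξ / (p : ℤ) ^ b₀ else 0) * (p : ℤ) ^ b₀ = if ξ ∈ B then regCoeff p ξ ξ else 0 := by
      intro ξ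
      split_ifs with h
      · rw [mul_comm]
        exact Int.mul_ediv_cancel' (hdvd ξ h ξ)
      · simp
    have e2 := sum_regCoeff_self_eq hM hB
    rw [← ha] at e2
    have e3 : (∑ ξ : IrrCharacter G, (if ξ ∈ B then regCoeff p ξ ξ / (p : ℤ) ^ b₀ else 0)) * (p : ℤ) ^ b₀ =
        (p : ℤ) ^ (a - b₀) * (blockRank p B : ℤ) * (p : ℤ) ^ b₀ := by
      rw [Finset.sum_mul]
      simp only [e1]
      rw [e2]
      have h2 : (p : ℤ) ^ a = (p : ℤ) ^ (a - b₀) * (p : ℤ) ^ b₀ := by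
        rw [← pow_add, Nat.sub_add_cancel hle]
      rw [h2]
      ring
    rw [hdef]
    exact mul_right_cancel₀ hpz e3

end Form

section Arith

theorem four_mul_le_sq (x P : ℤ) : 4 * (x * (P - x)) ≤ P ^ 2 := by
  nlinarith [sq_nonneg (P - 2 * x)]

theorem pow_two_mul_le_sq {p : ℕ} (hp : p.Prime) {h : ℕ} {n : ℤ} (hn : n ≠ 0) (hd : (p : ℤ) ^ h ∣ n) :
    (p : ℤ) ^ (2 * h) ≤ n ^ 2 := by
  obtain ⟨c, rfl⟩ := hd
  have hc : c ≠ 0 := fun h0 => hn (by rw [h0, mul_zero])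
  have h1 : 1 ≤ c ^ 2 := by
    have := sq_pos_of_ne_zero hc
    omega
  have h2 : (0 : ℤ) ≤ (p : ℤ) ^ (2 * h) := by positivity
  calc (p : ℤ) ^ (2 * h) = (p : ℤ) ^ (2 * h) * 1 := by ring
    _ ≤ (p : ℤ) ^ (2 * h) * c ^ 2 := mul_le_mul_of_nonneg_left h1 h2
    _ = ((p : ℤ) ^ h * c) ^ 2 := by ring

end Arith

section Bounds

variable {G : Type*} [Group G] [Fintype G] {p : ℕ} [hp : Fact p.Prime] {M : Ideal AlgInt}

/-- A row of the integer form: the sum of the squares off the diagonal. -/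
theorem sum_row_erase {ι : Type*} [DecidableEq ι] (S : Finset ι) (n : ι → ι → ℤ) (hs : ∀ ξ ψ, n ξ ψ = n ψ ξ) (P : ℤ)
    {ψ : ι} (hψ : ψ ∈ S) (h : ∑ ξ ∈ S, n ψ ξ * n ξ ψ = P * n ψ ψ) :
    ∑ ξ ∈ S.erase ψ, n ξ ψ ^ 2 = n ψ ψ * (P - n ψ ψ) := by
  rw [← Finset.add_sum_erase S _ hψ] at h
  have e : ∑ ξ ∈ S.erase ψ, n ψ ξ * n ξ ψ = ∑ ξ ∈ S.erase ψ, n ξ ψ ^ 2 := by
    refine Finset.sum_congr rfl fun ξ _ => ?_
    rw [hs ψ ξ]
    ring
  rw [e] at h
  linarith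

/-- The weighted Brauer--Feit inequality. -/
theorem sum_pow_height_le (hM : IsPModular p M) {B : Set (IrrCharacter G)} (hB : IsPBlock M B) :
    (open Classical in 4 * ∑ ξ ∈ (Finset.univ.filter fun χ : IrrCharacter G => χ ∈ B),
      (p : ℤ) ^ (2 * blockHeight p B (ξ : G → ℂ))) ≤ (p : ℤ) ^ (2 * blockDefect p B) + 4 := by
  classical
  obtain ⟨χ₀, n, h₀, hh₀, hs, hrow, hdvd, hne, -, -⟩ := exists_block_form hM hB
  set S := Finset.univ.filter fun χ : IrrCharacter G => χ ∈ B with hS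
  have h₀S : χ₀ ∈ S := Finset.mem_filter.2 ⟨Finset.mem_univ _, h₀⟩
  have h1 := hrow χ₀ χ₀ h₀ h₀
  rw [← Finset.sum_filter] at h1
  have h2 := sum_row_erase S n hs _ h₀S h1
  have h3 : ∑ ξ ∈ S.erase χ₀, (p : ℤ) ^ (2 * blockHeight p B (ξ : G → ℂ)) ≤ ∑ ξ ∈ S.erase χ₀, n ξ χ₀ ^ 2 := by
    refine Finset.sum_le_sum fun ξ hξ => ?_
    have hξB : ξ ∈ B := (Finset.mem_filter.1 (Finset.mem_of_mem_erase hξ)).2
    exact pow_two_mul_le_sq hp.out (hne χ₀ ξ h₀ hξB hh₀) (hdvd ξ χ₀ hξB h₀)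
  have h4 := four_mul_le_sq (n χ₀ χ₀) ((p : ℤ) ^ blockDefect p B)
  rw [← Finset.add_sum_erase S _ h₀S, hh₀, mul_zero, pow_zero]
  have e : ((p : ℤ) ^ blockDefect p B) ^ 2 = (p : ℤ) ^ (2 * blockDefect p B) := by
    rw [← pow_mul, mul_comm]
  rw [e] at h4
  rw [h2] at h3
  linarith

/-- **Brauer--Feit**: the bound on the number of characters in a block. -/
theorem brauer_feit (hM : IsPModular p M) {B : Set (IrrCharacter G)} (hB : IsPBlock M B) :
    4 * Nat.card B ≤ p ^ (2 * blockDefect p B) + 4 := by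
  classical
  have h1 := sum_pow_height_le hM hB
  rw [card_block_eq B]
  have h2 : (((Finset.univ.filter fun χ : IrrCharacter G => χ ∈ B).card : ℕ) : ℤ) ≤
      ∑ ξ ∈ (Finset.univ.filter fun χ : IrrCharacter G => χ ∈ B), (p : ℤ) ^ (2 * blockHeight p B (ξ : G → ℂ)) := by
    rw [Finset.card_eq_sum_ones]
    push_cast
    refine Finset.sum_le_sum fun ξ _ => ?_
    exact one_le_pow₀ (by exact_mod_cast hp.out.one_lt.le)
  have h3 : (((4 * (Finset.univ.filter fun χ : IrrCharacter G => χ ∈ B).card : ℕ)) : ℤ) ≤ ((p ^ (2 * blockDefect p B) + 4 : ℕ) : ℤ) := by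
    push_cast
    linarith
  exact_mod_cast h3

/-- The weighted form for a defect group. -/
theorem brauer_feit_weighted (hM : IsPModular p M) {B : Set (IrrCharacter G)} (hB : IsPBlock M B)
    {D : Subgroup G} (hD : IsDefectGroup p M B D) :
    ∑ᶠ χ ∈ B, p ^ (2 * blockHeight p B (χ : G → ℂ)) ≤ Nat.card D ^ 2 / 4 + 1 := by
  classical
  have h1 := sum_pow_height_le hM hB
  rw [card_defect_group hM hB hD]
  have e1 : ∑ᶠ χ ∈ B, p ^ (2 * blockHeight p B (χ : G → ℂ)) =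
      ∑ ξ ∈ (Finset.univ.filter fun χ : IrrCharacter G => χ ∈ B), p ^ (2 * blockHeight p B (ξ : G → ℂ)) := by
    rw [finsum_mem_irr, Finset.sum_filter]
  rw [e1]
  have e2 : (p ^ blockDefect p B) ^ 2 = p ^ (2 * blockDefect p B) := by
    rw [← pow_mul, mul_comm]
  rw [e2]
  obtain ⟨T, hT⟩ : ∃ T, T = ∑ ξ ∈ (Finset.univ.filter fun χ : IrrCharacter G => χ ∈ B), p ^ (2 * blockHeight p B (ξ : G → ℂ)) := ⟨_, rfl⟩
  rw [← hT]
  have h2 : ((4 * T : ℕ) : ℤ) ≤ ((p ^ (2 * blockDefect p B) + 4 : ℕ) : ℤ) := by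
    rw [hT]
    push_cast
    exact_mod_cast h1
  have h3 : 4 * T ≤ p ^ (2 * blockDefect p B) + 4 := by exact_mod_cast h2
  omega

/-- **Brauer--Feit complements.** -/
theorem brauer_feit_height (hM : IsPModular p M) {B : Set (IrrCharacter G)} (hB : IsPBlock M B) :
    ((∃ χ ∈ B, 0 < blockHeight p B (χ : G → ℂ)) → 2 * Nat.card B ≤ p ^ (2 * blockDefect p B - 2)) ∧
      ∀ χ ∈ B, (blockDefect p B ≤ 1 → blockHeight p B (χ : G → ℂ) = 0) ∧
        (2 ≤ blockDefect p B → blockHeight p B (χ : G → ℂ) ≤ blockDefect p B - 2) := by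
  classical
  obtain ⟨χ₀, n, h₀, hh₀, hs, hrow, hdvd, hne, hpos, -⟩ := exists_block_form hM hB
  set S := Finset.univ.filter fun χ : IrrCharacter G => χ ∈ B with hS
  set d := blockDefect p B with hd
  set P : ℤ := (p : ℤ) ^ d with hP
  have hPpos : 0 < P := pow_pos (by exact_mod_cast hp.out.pos) _
  have hpZ : (2 : ℤ) ≤ p := by exact_mod_cast hp.out.two_le
  have h₀S : χ₀ ∈ S := Finset.mem_filter.2 ⟨Finset.mem_univ _, h₀⟩
  have hrow' : ∀ ψ ∈ B, ∑ ξ ∈ S.erase ψ, n ξ ψ ^ 2 = n ψ ψ * (P - n ψ ψ) := by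
    intro ψ hψ
    have h1 := hrow ψ ψ hψ hψ
    rw [← Finset.sum_filter] at h1
    exact sum_row_erase S n hs _ (Finset.mem_filter.2 ⟨Finset.mem_univ _, hψ⟩) h1
  -- the key fact on a character of positive height
  have key : ∀ χ₁ ∈ B, 0 < blockHeight p B (χ₁ : G → ℂ) → blockHeight p B (χ₁ : G → ℂ) + 2 ≤ d := by
    intro χ₁ hχ₁ hh
    have hne1 : χ₀ ≠ χ₁ := by
      rintro rfl
      omega
    have h1 := hrow' χ₁ hχ₁
    have h2 : n χ₀ χ₁ ^ 2 ≤ ∑ ξ ∈ S.erase χ₁, n ξ χ₁ ^ 2 :=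
      Finset.single_le_sum (f := fun ξ => n ξ χ₁ ^ 2) (fun ξ _ => sq_nonneg _)
        (Finset.mem_erase.2 ⟨hne1, h₀S⟩)
    have h3 : n χ₀ χ₁ ≠ 0 := by
      rw [hs]
      exact hne χ₀ χ₁ h₀ hχ₁ hh₀
    have h4 : 0 < n χ₀ χ₁ ^ 2 := by positivity
    rw [h1] at h2
    have h5 : 0 < n χ₁ χ₁ * (P - n χ₁ χ₁) := by linarith
    -- positivity of the diagonal
    have h6 : 0 ≤ n χ₁ χ₁ := by
      have h7 := hrow χ₁ χ₁ hχ₁ hχ₁
      have h8 : 0 ≤ ∑ ξ : IrrCharacter G, (if ξ ∈ B then n χ₁ ξ * n ξ χ₁ else 0) := by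
        refine Finset.sum_nonneg fun ξ _ => ?_
        split_ifs
        · rw [hs χ₁ ξ]
          exact mul_self_nonneg _
        · exact le_rfl
      rw [h7] at h8
      exact nonneg_of_mul_nonneg_right h8 hPpos
    have h9 : 0 < n χ₁ χ₁ := by
      rcases h6.lt_or_eq with h | h
      · exact h
      · rw [← h] at h5
        simp at h5
    have h10 : n χ₁ χ₁ < P := by
      by_contra hc
      push Not at hc
      have : n χ₁ χ₁ * (P - n χ₁ χ₁) ≤ 0 := mul_nonpos_of_nonneg_of_nonpos h9.le (by linarith)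
      linarith
    -- divisibility
    have h11 := hpos χ₁ hχ₁ hh
    have h12 : (p : ℤ) ^ (blockHeight p B (χ₁ : G → ℂ) + 1) ≤ n χ₁ χ₁ := Int.le_of_dvd h9 h11
    have h13 : (p : ℤ) ^ (blockHeight p B (χ₁ : G → ℂ) + 1) < (p : ℤ) ^ d := lt_of_le_of_lt h12 h10
    have h14 := (pow_lt_pow_iff_right₀ (by exact_mod_cast hp.out.one_lt : (1 : ℤ) < p)).mp h13
    omega
  refine ⟨?_, ?_⟩
  · rintro ⟨χ₁, hχ₁, hh⟩
    have hd2 := key χ₁ hχ₁ hh
    have hne1 : χ₀ ≠ χ₁ := by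
      rintro rfl
      omega
    have hχ₁S : χ₁ ∈ S := Finset.mem_filter.2 ⟨Finset.mem_univ _, hχ₁⟩
    -- the two rows
    have h1 := hrow' χ₀ h₀
    have h2 := hrow' χ₁ hχ₁
    have h3 := four_mul_le_sq (n χ₀ χ₀) P
    have h4 := four_mul_le_sq (n χ₁ χ₁) P
    have hp2 : (p : ℤ) ^ 2 ≤ (p : ℤ) ^ (2 * blockHeight p B (χ₁ : G → ℂ)) :=
      pow_le_pow_right₀ (by exact_mod_cast hp.out.one_lt.le) (by omega)
    -- lower bound for every term
    have hterm : ∀ ξ ∈ S, (p : ℤ) ^ 2 ≤ (if ξ = χ₀ then 0 else n ξ χ₀ ^ 2) + (if ξ = χ₁ then 0 else n ξ χ₁ ^ 2) := by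
      intro ξ hξ
      have hξB : ξ ∈ B := (Finset.mem_filter.1 hξ).2
      have hnn : ∀ a b : ℤ, (0 : ℤ) ≤ (if ξ = χ₀ then (0 : ℤ) else n ξ χ₀ ^ 2) := by
        intro a b
        split_ifs
        · exact le_rfl
        · exact sq_nonneg _
      have hnn' : (0 : ℤ) ≤ (if ξ = χ₁ then (0 : ℤ) else n ξ χ₁ ^ 2) := by
        split_ifs
        · exact le_rfl
        · exact sq_nonneg _
      have hnn'' := hnn 0 0
      by_cases hh0 : blockHeight p B (ξ : G → ℂ) = 0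
      · -- `ξ` has height zero: the row of `χ₁`
        have hξ1 : ξ ≠ χ₁ := by
          rintro rfl
          omega
        rw [if_neg hξ1]
        have h5 : n ξ χ₁ ≠ 0 := by
          rw [hs]
          exact hne ξ χ₁ hξB hχ₁ hh0
        have h6 := pow_two_mul_le_sq hp.out h5 (by
          rw [hs]
          exact hdvd χ₁ ξ hχ₁ hξB)
        linarith
      · -- `ξ` has positive height: the row of `χ₀`
        have hξ0 : ξ ≠ χ₀ := by
          rintro rfl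
          exact hh0 hh₀
        rw [if_neg hξ0]
        have h5 := hne χ₀ ξ h₀ hξB hh₀
        have h6 := pow_two_mul_le_sq hp.out h5 (hdvd ξ χ₀ hξB h₀)
        have h7 : (p : ℤ) ^ 2 ≤ (p : ℤ) ^ (2 * blockHeight p B (ξ : G → ℂ)) :=
          pow_le_pow_right₀ (by exact_mod_cast hp.out.one_lt.le) (by omega)
        linarith
    have hsum : (S.card : ℤ) * (p : ℤ) ^ 2 ≤ ∑ ξ ∈ S, ((if ξ = χ₀ then 0 else n ξ χ₀ ^ 2) + (if ξ = χ₁ then 0 else n ξ χ₁ ^ 2)) := by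
      have := Finset.card_nsmul_le_sum S _ ((p : ℤ) ^ 2) hterm
      simpa using this
    have hsplit : ∀ ψ : IrrCharacter G, ∑ ξ ∈ S, (if ξ = ψ then (0 : ℤ) else n ξ ψ ^ 2) = ∑ ξ ∈ S.erase ψ, n ξ ψ ^ 2 := by
      intro ψ
      rw [Finset.sum_ite, Finset.sum_const_zero, zero_add, Finset.filter_ne']
    rw [Finset.sum_add_distrib, hsplit, hsplit, h1, h2] at hsum
    have e : P ^ 2 = (p : ℤ) ^ (2 * d) := by
      rw [hP, ← pow_mul, mul_comm]
    have hfinal : 2 * ((S.card : ℤ) * (p : ℤ) ^ 2) ≤ (p : ℤ) ^ (2 * d) := by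
      rw [← e]
      linarith
    have h2d : (p : ℤ) ^ (2 * d) = (p : ℤ) ^ (2 * d - 2) * (p : ℤ) ^ 2 := by
      rw [← pow_add]
      congr 1
      omega
    rw [h2d, ← mul_assoc] at hfinal
    have hp2pos : (0 : ℤ) < (p : ℤ) ^ 2 := pow_pos (by exact_mod_cast hp.out.pos) 2
    have h9 := le_of_mul_le_mul_right hfinal hp2pos
    rw [card_block_eq B]
    exact_mod_cast h9
  · intro χ hχ
    refine ⟨fun hd1 => ?_, fun hd2 => ?_⟩
    · by_contra hh
      have := key χ hχ (Nat.pos_of_ne_zero hh)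
      omega
    · by_cases hh : blockHeight p B (χ : G → ℂ) = 0
      · omega
      · have := key χ hχ (Nat.pos_of_ne_zero hh)
        omega

end Bounds

end Cfsg.Agent.Lib.Block
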