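import Cfsg.Agent.Lib.BPair.GalFix2
import Cfsg.Agent.Lib.Block.Cover
import Cfsg.Agent.Lib.Block.Misc
import Cfsg.Agent.Lib.Block.Jordan

/-!
# Principal blocks of central products with a `p`-group intersection
-/

set_option autoImplicit false
set_option linter.unusedSectionVars false
set_option linter.unusedSimpArgs false
set_option linter.unusedVariables false
set_option linter.style.haveILetI false

open scoped ComplexConjugate
open Cfsg MonoidAlgebra
open Cfsg.Agent.Lib.Char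

namespace Cfsg.Agent.Lib.Block

section CP

variable {G : Type*} [Group G] [Fintype G] {p : ℕ} [hp : Fact p.Prime] {M : Ideal AlgInt}
  (U₁ U₂ : Subgroup G)

theorem exists_mul_of_commute_sup (hcomm : ∀ u ∈ U₁, ∀ v ∈ U₂, u * v = v * u) (hgen : U₁ ⊔ U₂ = ⊤) (g : G) :
    ∃ u ∈ U₁, ∃ v ∈ U₂, g = u * v := by
  let K : Subgroup G :=
    { carrier := {g | ∃ u ∈ U₁, ∃ v ∈ U₂, g = u * v}
      mul_mem' := by
        rintro _ _ ⟨u, hu, v, hv, rfl⟩ ⟨u', hu', v', hv', rfl⟩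
        refine ⟨u * u', U₁.mul_mem hu hu', v * v', U₂.mul_mem hv hv', ?_⟩
        calc u * v * (u' * v') = u * (v * u') * v' := by group
          _ = u * (u' * v) * v' := by rw [hcomm u' hu' v hv]
          _ = u * u' * (v * v') := by group
      one_mem' := ⟨1, U₁.one_mem, 1, U₂.one_mem, by simp⟩
      inv_mem' := by
        rintro _ ⟨u, hu, v, hv, rfl⟩
        refine ⟨u⁻¹, U₁.inv_mem hu, v⁻¹, U₂.inv_mem hv, ?_⟩
        rw [mul_inv_rev]
        have := hcomm u⁻¹ (U₁.inv_mem hu) v⁻¹ (U₂.inv_mem hv)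
        exact this.symm }
  have h : U₁ ⊔ U₂ ≤ K := sup_le (fun u hu => ⟨u, hu, 1, U₂.one_mem, by simp⟩)
    (fun v hv => ⟨1, U₁.one_mem, v, hv, by simp⟩)
  rw [hgen] at h
  exact h (Subgroup.mem_top g)

theorem normal_of_commute_sup (hcomm : ∀ u ∈ U₁, ∀ v ∈ U₂, u * v = v * u) (hgen : U₁ ⊔ U₂ = ⊤) : U₁.Normal := by
  refine ⟨fun n hn g => ?_⟩
  obtain ⟨u, hu, v, hv, rfl⟩ := exists_mul_of_commute_sup U₁ U₂ hcomm hgen g
  have h1 : u * v * n * (u * v)⁻¹ = u * n * u⁻¹ := by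
    have := hcomm n hn v hv
    calc u * v * n * (u * v)⁻¹ = u * (v * n) * v⁻¹ * u⁻¹ := by group
      _ = u * (n * v) * v⁻¹ * u⁻¹ := by rw [this]
      _ = u * n * u⁻¹ := by group
  rw [h1]
  exact U₁.mul_mem (U₁.mul_mem hu hn) (U₁.inv_mem hu)

/-- Conjugacy in `G` of elements of `U₁` is conjugacy in `U₁`. -/
theorem isConj_sub_iff (hcomm : ∀ u ∈ U₁, ∀ v ∈ U₂, u * v = v * u) (hgen : U₁ ⊔ U₂ = ⊤) (a b : U₁) :
    IsConj (a : G) (b : G) ↔ IsConj a b := by
  constructor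
  · intro h
    obtain ⟨g, hg⟩ := isConj_iff.1 h
    obtain ⟨u, hu, v, hv, rfl⟩ := exists_mul_of_commute_sup U₁ U₂ hcomm hgen g
    refine isConj_iff.2 ⟨⟨u, hu⟩, Subtype.ext ?_⟩
    have := hcomm a a.2 v hv
    change u * a * u⁻¹ = b
    rw [← hg]
    calc u * a * u⁻¹ = u * (a * v) * v⁻¹ * u⁻¹ := by group
      _ = u * (v * a) * v⁻¹ * u⁻¹ := by rw [this]
      _ = u * v * a * (u * v)⁻¹ := by group
  · intro h
    obtain ⟨g, hg⟩ := isConj_iff.1 h
    refine isConj_iff.2 ⟨g, ?_⟩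
    rw [← hg]
    rfl

variable [Fintype U₁] [Fintype U₂]

theorem incl_classSum_sub (hcomm : ∀ u ∈ U₁, ∀ v ∈ U₂, u * v = v * u) (hgen : U₁ ⊔ U₂ = ⊤) (u : U₁) :
    incl U₁ (classSum u) = classSum (u : G) := by
  classical
  haveI := normal_of_commute_sup U₁ U₂ hcomm hgen
  apply ext_coeff
  intro g
  by_cases hg : g ∈ U₁
  · have h1 := coeff_incl_coe U₁ (classSum u) ⟨g, hg⟩
    change (incl U₁ (classSum u)).coeff g = _ at h1
    rw [h1, coeff_classSum, coeff_classSum]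
    have h2 := isConj_sub_iff U₁ U₂ hcomm hgen u ⟨g, hg⟩
    by_cases hc : IsConj (u : G) g
    · rw [if_pos hc, if_pos (h2.1 hc)]
    · rw [if_neg hc, if_neg (fun h => hc (h2.2 h))]
  · rw [coeff_incl_of_notMem U₁ _ hg, coeff_classSum, if_neg]
    intro h
    obtain ⟨x, hx⟩ := isConj_iff.1 h
    apply hg
    rw [← hx]
    exact Subgroup.Normal.conj_mem inferInstance _ u.2 x

/-- The central character of a character on elements of `U₁` is that of a constituent. -/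
theorem centralChar_eq_of_constituent (hcomm : ∀ u ∈ U₁, ∀ v ∈ U₂, u * v = v * u) (hgen : U₁ ⊔ U₂ = ⊤)
    (χ : IrrCharacter G) (θ : IrrCharacter U₁) (h : classInner (fun u : U₁ => (χ : G → ℂ) u) (θ : U₁ → ℂ) ≠ 0) (u : U₁) :
    centralChar (χ : G → ℂ) u = centralChar (θ : U₁ → ℂ) u := by
  classical
  haveI := normal_of_commute_sup U₁ U₂ hcomm hgen
  have h1 := om_incl_of_constituent U₁ χ θ h (w := classSum u)
    (by rw [incl_classSum_sub U₁ U₂ hcomm hgen]; exact isCentralElt_classSum _)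
  rw [incl_classSum_sub U₁ U₂ hcomm hgen, om_classSum (IsCharacter.isClassFunction (IsIrrCharacter.isCharacter χ.2)),
    om_classSum (IsCharacter.isClassFunction (IsIrrCharacter.isCharacter θ.2))] at h1
  exact h1

omit [Fintype U₁] [Fintype U₂] in
/-- Indices of the intersection of subgroups whose product is the whole group. -/
theorem relIndex_eq_index_of_mul (H K : Subgroup G) (h : ∀ g : G, ∃ a ∈ H, ∃ b ∈ K, g = a * b) :
    H.relIndex K = H.index := by
  classical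
  have hcard : Nat.card (K ⧸ H.subgroupOf K) = Nat.card (G ⧸ H) := by
    apply Nat.card_congr
    refine Equiv.ofBijective
      (Quotient.map' (s₁ := QuotientGroup.leftRel (H.subgroupOf K)) (s₂ := QuotientGroup.leftRel H) Subtype.val ?_) ⟨?_, ?_⟩
    · intro a b hab
      rw [QuotientGroup.leftRel_apply] at hab ⊢
      exact hab
    · intro a b
      induction a using Quotient.inductionOn' with
      | h a =>
        induction b using Quotient.inductionOn' with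
        | h b =>
          intro hab
          have h1 := Quotient.eq''.1 hab
          apply Quotient.eq''.2
          rw [QuotientGroup.leftRel_apply] at h1 ⊢
          exact h1
    · intro q
      induction q using Quotient.inductionOn' with
      | h g =>
        obtain ⟨a, ha, b, hb, hab⟩ := h g⁻¹
        refine ⟨Quotient.mk'' ⟨b⁻¹, K.inv_mem hb⟩, ?_⟩
        apply Quotient.eq''.2
        rw [QuotientGroup.leftRel_apply]
        have : (b⁻¹)⁻¹ * g = a⁻¹ := by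
          have h2 : g = b⁻¹ * a⁻¹ := by
            have := congrArg (·⁻¹) hab
            simpa using this
          rw [h2]
          group
        change (b⁻¹)⁻¹ * g ∈ H
        rw [this]
        exact H.inv_mem ha
  exact hcard

omit [Fintype U₁] [Fintype U₂] in
theorem index_inf_of_mul (H K : Subgroup G) (h : ∀ g : G, ∃ a ∈ H, ∃ b ∈ K, g = a * b) :
    (H ⊓ K).index = H.index * K.index := by
  have h1 := Subgroup.relIndex_inf_mul_relIndex H K ⊤
  rw [inf_top_eq, Subgroup.relIndex_top_right, Subgroup.relIndex_top_right, relIndex_eq_index_of_mul H K h] at h1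
  exact h1.symm

omit [Fintype U₁] [Fintype U₂] in
/-- A regular element is a product of regular elements. -/
theorem exists_regular_mul (hcomm : ∀ u ∈ U₁, ∀ v ∈ U₂, u * v = v * u) (hgen : U₁ ⊔ U₂ = ⊤) {g : G}
    (hg : ¬ p ∣ orderOf g) : ∃ u ∈ U₁, ∃ v ∈ U₂, g = u * v ∧ ¬ p ∣ orderOf u ∧ ¬ p ∣ orderOf v := by
  classical
  obtain ⟨u', hu', v', hv', hgdef⟩ := exists_mul_of_commute_sup U₁ U₂ hcomm hgen g
  obtain ⟨a, b, hab, hcab, ⟨k, hk⟩, hb, ha', hb'⟩ := exists_jordan (p := p) u'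
  obtain ⟨c, d, hcd, hccd, ⟨l, hl⟩, hd, hc', hd'⟩ := exists_jordan (p := p) v'
  have hzu : Subgroup.zpowers u' ≤ U₁ := (Subgroup.zpowers_le).2 hu'
  have hzv : Subgroup.zpowers v' ≤ U₂ := (Subgroup.zpowers_le).2 hv'
  have haU := hzu ha'
  have hbU := hzu hb'
  have hcU := hzv hc'
  have hdU := hzv hd'
  have hac : Commute a c := hcomm a haU c hcU
  have had : Commute a d := hcomm a haU d hdU
  have hbc : Commute b c := hcomm b hbU c hcU
  have hbd : Commute b d := hcomm b hbU d hdU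
  have hxy : (a * c) * (b * d) = g := by
    rw [hgdef, ← hab, ← hcd]
    have := hbc.eq
    calc a * c * (b * d) = a * (c * b) * d := by group
      _ = a * (b * c) * d := by rw [this]
      _ = a * b * (c * d) := by group
  have hcx : Commute (a * c) (b * d) := by
    apply Commute.mul_left
    · exact Commute.mul_right hcab had
    · exact Commute.mul_right hbc.symm hccd
  have hpx : ∃ e, orderOf (a * c) = p ^ e := by
    have h1 : orderOf (a * c) ∣ Nat.lcm (orderOf a) (orderOf c) := hac.orderOf_mul_dvd_lcm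
    have h2 : Nat.lcm (orderOf a) (orderOf c) ∣ p ^ (max k l) := by
      apply Nat.lcm_dvd
      · rw [hk]; exact pow_dvd_pow _ (le_max_left _ _)
      · rw [hl]; exact pow_dvd_pow _ (le_max_right _ _)
    obtain ⟨e, _, he⟩ := (Nat.dvd_prime_pow hp.out).1 (h1.trans h2)
    exact ⟨e, he⟩
  have hpy : ¬ p ∣ orderOf (b * d) := by
    intro h
    have h1 : orderOf (b * d) ∣ Nat.lcm (orderOf b) (orderOf d) := hbd.orderOf_mul_dvd_lcm
    have h2 : p ∣ orderOf b * orderOf d := (h.trans h1).trans (Nat.lcm_dvd_mul _ _)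
    rcases hp.out.dvd_mul.1 h2 with h3 | h3
    · exact hb h3
    · exact hd h3
  have hun := jordan_unique (p := p) (x := 1) (y := g) (x' := a * c) (y' := b * d) (Commute.one_left _) hcx
    (by rw [one_mul, hxy]) (Subgroup.one_mem _) (by rw [one_mul]; exact Subgroup.mem_zpowers g)
    ⟨0, by simp⟩ hg hpx hpy
  refine ⟨b, hbU, d, hdU, hun.2, hb, hd⟩

omit [Fintype U₁] [Fintype U₂] in
/-- The centralizer of a product of regular elements. -/
theorem centralizer_mul_eq (hcomm : ∀ u ∈ U₁, ∀ v ∈ U₂, u * v = v * u)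
    (hZ : IsPGroup p ↥(U₁ ⊓ U₂)) {u v : G} (hu : u ∈ U₁) (hv : v ∈ U₂) (hur : ¬ p ∣ orderOf u)
    (hgen : U₁ ⊔ U₂ = ⊤) :
    Subgroup.centralizer ({u * v} : Set G) = Subgroup.centralizer ({u} : Set G) ⊓ Subgroup.centralizer ({v} : Set G) := by
  classical
  haveI := normal_of_commute_sup U₁ U₂ hcomm hgen
  haveI : U₂.Normal := normal_of_commute_sup U₂ U₁ (fun a ha b hb => (hcomm b hb a ha).symm) (by rw [sup_comm]; exact hgen)
  apply le_antisymm
  · intro x hx
    rw [Subgroup.mem_centralizer_singleton_iff] at hx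
    have hxu : x * u * x⁻¹ ∈ U₁ := Subgroup.Normal.conj_mem inferInstance _ hu x
    have hxv : x * v * x⁻¹ ∈ U₂ := Subgroup.Normal.conj_mem inferInstance _ hv x
    have hprod : (x * u * x⁻¹) * (x * v * x⁻¹) = u * v := by
      calc (x * u * x⁻¹) * (x * v * x⁻¹) = x * (u * v) * x⁻¹ := by group
        _ = u * v * x * x⁻¹ := by rw [hx]
        _ = u * v := by group
    obtain ⟨z, hz⟩ : ∃ z, z = u⁻¹ * (x * u * x⁻¹) := ⟨_, rfl⟩
    have hz1 : z ∈ U₁ := by
      rw [hz]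
      exact U₁.mul_mem (U₁.inv_mem hu) hxu
    have hz2 : z = v * (x * v * x⁻¹)⁻¹ := by
      rw [hz, ← mul_right_inj u, ← mul_assoc, mul_inv_cancel, one_mul]
      calc x * u * x⁻¹ = (x * u * x⁻¹) * (x * v * x⁻¹) * (x * v * x⁻¹)⁻¹ := by group
        _ = u * v * (x * v * x⁻¹)⁻¹ := by rw [hprod]
        _ = _ := by group
    have hz3 : z ∈ U₂ := by
      rw [hz2]
      exact U₂.mul_mem hv (U₂.inv_mem hxv)
    have hzp : ∃ k, orderOf z = p ^ k := by
      obtain ⟨k, hk⟩ := IsPGroup.iff_orderOf.1 hZ ⟨z, Subgroup.mem_inf.2 ⟨hz1, hz3⟩⟩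
      exact ⟨k, by rw [← hk]; exact (Subgroup.orderOf_mk _ _).symm⟩
    have hcz : Commute u z := hcomm u hu z hz3
    have hconj : u * z = x * u * x⁻¹ := by
      rw [hz, ← mul_assoc, mul_inv_cancel, one_mul]
    have hz1' : z = 1 := by
      by_contra hne
      have h1 := dvd_orderOf_mul hcz hur hzp hne
      rw [hconj] at h1
      apply hur
      have h2 : IsConj u (x * u * x⁻¹) := isConj_iff.2 ⟨x, rfl⟩
      rw [← (orderOf_eq_of_isConj h2)] at h1
      exact h1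
    have h3 : x * u * x⁻¹ = u := by
      rw [← hconj, hz1', mul_one]
    have h4 : x * v * x⁻¹ = v := by
      have := hprod
      rw [h3] at this
      exact mul_left_cancel this
    refine Subgroup.mem_inf.2 ⟨?_, ?_⟩
    · rw [Subgroup.mem_centralizer_singleton_iff]
      calc x * u = x * u * x⁻¹ * x := by group
        _ = u * x := by rw [h3]
    · rw [Subgroup.mem_centralizer_singleton_iff]
      calc x * v = x * v * x⁻¹ * x := by group
        _ = v * x := by rw [h4]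
  · intro x hx
    obtain ⟨h1, h2⟩ := Subgroup.mem_inf.1 hx
    rw [Subgroup.mem_centralizer_singleton_iff] at h1 h2
    rw [Subgroup.mem_centralizer_singleton_iff, ← mul_assoc, h1, mul_assoc, h2, mul_assoc]

omit [Fintype U₁] [Fintype U₂] in
theorem index_centralizer_mul (hcomm : ∀ u ∈ U₁, ∀ v ∈ U₂, u * v = v * u) (hgen : U₁ ⊔ U₂ = ⊤)
    (hZ : IsPGroup p ↥(U₁ ⊓ U₂)) {u v : G} (hu : u ∈ U₁) (hv : v ∈ U₂) (hur : ¬ p ∣ orderOf u) :
    (Subgroup.centralizer ({u * v} : Set G)).index =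
      (Subgroup.centralizer ({u} : Set G)).index * (Subgroup.centralizer ({v} : Set G)).index := by
  rw [centralizer_mul_eq U₁ U₂ hcomm hZ hu hv hur hgen]
  apply index_inf_of_mul
  intro g
  obtain ⟨a, ha, b, hb, rfl⟩ := exists_mul_of_commute_sup U₁ U₂ hcomm hgen g
  refine ⟨b, ?_, a, ?_, (hcomm a ha b hb)⟩
  · rw [Subgroup.mem_centralizer_singleton_iff]
    exact (hcomm u hu b hb).symm
  · rw [Subgroup.mem_centralizer_singleton_iff]
    exact hcomm a ha v hv

omit [Fintype U₁] [Fintype U₂] in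
/-- Conjugates of `u` and `v` multiply to a conjugate of `u * v`. -/
theorem isConj_mul_of_isConj (hcomm : ∀ u ∈ U₁, ∀ v ∈ U₂, u * v = v * u) (hgen : U₁ ⊔ U₂ = ⊤) {u v h k : G}
    (hu : u ∈ U₁) (hv : v ∈ U₂) (hh : IsConj u h) (hk : IsConj v k) : IsConj (u * v) (h * k) := by
  obtain ⟨x, rfl⟩ := isConj_iff.1 hh
  obtain ⟨y, rfl⟩ := isConj_iff.1 hk
  obtain ⟨x₁, hx₁, x₂, hx₂, rfl⟩ := exists_mul_of_commute_sup U₁ U₂ hcomm hgen x
  obtain ⟨y₁, hy₁, y₂, hy₂, rfl⟩ := exists_mul_of_commute_sup U₁ U₂ hcomm hgen y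
  have e1 : x₁ * x₂ * u * (x₁ * x₂)⁻¹ = x₁ * u * x₁⁻¹ := by
    have := hcomm u hu x₂ hx₂
    calc x₁ * x₂ * u * (x₁ * x₂)⁻¹ = x₁ * (x₂ * u) * x₂⁻¹ * x₁⁻¹ := by group
      _ = x₁ * (u * x₂) * x₂⁻¹ * x₁⁻¹ := by rw [this]
      _ = x₁ * u * x₁⁻¹ := by group
  have e2 : y₁ * y₂ * v * (y₁ * y₂)⁻¹ = y₂ * v * y₂⁻¹ := by
    have := hcomm y₁ hy₁ (y₂ * v * y₂⁻¹) (U₂.mul_mem (U₂.mul_mem hy₂ hv) (U₂.inv_mem hy₂))
    calc y₁ * y₂ * v * (y₁ * y₂)⁻¹ = (y₁ * (y₂ * v * y₂⁻¹)) * y₁⁻¹ := by group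
      _ = ((y₂ * v * y₂⁻¹) * y₁) * y₁⁻¹ := by rw [this]
      _ = y₂ * v * y₂⁻¹ := by group
  rw [e1, e2]
  refine isConj_iff.2 ⟨x₁ * y₂, ?_⟩
  have c1 := hcomm u hu y₂ hy₂
  have c2 := hcomm x₁ hx₁ (y₂ * v * y₂⁻¹) (U₂.mul_mem (U₂.mul_mem hy₂ hv) (U₂.inv_mem hy₂))
  calc x₁ * y₂ * (u * v) * (x₁ * y₂)⁻¹ = x₁ * (y₂ * u) * v * y₂⁻¹ * x₁⁻¹ := by group
    _ = x₁ * (u * y₂) * v * y₂⁻¹ * x₁⁻¹ := by rw [c1]
    _ = x₁ * u * (y₂ * v * y₂⁻¹) * x₁⁻¹ := by group
    _ = x₁ * u * x₁⁻¹ * (x₁ * (y₂ * v * y₂⁻¹)) * x₁⁻¹ := by group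
    _ = x₁ * u * x₁⁻¹ * ((y₂ * v * y₂⁻¹) * x₁) * x₁⁻¹ := by rw [c2]
    _ = x₁ * u * x₁⁻¹ * (y₂ * v * y₂⁻¹) := by group

omit [Fintype U₁] [Fintype U₂] in
/-- The central character at a product of regular elements. -/
theorem centralChar_mul_of_regular (hcomm : ∀ u ∈ U₁, ∀ v ∈ U₂, u * v = v * u) (hgen : U₁ ⊔ U₂ = ⊤)
    (hZ : IsPGroup p ↥(U₁ ⊓ U₂)) (χ : IrrCharacter G) {u v : G} (hu : u ∈ U₁) (hv : v ∈ U₂) (hur : ¬ p ∣ orderOf u) :
    centralChar (χ : G → ℂ) (u * v) = centralChar (χ : G → ℂ) u * centralChar (χ : G → ℂ) v := by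
  classical
  have hcf := IsCharacter.isClassFunction (IsIrrCharacter.isCharacter χ.2)
  rw [← om_classSum hcf u, ← om_classSum hcf v, ← om_mul χ.2 (isCentralElt_classSum u), om, tr_mul_eq_sum]
  have h1 : ∀ h k : G, (classSum u).coeff h * (classSum v).coeff k * (χ : G → ℂ) (h * k) =
      (classSum u).coeff h * (classSum v).coeff k * (χ : G → ℂ) (u * v) := by
    intro h k
    by_cases hh : IsConj u h
    · by_cases hk : IsConj v k
      · have := isConj_mul_of_isConj U₁ U₂ hcomm hgen hu hv hh hk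
        obtain ⟨t, ht⟩ := isConj_iff.1 this
        rw [← ht, hcf]
      · rw [coeff_classSum v k, if_neg hk, mul_zero, zero_mul, zero_mul]
    · rw [coeff_classSum u h, if_neg hh, zero_mul, zero_mul, zero_mul]
  simp only [h1]
  have h2 : ∑ h : G, ∑ k : G, (classSum u).coeff h * (classSum v).coeff k * (χ : G → ℂ) (u * v) =
      (∑ h, (classSum u).coeff h) * (∑ k, (classSum v).coeff k) * (χ : G → ℂ) (u * v) := by
    rw [Finset.sum_mul_sum, Finset.sum_mul]
    refine Finset.sum_congr rfl fun h _ => ?_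
    rw [Finset.sum_mul]
  rw [h2, sum_coeff_classSum, sum_coeff_classSum, centralChar, index_centralizer_mul U₁ U₂ hcomm hgen hZ hu hv hur]
  push_cast
  rfl

/-- S4521. -/
theorem principal_central_product (hM : IsPModular p M) (hcomm : ∀ u ∈ U₁, ∀ v ∈ U₂, u * v = v * u) (hgen : U₁ ⊔ U₂ = ⊤)
    (hZ : IsPGroup p ↥(U₁ ⊓ U₂)) (χ : IrrCharacter G) (ψ₁ : IrrCharacter U₁) (ψ₂ : IrrCharacter U₂)
    (h₁ : classInner (fun u : U₁ => (χ : G → ℂ) u) (ψ₁ : U₁ → ℂ) ≠ 0)
    (h₂ : classInner (fun u : U₂ => (χ : G → ℂ) u) (ψ₂ : U₂ → ℂ) ≠ 0) :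
    χ ∈ principalBlock M G ↔ (ψ₁ ∈ principalBlock M U₁ ∧ ψ₂ ∈ principalBlock M U₂) := by
  classical
  haveI := isPModular_isPrime hM
  have hcomm' : ∀ u ∈ U₂, ∀ v ∈ U₁, u * v = v * u := fun a ha b hb => (hcomm b hb a ha).symm
  have hgen' : U₂ ⊔ U₁ = ⊤ := by rw [sup_comm]; exact hgen
  -- the principal characters
  have hone1 : classInner (fun u : U₁ => ((oneIrr G : IrrCharacter G) : G → ℂ) u) ((oneIrr U₁ : IrrCharacter U₁) : U₁ → ℂ) ≠ 0 := by
    have := classInner_irr_self (oneIrr U₁).2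
    change classInner ((oneIrr U₁ : IrrCharacter U₁) : U₁ → ℂ) ((oneIrr U₁ : IrrCharacter U₁) : U₁ → ℂ) ≠ 0
    rw [this]
    exact one_ne_zero
  have hone2 : classInner (fun u : U₂ => ((oneIrr G : IrrCharacter G) : G → ℂ) u) ((oneIrr U₂ : IrrCharacter U₂) : U₂ → ℂ) ≠ 0 := by
    have := classInner_irr_self (oneIrr U₂).2
    change classInner ((oneIrr U₂ : IrrCharacter U₂) : U₂ → ℂ) ((oneIrr U₂ : IrrCharacter U₂) : U₂ → ℂ) ≠ 0
    rw [this]
    exact one_ne_zero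
  have e1 := centralChar_eq_of_constituent U₁ U₂ hcomm hgen χ ψ₁ h₁
  have e2 := centralChar_eq_of_constituent U₂ U₁ hcomm' hgen' χ ψ₂ h₂
  have o1 := centralChar_eq_of_constituent U₁ U₂ hcomm hgen (oneIrr G) (oneIrr U₁) hone1
  have o2 := centralChar_eq_of_constituent U₂ U₁ hcomm' hgen' (oneIrr G) (oneIrr U₂) hone2
  constructor
  · intro h
    have h' : SameBlock M ((oneIrr G : IrrCharacter G) : G → ℂ) (χ : G → ℂ) := h
    constructor
    · change SameBlock M ((oneIrr U₁ : IrrCharacter U₁) : U₁ → ℂ) (ψ₁ : U₁ → ℂ)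
      intro u
      rw [← e1, ← o1]
      exact h' u
    · change SameBlock M ((oneIrr U₂ : IrrCharacter U₂) : U₂ → ℂ) (ψ₂ : U₂ → ℂ)
      intro u
      rw [← e2, ← o2]
      exact h' u
  · rintro ⟨h1, h2⟩
    have h1' : SameBlock M ((oneIrr U₁ : IrrCharacter U₁) : U₁ → ℂ) (ψ₁ : U₁ → ℂ) := h1
    have h2' : SameBlock M ((oneIrr U₂ : IrrCharacter U₂) : U₂ → ℂ) (ψ₂ : U₂ → ℂ) := h2
    change SameBlock M ((oneIrr G : IrrCharacter G) : G → ℂ) (χ : G → ℂ)
    apply Cfsg.Agent.Lib.BPair.sameBlock_of_regular hM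
    intro g hg
    obtain ⟨u, hu, v, hv, rfl, hur, hvr⟩ := exists_regular_mul (p := p) U₁ U₂ hcomm hgen hg
    rw [centralChar_mul_of_regular U₁ U₂ hcomm hgen hZ _ hu hv hur, centralChar_mul_of_regular U₁ U₂ hcomm hgen hZ _ hu hv hur]
    have a1 : MemLocalIdeal M (centralChar ((oneIrr G : IrrCharacter G) : G → ℂ) u - centralChar (χ : G → ℂ) u) := by
      have := h1' ⟨u, hu⟩
      rw [← o1 ⟨u, hu⟩, ← e1 ⟨u, hu⟩] at this
      exact this
    have a2 : MemLocalIdeal M (centralChar ((oneIrr G : IrrCharacter G) : G → ℂ) v - centralChar (χ : G → ℂ) v) := by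
      have := h2' ⟨v, hv⟩
      rw [← o2 ⟨v, hv⟩, ← e2 ⟨v, hv⟩] at this
      exact this
    have e : centralChar ((oneIrr G : IrrCharacter G) : G → ℂ) u * centralChar ((oneIrr G : IrrCharacter G) : G → ℂ) v -
        centralChar (χ : G → ℂ) u * centralChar (χ : G → ℂ) v =
        (centralChar ((oneIrr G : IrrCharacter G) : G → ℂ) u - centralChar (χ : G → ℂ) u) * centralChar ((oneIrr G : IrrCharacter G) : G → ℂ) v +
        centralChar (χ : G → ℂ) u * (centralChar ((oneIrr G : IrrCharacter G) : G → ℂ) v - centralChar (χ : G → ℂ) v) := by ring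
    rw [e]
    exact memLocalIdeal_add (memLocalIdeal_mul_right a1 (memLocalRing_centralChar (oneIrr G).2 v))
      (memLocalIdeal_mul_left (memLocalRing_centralChar χ.2 u) a2)

end CP

end Cfsg.Agent.Lib.Block
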