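import Cfsg.Agent.Lib.Block.Local
import Cfsg.Agent.Lib.Block.Central
import Cfsg.Agent.Lib.Char.Galois

/-!
# Blocks do not depend on the maximal ideal

An algebraic integer all of whose conjugates lie in one maximal ideal over `p` lies in every maximal ideal over `p`;
the central characters are permuted by coprime powers of group elements.
-/

set_option autoImplicit false
set_option linter.unusedSectionVars false
set_option linter.unusedSimpArgs false
set_option linter.unusedVariables false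

open scoped ComplexConjugate
open Cfsg Polynomial

namespace Cfsg.Agent.Lib.Block

section Roots

variable {M M' : Ideal AlgInt} {p : ℕ}

theorem coeff_prod_mem (hM : M.IsPrime) (S : Multiset ℂ) (hS : ∀ β ∈ S, ∃ b : AlgInt, b ∈ M ∧ (b : ℂ) = β) :
    (∀ i, ∃ b : AlgInt, (b : ℂ) = ((S.map (fun a => (X - C a : ℂ[X]))).prod).coeff i) ∧
    ∀ i, i < Multiset.card S → ∃ b : AlgInt, b ∈ M ∧ (b : ℂ) = ((S.map (fun a => (X - C a : ℂ[X]))).prod).coeff i := by
  induction S using Multiset.induction_on with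
  | empty =>
    refine ⟨fun i => ?_, fun i hi => by simp at hi⟩
    by_cases h : i = 0
    · subst h
      exact ⟨1, by simp⟩
    · exact ⟨0, by simp [Polynomial.coeff_one, h]⟩
  | cons β S ih =>
    obtain ⟨ih1, ih2⟩ := ih (fun a ha => hS a (Multiset.mem_cons_of_mem ha))
    obtain ⟨b, hb, hbβ⟩ := hS β (Multiset.mem_cons_self _ _)
    have hexp : ∀ i, ((Multiset.cons β S).map (fun a => (X - C a : ℂ[X]))).prod.coeff (i + 1) =
        ((S.map (fun a => (X - C a : ℂ[X]))).prod).coeff i - β * ((S.map (fun a => (X - C a : ℂ[X]))).prod).coeff (i + 1) := by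
      intro i
      rw [Multiset.map_cons, Multiset.prod_cons, sub_mul, coeff_sub, coeff_X_mul, coeff_C_mul]
    have hexp0 : ((Multiset.cons β S).map (fun a => (X - C a : ℂ[X]))).prod.coeff 0 =
        - (β * ((S.map (fun a => (X - C a : ℂ[X]))).prod).coeff 0) := by
      rw [Multiset.map_cons, Multiset.prod_cons, sub_mul, coeff_sub, coeff_X_mul_zero, coeff_C_mul]
      ring
    constructor
    · intro i
      cases i with
      | zero =>
        obtain ⟨a, ha⟩ := ih1 0
        refine ⟨-(b * a), ?_⟩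
        rw [hexp0, ← ha, ← hbβ]
        simp
      | succ j =>
        obtain ⟨a, ha⟩ := ih1 j
        obtain ⟨a', ha'⟩ := ih1 (j + 1)
        refine ⟨a - b * a', ?_⟩
        rw [hexp, ← ha, ← ha', ← hbβ]
        simp
    · intro i hi
      cases i with
      | zero =>
        obtain ⟨a, ha⟩ := ih1 0
        refine ⟨-(b * a), M.neg_mem (M.mul_mem_right _ hb), ?_⟩
        rw [hexp0, ← ha, ← hbβ]
        simp
      | succ j =>
        have hj : j < Multiset.card S := by simpa using hi
        obtain ⟨a, haM, ha⟩ := ih2 j hj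
        obtain ⟨a', ha'⟩ := ih1 (j + 1)
        refine ⟨a - b * a', M.sub_mem haM (M.mul_mem_right _ hb), ?_⟩
        rw [hexp, ← ha, ← ha', ← hbβ]
        simp

/-- An algebraic integer all of whose conjugates lie in `M` lies in every maximal ideal over `p`. -/
theorem mem_of_roots_mem (hM : IsPModular p M) (hM' : IsPModular p M') (r : AlgInt)
    (h : ∀ β : ℂ, aeval β (minpoly ℤ (r : ℂ)) = 0 → ∃ b : AlgInt, b ∈ M ∧ (b : ℂ) = β) : r ∈ M' := by
  classical
  have hMp := isPModular_isPrime hM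
  have hMp' := isPModular_isPrime hM'
  have hint : IsIntegral ℤ (r : ℂ) := r.2
  have hmon := minpoly.monic hint
  set f := minpoly ℤ (r : ℂ) with hf
  set g := f.map (algebraMap ℤ ℂ) with hg
  have hs : g.Splits := IsAlgClosed.splits g
  have hprod := hs.eq_prod_roots_of_monic (hmon.map _)
  have hroots : ∀ β ∈ g.roots, ∃ b : AlgInt, b ∈ M ∧ (b : ℂ) = β := by
    intro β hβ
    apply h
    rw [mem_roots (hmon.map _).ne_zero, IsRoot, eval_map_algebraMap] at hβ
    exact hβ
  have hkey := (coeff_prod_mem hMp g.roots hroots).2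
  rw [← hprod] at hkey
  have hcard : Multiset.card g.roots = f.natDegree := by
    rw [← hs.natDegree_eq_card_roots, hg, hmon.natDegree_map]
  have hcoeff : ∀ i, i < f.natDegree → ((f.coeff i : ℤ) : AlgInt) ∈ M' := by
    intro i hi
    obtain ⟨b, hb, hbe⟩ := hkey i (by rw [hcard]; exact hi)
    have h1 : b = ((f.coeff i : ℤ) : AlgInt) := by
      apply Subtype.ext
      rw [hbe, hg, coeff_map]
      simp
    rw [h1] at hb
    exact (isPModular_intCast_mem_iff hM' _).2 ((isPModular_intCast_mem_iff hM _).1 hb)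
  have heval : aeval (r : ℂ) f = 0 := minpoly.aeval ℤ (r : ℂ)
  rw [aeval_eq_sum_range, Finset.sum_range_succ, hmon.coeff_natDegree, one_smul] at heval
  have h2 : r ^ f.natDegree = - ∑ i ∈ Finset.range f.natDegree, ((f.coeff i : ℤ) : AlgInt) * r ^ i := by
    apply Subtype.ext
    push_cast
    rw [eq_neg_iff_add_eq_zero, add_comm, ← heval]
    congr 1
    refine Finset.sum_congr rfl fun i _ => ?_
    simp
  have h3 : r ^ f.natDegree ∈ M' := by
    rw [h2]
    apply M'.neg_mem
    apply M'.sum_mem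
    intro i hi
    exact M'.mul_mem_right _ (hcoeff i (Finset.mem_range.1 hi))
  exact hMp'.mem_of_pow_mem _ h3

end Roots

section Central

variable {G : Type*} [Group G] [Fintype G]

theorem centralizer_pow_coprime (g : G) {u : ℕ} (hu : u.Coprime (Nat.card G)) :
    Subgroup.centralizer ({g ^ u} : Set G) = Subgroup.centralizer ({g} : Set G) := by
  have hco : Nat.Coprime u (orderOf g) := hu.coprime_dvd_right (orderOf_dvd_natCard g)
  obtain ⟨v, hv⟩ := exists_pow_eq_self_of_coprime hco
  apply le_antisymm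
  · intro x hx
    rw [mem_centralizer_singleton] at hx ⊢
    have h1 : Commute x (g ^ u) := hx
    have h2 : Commute x ((g ^ u) ^ v) := h1.pow_right v
    rw [hv] at h2
    exact h2
  · intro x hx
    rw [mem_centralizer_singleton] at hx ⊢
    have h1 : Commute x g := hx
    exact h1.pow_right u

/-- The Galois conjugates of a difference of central characters. -/
theorem roots_centralChar_sub (χ ψ : IrrCharacter G) (g : G) (r : AlgInt)
    (hr : (r : ℂ) = centralChar (χ : G → ℂ) g - centralChar (ψ : G → ℂ) g) (β : ℂ)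
    (hβ : aeval β (minpoly ℤ (r : ℂ)) = 0) : ∃ u : ℕ, u.Coprime (Nat.card G) ∧
      β = centralChar (χ : G → ℂ) (g ^ u) - centralChar (ψ : G → ℂ) (g ^ u) := by
  classical
  obtain ⟨_, n₁, ρ₁, hρ₁, hχ⟩ := χ
  obtain ⟨_, n₂, ρ₂, hρ₂, hψ⟩ := ψ
  subst hχ hψ
  simp only at hr ⊢
  set n := Nat.card G with hn
  haveI : NeZero n := ⟨Nat.card_pos.ne'⟩
  letI : Algebra ℚ (CyclotomicField n ℚ) := CyclotomicField.algebra n ℚ
  haveI : IsGalois ℚ (CyclotomicField n ℚ) := IsCyclotomicExtension.isGalois {n} ℚ _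
  haveI : FiniteDimensional ℚ (CyclotomicField n ℚ) :=
    IsCyclotomicExtension.finiteDimensional {n} ℚ _
  let ι : CyclotomicField n ℚ →ₐ[ℚ] ℂ := IsAlgClosed.lift
  have hg : g ^ n = 1 := pow_card_eq_one'
  obtain ⟨α₁, hα₁, hσ₁⟩ := Cfsg.Agent.Lib.Char.char_preimage n ι ρ₁ g hg
  obtain ⟨α₂, hα₂, hσ₂⟩ := Cfsg.Agent.Lib.Char.char_preimage n ι ρ₂ g hg
  set idx : ℕ := (Subgroup.centralizer ({g} : Set G)).index with hidx
  have hd₁ : ρ₁.character 1 = (n₁ : ℂ) := by
    rw [Representation.char_one]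
    simp
  have hd₂ : ρ₂.character 1 = (n₂ : ℂ) := by
    rw [Representation.char_one]
    simp
  let α : CyclotomicField n ℚ := (idx : CyclotomicField n ℚ) * α₁ / (n₁ : CyclotomicField n ℚ) -
    (idx : CyclotomicField n ℚ) * α₂ / (n₂ : CyclotomicField n ℚ)
  have hα : ι α = (r : ℂ) := by
    rw [hr]
    unfold centralChar
    simp only [α, map_sub, map_div₀, map_mul, map_natCast, hα₁, hα₂, hd₁, hd₂, ← hidx]
  have hint : IsIntegral ℤ (r : ℂ) := r.2
  have h1 : minpoly ℚ α = (minpoly ℤ (r : ℂ)).map (algebraMap ℤ ℚ) := by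
    rw [← minpoly.isIntegrallyClosed_eq_field_fractions' ℚ hint, ← hα]
    exact (minpoly.algHom_eq ι ι.injective α).symm
  have h2 : aeval β (minpoly ℚ α) = 0 := by
    rw [h1, aeval_map_algebraMap]
    exact hβ
  have hαi : IsIntegral ℚ α := Algebra.IsIntegral.isIntegral α
  have hsp : ((minpoly ℚ α).map (algebraMap ℚ (CyclotomicField n ℚ))).Splits := Normal.splits inferInstance α
  have hroot : (((minpoly ℚ α).map (algebraMap ℚ (CyclotomicField n ℚ))).map ι.toRingHom).IsRoot β := by
    rw [Polynomial.map_map]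
    have : ι.toRingHom.comp (algebraMap ℚ (CyclotomicField n ℚ)) = algebraMap ℚ ℂ := by
      ext x
      simp
    rw [this, IsRoot, eval_map_algebraMap]
    exact h2
  obtain ⟨γ, hγ⟩ := hsp.mem_range_of_isRoot
    ((minpoly.monic hαi).map _).ne_zero hroot
  have hγ' : ι γ = β := hγ
  have h3 : aeval γ (minpoly ℚ α) = 0 := by
    have h4 := aeval_algHom_apply ι γ (minpoly ℚ α)
    rw [hγ', h2] at h4
    have hinj : Function.Injective (fun x : CyclotomicField n ℚ => ι x) := ι.toRingHom.injective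
    exact hinj (by simp only [map_zero]; exact h4.symm)
  have hconj := isConjRoot_of_aeval_eq_zero hαi h3
  obtain ⟨σ, hσ⟩ := hconj.symm.exists_algEquiv
  obtain ⟨u, hu, hσu⟩ := Cfsg.Agent.Lib.Char.exists_pow_of_aut n (CyclotomicField n ℚ) σ
  refine ⟨u, hu, ?_⟩
  rw [← hγ', ← hσ]
  unfold centralChar
  rw [centralizer_pow_coprime g hu, ← hidx]
  simp only [α, map_sub, map_div₀, map_mul, map_natCast, AlgEquiv.commutes, hd₁, hd₂, hσ₁ σ u hσu, hσ₂ σ u hσu]

/-- **Blocks do not depend on the maximal ideal.** -/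
theorem exists_mem_of_sameBlock {p : ℕ} {M M' : Ideal AlgInt} (hM : IsPModular p M) (hM' : IsPModular p M')
    {χ ψ : IrrCharacter G} (h : SameBlock M (χ : G → ℂ) (ψ : G → ℂ)) (g : G) :
    ∃ r : AlgInt, r ∈ M' ∧ (r : ℂ) = centralChar (χ : G → ℂ) g - centralChar (ψ : G → ℂ) g := by
  have := isPModular_isPrime hM
  have hall : ∀ g : G, ∃ r : AlgInt, r ∈ M ∧ (r : ℂ) = centralChar (χ : G → ℂ) g - centralChar (ψ : G → ℂ) g := by
    intro g
    have hint : IsIntegral ℤ (centralChar (χ : G → ℂ) g - centralChar (ψ : G → ℂ) g) :=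
      (isIntegral_centralChar χ.2 g).sub (isIntegral_centralChar ψ.2 g)
    refine ⟨⟨_, hint⟩, ?_, rfl⟩
    rw [← memLocalIdeal_algInt_iff]
    exact h g
  obtain ⟨r, _, hr⟩ := hall g
  refine ⟨r, ?_, hr⟩
  apply mem_of_roots_mem hM hM'
  intro β hβ
  obtain ⟨u, hu, rfl⟩ := roots_centralChar_sub χ ψ g r hr β hβ
  exact hall (g ^ u)

end Central

end Cfsg.Agent.Lib.Block
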