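import Cfsg.Agent.Lib.Block.OmegaRank
import Cfsg.Agent.Lib.Block.Rotation

/-!
# Defect groups as intersections of two Sylow subgroups (Green)
-/

set_option autoImplicit false
set_option linter.unusedSectionVars false
set_option linter.unusedSimpArgs false
set_option linter.unusedVariables false
set_option linter.style.haveILetI false

open scoped ComplexConjugate
open Cfsg MonoidAlgebra
open Cfsg.Agent.Lib.Char Cfsg.Agent.Lib.CharExtra

namespace Cfsg.Agent.Lib.Block

section FP

/-- A `p`-group acting linearly on a nonzero vector space in characteristic `p` has a nonzero fixed vector in the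
span of the orbit of any nonzero vector. -/
theorem exists_fixed_vector {p : ℕ} [hp : Fact p.Prime] {V : Type*} [AddCommGroup V] [Module (ZMod p) V] {Q : Type*}
    [Group Q] [Finite Q] (hQ : IsPGroup p Q) (ρ : Q →* (V →ₗ[ZMod p] V)) (v : V) (hv : v ≠ 0) :
    ∃ w ∈ Submodule.span (ZMod p) (Set.range fun t : Q => ρ t v), w ≠ 0 ∧ ∀ t, ρ t w = w := by
  classical
  obtain ⟨W, hW⟩ : ∃ W : Submodule (ZMod p) V, W = Submodule.span (ZMod p) (Set.range fun t : Q => ρ t v) := ⟨_, rfl⟩
  rw [← hW]
  haveI : Module.Finite (ZMod p) W := by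
    rw [hW]
    exact Module.Finite.span_of_finite (ZMod p) (Set.finite_range _)
  haveI : Finite W := Module.finite_of_finite (ZMod p)
  have hstab : ∀ (t : Q) (x : V), x ∈ W → ρ t x ∈ W := by
    intro t x hx
    rw [hW] at hx ⊢
    induction hx using Submodule.span_induction with
    | mem x h =>
      obtain ⟨s, rfl⟩ := h
      apply Submodule.subset_span
      refine ⟨t * s, ?_⟩
      simp [map_mul]
    | zero => simp
    | add x y _ _ hx hy =>
      rw [map_add]
      exact Submodule.add_mem _ hx hy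
    | smul a x _ hx =>
      rw [map_smul]
      exact Submodule.smul_mem _ _ hx
  letI act : MulAction Q W :=
    { smul := fun t x => ⟨ρ t x, hstab t x x.2⟩
      one_smul := fun x => Subtype.ext (by
        change ρ 1 (x : V) = x
        simp)
      mul_smul := fun a b x => Subtype.ext (by
        change ρ (a * b) (x : V) = ρ a (ρ b x)
        simp [map_mul]) }
  have hvW : v ∈ W := by
    rw [hW]
    apply Submodule.subset_span
    exact ⟨1, by simp⟩
  haveI : Nontrivial W := ⟨⟨⟨v, hvW⟩, 0, fun h => hv (congrArg Subtype.val h)⟩⟩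
  have hcard : p ∣ Nat.card W := by
    haveI : Fintype W := Fintype.ofFinite _
    have h1 := Module.card_eq_pow_finrank (K := ZMod p) (V := W)
    have h2 : 0 < Module.finrank (ZMod p) W := Module.finrank_pos
    rw [Nat.card_eq_fintype_card, h1, ZMod.card]
    exact dvd_pow_self p h2.ne'
  have h0 : (0 : W) ∈ MulAction.fixedPoints Q W := by
    intro t
    apply Subtype.ext
    change ρ t (0 : V) = 0
    simp
  obtain ⟨b, hb, hne⟩ := hQ.exists_fixed_point_of_prime_dvd_card_of_fixed_point W hcard h0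
  refine ⟨b, b.2, fun h => hne (Subtype.ext h.symm), fun t => ?_⟩
  have h1 := hb t
  exact congrArg Subtype.val h1

/-- Sums over a group as sums over cosets. -/
theorem sum_cosets {Γ R : Type*} [Group Γ] [Fintype Γ] [AddCommMonoid R] (Q : Subgroup Γ) [Fintype Q]
    [Fintype (Γ ⧸ Q)] (F : Γ → R) : ∑ j, F j = ∑ q : Γ ⧸ Q, ∑ t : Q, F (q.out * t) := by
  classical
  rw [← Finset.sum_product', Finset.univ_product_univ]
  symm
  refine Fintype.sum_bijective (fun x : (Γ ⧸ Q) × Q => x.1.out * x.2) ⟨?_, ?_⟩ _ _ fun _ => rfl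
  · rintro ⟨q, t⟩ ⟨q', t'⟩ h
    simp only at h
    have h1 : q = q' := by
      have h2 : ((q.out * t : Γ) : Γ ⧸ Q) = ((q'.out * t' : Γ) : Γ ⧸ Q) := congrArg _ h
      rw [QuotientGroup.mk_mul_of_mem _ t.2, QuotientGroup.mk_mul_of_mem _ t'.2] at h2
      simpa using h2
    subst h1
    have h3 : (t : Γ) = t' := mul_left_cancel h
    exact Prod.ext rfl (Subtype.ext h3)
  · intro g
    refine ⟨((g : Γ ⧸ Q), ⟨(g : Γ ⧸ Q).out⁻¹ * g, ?_⟩), ?_⟩
    · rw [← QuotientGroup.eq]
      simp
    · simp

/-- **The central idempotent does not kill the permutation module.** -/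
theorem exists_coset_sum_ne_zero {k : Type*} [Field k] {p : ℕ} [hp : Fact p.Prime] [CharP k p] {Γ : Type*} [Group Γ]
    [Fintype Γ] (Q : Subgroup Γ) [Fintype Q] (hQ : IsPGroup p Q) (f : Γ → k) (hcl : ∀ x y, f (x * y * x⁻¹) = f y)
    (hidem : ∀ g, ∑ h, f h * f (h⁻¹ * g) = f g) (hne : f ≠ 0) : ∃ c : Γ, ∑ t : Q, f (c * (t : Γ)) ≠ 0 := by
  classical
  by_contra hcon
  push Not at hcon
  haveI : Fintype (Γ ⧸ Q) := Fintype.ofFinite _
  letI : Algebra (ZMod p) k := ZMod.algebra k p
  let ρ : Q →* ((Γ → k) →ₗ[ZMod p] (Γ → k)) :=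
    { toFun := fun t =>
        { toFun := fun u g => u (g * t)
          map_add' := fun u v => rfl
          map_smul' := fun r u => rfl }
      map_one' := by
        ext u g
        simp
      map_mul' := fun a b => by
        ext u g
        simp [mul_assoc] }
  have hρ : ∀ (t : Q) (u : Γ → k) (g : Γ), ρ t u g = u (g * t) := fun _ _ _ => rfl
  obtain ⟨w, hwS, hw0, hwfix⟩ := exists_fixed_vector hQ ρ f hne
  have hL : ∀ u ∈ Submodule.span (ZMod p) (Set.range fun t : Q => ρ t f), ∀ g, ∑ h, f h * u (h⁻¹ * g) = u g := by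
    intro u hu
    induction hu using Submodule.span_induction with
    | mem x h =>
      obtain ⟨s, rfl⟩ := h
      intro g
      simp only [hρ]
      have := hidem (g * s)
      simpa [mul_assoc] using this
    | zero =>
      intro g
      simp
    | add x y _ _ hx hy =>
      intro g
      simp only [Pi.add_apply, mul_add, Finset.sum_add_distrib, hx, hy]
    | smul a x _ hx =>
      intro g
      have h1 : ∀ (r : ZMod p) (z : k), r • z = algebraMap (ZMod p) k r * z := fun r z => Algebra.smul_def r z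
      simp only [Pi.smul_apply, h1]
      rw [← hx g, Finset.mul_sum]
      refine Finset.sum_congr rfl fun h _ => ?_
      ring
  apply hw0
  funext g
  rw [← hL w hwS g]
  change _ = (0 : k)
  have h1 : ∑ h, f h * w (h⁻¹ * g) = ∑ j, f (g * j⁻¹) * w j := by
    refine Fintype.sum_bijective (fun h => h⁻¹ * g) ⟨?_, ?_⟩ _ _ ?_
    · intro a b hab
      simpa using hab
    · intro j
      exact ⟨g * j⁻¹, by group⟩
    · intro h
      congr 2
      group
  rw [h1, sum_cosets Q]
  refine Finset.sum_eq_zero fun q _ => ?_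
  have h2 : ∀ t : Q, f (g * (q.out * (t : Γ))⁻¹) * w (q.out * t) = f (q.out⁻¹ * g * (t : Γ)⁻¹) * w q.out := by
    intro t
    have h3 : w (q.out * t) = w q.out := by
      have := congrFun (hwfix t) q.out
      rwa [hρ] at this
    rw [h3]
    congr 1
    have h4 := hcl (q.out⁻¹) (g * (q.out * (t : Γ))⁻¹)
    rw [← h4]
    congr 1
    group
  rw [Finset.sum_congr rfl fun t _ => h2 t, ← Finset.sum_mul]
  have h5 : ∑ t : Q, f (q.out⁻¹ * g * (t : Γ)⁻¹) = ∑ t : Q, f (q.out⁻¹ * g * (t : Γ)) :=
    Equiv.sum_comp (Equiv.inv Q) (fun t : Q => f (q.out⁻¹ * g * (t : Γ)))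
  rw [h5, hcon, zero_mul]

end FP

section Green

variable {G : Type*} [Group G] [Fintype G]

theorem red_eq_zero_iff {M : Ideal AlgInt} [M.IsPrime] {x : ℂ} (h : MemLocalRing M x) : red M x = 0 ↔ MemLocalIdeal M x := by
  rw [red_of_mem h]
  constructor
  · intro h1
    exact Ideal.Quotient.eq_zero_iff_mem.1 h1
  · intro h1
    exact Ideal.Quotient.eq_zero_iff_mem.2 h1

theorem charP_resField {p : ℕ} [hp : Fact p.Prime] {M : Ideal AlgInt} (hM : IsPModular p M) [M.IsPrime] :
    CharP (ResField M) p := by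
  rw [CharP.charP_iff_prime_eq_zero hp.out, ← red_natCast]
  exact red_eq_zero (memLocalIdeal_p hM)

theorem mem_map_conj_iff {H : Subgroup G} {x z : G} : z ∈ H.map (MulAut.conj x).toMonoidHom ↔ x⁻¹ * z * x ∈ H := by
  constructor
  · rintro ⟨a, ha, rfl⟩
    simpa [mul_assoc] using ha
  · intro h
    exact ⟨_, h, by simp [mul_assoc]⟩

/-- **Green**: a defect group `D` contained in the Sylow subgroup `P` has the form `P ∩ P^x` for a regular `x`
of which `D` is a Sylow subgroup of the centralizer. -/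
theorem green_defect (p : ℕ) [hp : Fact p.Prime] (M : Ideal AlgInt) (hM : IsPModular p M)
    (B : Set (IrrCharacter G)) (hB : IsPBlock M B) (D : Subgroup G) (hD : IsDefectGroup p M B D) (P : Sylow p G)
    (hDP : D ≤ P) : ∃ x : G, ¬ p ∣ orderOf x ∧
      (∃ S : Sylow p (Subgroup.centralizer ({x} : Set G)),
        (S : Subgroup (Subgroup.centralizer ({x} : Set G))).map (Subgroup.centralizer ({x} : Set G)).subtype = D) ∧
      (P : Subgroup G) ⊓ (P : Subgroup G).map (MulAut.conj x).toMonoidHom = D := by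
  classical
  haveI := isPModular_isPrime hM
  haveI hchar := charP_resField (p := p) hM
  have hDp : IsPGroup p D := P.isPGroup'.to_le hDP
  have hDcard := isDefectGroup_card_fact hM hB hD
  obtain ⟨g₀, hg₀, S₀, hS₀⟩ := id hD
  obtain ⟨C, hC⟩ : ∃ C : Subgroup G, C = Subgroup.centralizer (D : Set G) := ⟨_, rfl⟩
  have hCmem : ∀ y : G, y ∈ C ↔ ∀ d ∈ D, d * y = y * d := by
    intro y
    rw [hC, Subgroup.mem_centralizer_iff]
    rfl
  haveI : Fintype C := Fintype.ofFinite _
  have hU := isBlockUnion_of_isPBlock hB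
  have hloc := memLocalRing_blockCoeff hU
  obtain ⟨f, hf⟩ : ∃ f : C → ResField M, f = fun y : C => red M (blockCoeff B (y : G)) := ⟨_, rfl⟩
  have hcl : ∀ x y, f (x * y * x⁻¹) = f y := by
    intro x y
    rw [hf]
    simp only [Subgroup.coe_mul, Subgroup.coe_inv]
    rw [CharExtra.blockCoeff_conj]
  have hidem : ∀ g, ∑ h, f h * f (h⁻¹ * g) = f g := by
    intro g
    have h1 := localIdealCoeff_resG_mul_sub hM hDp (IsCentralElt.isInvBy D (isCentralElt_blockElt B))
      (IsCentralElt.isInvBy D (isCentralElt_blockElt B)) (localCoeff_blockElt hU) (localCoeff_blockElt hU) (g : G)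
    rw [blockElt_mul_self, ← hC, MonoidAlgebra.coeff_sub, Finsupp.sub_apply, coeff_resG_of_mem C _ g.2, coeff_mul_eq,
      coeff_blockElt] at h1
    have h2 : ∑ h : G, (resG C (blockElt B)).coeff h * (resG C (blockElt B)).coeff (h⁻¹ * (g : G)) =
        ∑ h : C, blockCoeff B (h : G) * blockCoeff B ((h : G)⁻¹ * (g : G)) := by
      have h3 : ∀ h : G, (resG C (blockElt B)).coeff h * (resG C (blockElt B)).coeff (h⁻¹ * (g : G)) =
          if h ∈ C then blockCoeff B h * blockCoeff B (h⁻¹ * (g : G)) else 0 := by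
        intro h
        by_cases hh : h ∈ C
        · rw [if_pos hh, coeff_resG_of_mem C _ hh, coeff_resG_of_mem C _ (C.mul_mem (C.inv_mem hh) g.2),
            coeff_blockElt, coeff_blockElt]
        · rw [if_neg hh, coeff_resG_of_notMem C _ hh, zero_mul]
      rw [Finset.sum_congr rfl fun h _ => h3 h]
      exact (sum_subtype_ite (· ∈ C) _).symm
    rw [h2] at h1
    have h4 := red_eq_of_sub (M := M) (hloc _) (memLocalRing_sum _ _ fun h _ => memLocalRing_mul (hloc _) (hloc _)) h1
    rw [red_sum _ _ fun h _ => memLocalRing_mul (hloc _) (hloc _)] at h4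
    rw [hf]
    simp only [Subgroup.coe_mul, Subgroup.coe_inv]
    rw [h4]
    exact (Finset.sum_congr rfl fun h _ => red_mul (hloc _) (hloc _)).symm
  have hg₀C : g₀ ∈ C := by
    rw [hCmem]
    intro d hd
    rw [hS₀] at hd
    obtain ⟨a, _, rfl⟩ := hd
    exact (Subgroup.mem_centralizer_singleton_iff.1 a.2)
  have hne : f ≠ 0 := by
    intro h0
    have h1 := congrFun h0 ⟨g₀, hg₀C⟩
    rw [hf] at h1
    exact hg₀.2.1 ((red_eq_zero_iff (hloc _)).1 h1)
  obtain ⟨Q, hQdef⟩ : ∃ Q : Subgroup C, Q = (P : Subgroup G).subgroupOf C := ⟨_, rfl⟩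
  have hQmem : ∀ t : C, t ∈ Q ↔ (t : G) ∈ P := by
    intro t
    rw [hQdef, Subgroup.mem_subgroupOf]
    rfl
  haveI : Fintype Q := Fintype.ofFinite _
  have hQ : IsPGroup p Q := by
    rw [hQdef]
    exact P.isPGroup'.comap_of_injective _ (Subgroup.subtype_injective _)
  obtain ⟨c, hc⟩ := exists_coset_sum_ne_zero Q hQ f hcl hidem hne
  -- the coset as a set of elements of `G`
  obtain ⟨X, hX⟩ : ∃ X : Set G, X = {y | y ∈ C ∧ (c : G)⁻¹ * y ∈ P} := ⟨_, rfl⟩
  have hXmem : ∀ y : G, y ∈ X ↔ y ∈ C ∧ (c : G)⁻¹ * y ∈ P := by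
    intro y
    rw [hX]
    rfl
  haveI : Fintype X := Fintype.ofFinite _
  have hsumX : ¬ MemLocalIdeal M (∑ y : X, blockCoeff B (y : G)) := by
    intro h0
    apply hc
    have h1 : ∑ y : X, blockCoeff B (y : G) = ∑ t : Q, blockCoeff B ((c : G) * ((t : C) : G)) := by
      symm
      refine Fintype.sum_bijective (fun t : Q => (⟨(c : G) * ((t : C) : G), (hXmem _).2 ⟨C.mul_mem c.2 (t : C).2, by
        simpa using (hQmem t).1 t.2⟩⟩ : X)) ⟨?_, ?_⟩ _ _ fun _ => rfl
      · intro a b hab
        have h2 : (c : G) * ((a : C) : G) = (c : G) * ((b : C) : G) := congrArg Subtype.val hab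
        exact Subtype.ext (Subtype.ext (mul_left_cancel h2))
      · rintro ⟨y, hy⟩
        have hy' := (hXmem y).1 hy
        refine ⟨⟨⟨(c : G)⁻¹ * y, C.mul_mem (C.inv_mem c.2) hy'.1⟩, (hQmem _).2 hy'.2⟩, ?_⟩
        apply Subtype.ext
        simp
    rw [hf]
    simp only [Subgroup.coe_mul]
    rw [← red_sum _ _ fun t _ => hloc _, ← h1]
    exact red_eq_zero h0
  -- the acting `p`-group
  obtain ⟨U, hUdef⟩ : ∃ U : Subgroup G, U = (P : Subgroup G) ⊓ (P : Subgroup G).map (MulAut.conj (c : G)).toMonoidHom := ⟨_, rfl⟩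
  obtain ⟨A, hAdef⟩ : ∃ A : Subgroup G, A = U ⊓ Subgroup.normalizer (D : Set G) := ⟨_, rfl⟩
  have hUmem : ∀ z : G, z ∈ U ↔ z ∈ P ∧ (c : G)⁻¹ * z * (c : G) ∈ P := by
    intro z
    rw [hUdef, Subgroup.mem_inf, mem_map_conj_iff]
    rfl
  have hAmem : ∀ z : G, z ∈ A ↔ z ∈ U ∧ z ∈ Subgroup.normalizer (D : Set G) := by
    intro z
    rw [hAdef, Subgroup.mem_inf]
  have hAp : IsPGroup p A := P.isPGroup'.to_le (fun z hz => ((hUmem z).1 ((hAmem z).1 hz).1).1)
  have hact : ∀ (u : A) (y : X), (u : G) * (y : G) * (u : G)⁻¹ ∈ X := by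
    intro u y
    have hu := (hAmem _).1 u.2
    have hu' := (hUmem _).1 hu.1
    have hy := (hXmem _).1 y.2
    refine (hXmem _).2 ⟨?_, ?_⟩
    · rw [hCmem]
      intro d hd
      have h4 : (u : G)⁻¹ * d * (u : G) ∈ D := by
        have h6 := Subgroup.mem_normalizer_iff.1 (Subgroup.inv_mem _ hu.2) d
        have h7 := h6.1 hd
        simpa using h7
      have h8 := ((hCmem _).1 hy.1) _ h4
      calc d * ((u : G) * (y : G) * (u : G)⁻¹) = (u : G) * (((u : G)⁻¹ * d * (u : G)) * (y : G)) * (u : G)⁻¹ := by group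
        _ = (u : G) * ((y : G) * ((u : G)⁻¹ * d * (u : G))) * (u : G)⁻¹ := by rw [h8]
        _ = (u : G) * (y : G) * (u : G)⁻¹ * d := by group
    · have h9 : (c : G)⁻¹ * ((u : G) * (y : G) * (u : G)⁻¹) =
          ((c : G)⁻¹ * (u : G) * (c : G)) * ((c : G)⁻¹ * (y : G)) * (u : G)⁻¹ := by group
      rw [h9]
      exact P.mul_mem (P.mul_mem hu'.2 hy.2) (P.inv_mem hu'.1)
  letI actX : MulAction A X :=
    { smul := fun u y => ⟨(u : G) * (y : G) * (u : G)⁻¹, hact u y⟩
      one_smul := fun y => Subtype.ext (by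
        change ((1 : A) : G) * (y : G) * ((1 : A) : G)⁻¹ = y
        simp)
      mul_smul := fun a b y => Subtype.ext (by
        change ((a * b : A) : G) * (y : G) * ((a * b : A) : G)⁻¹ = (a : G) * ((b : G) * (y : G) * (b : G)⁻¹) * (a : G)⁻¹
        simp only [Subgroup.coe_mul]
        group) }
  have hsmul : ∀ (u : A) (y : X), ((u • y : X) : G) = (u : G) * (y : G) * (u : G)⁻¹ := fun _ _ => rfl
  -- a fixed element with unit coefficient
  have hfixed : ∃ y : X, (∀ u : A, u • y = y) ∧ ¬ MemLocalIdeal M (blockCoeff B (y : G)) := by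
    by_contra hcon
    push Not at hcon
    apply hsumX
    obtain ⟨w, hw⟩ : ∃ w : X → ℂ, w = fun y : X => if ∀ u : A, u • y = y then 0 else blockCoeff B (y : G) := ⟨_, rfl⟩
    obtain ⟨r, hr, hsum⟩ := exists_sum_eq_mul_of_orbit (Γ := A) (X := X) (localRing M) p w (by
        intro y
        rw [hw]
        simp only
        split_ifs
        · exact memLocalRing_zero
        · exact hloc _) (by
        intro γ y
        rw [hw]
        simp only
        by_cases h : ∀ u : A, u • y = y
        · rw [h γ]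
        · have h1 : ¬ ∀ u : A, u • γ • y = γ • y := by
            intro h2
            apply h
            intro v
            have h3 := h2 (γ * v * γ⁻¹)
            simp only [mul_smul, inv_smul_smul] at h3
            exact smul_left_cancel γ h3
          rw [if_neg h, if_neg h1, hsmul, CharExtra.blockCoeff_conj]) (by
        intro y hy
        obtain ⟨n, hn⟩ := hAp.card_orbit y
        rw [hn]
        rcases n with _ | n
        · exfalso
          apply hy
          rw [hw]
          simp only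
          rw [if_pos]
          intro u
          have h1 : y ∈ MulAction.fixedPoints A X := by
            rw [MulAction.mem_fixedPoints_iff_card_orbit_eq_one, ← Nat.card_eq_fintype_card]
            simpa using hn
          exact h1 u
        · exact dvd_pow_self p (Nat.succ_ne_zero n))
    have h1 : ∑ y : X, blockCoeff B (y : G) = ∑ y, w y + ∑ y : X, (blockCoeff B (y : G) - w y) := by
      rw [← Finset.sum_add_distrib]
      exact Finset.sum_congr rfl fun y _ => by ring
    rw [h1, hsum]
    refine memLocalIdeal_add (memLocalIdeal_mul_right (memLocalIdeal_p hM) hr) (memLocalIdeal_sum _ _ fun y _ => ?_)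
    rw [hw]
    simp only
    by_cases h : ∀ u : A, u • y = y
    · rw [if_pos h, sub_zero]
      exact hcon y h
    · rw [if_neg h, sub_self]
      exact memLocalIdeal_zero
  obtain ⟨y, hyfix, hyu⟩ := hfixed
  have hyX := (hXmem _).1 y.2
  have hle : D ≤ Subgroup.centralizer ({(y : G)} : Set G) := by
    intro d hd
    rw [Subgroup.mem_centralizer_singleton_iff]
    exact (hCmem _).1 hyX.1 d hd
  have hv := factorization_centralizer_le_of_blockCoeff hM hB hyu
  rw [← hDcard] at hv
  have hreg := regular_of_blockCoeff_ne_zero hM hU (ne_zero_of_not_memLocalIdeal hyu)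
  obtain ⟨S, hS⟩ := exists_sylow_of_le hDp hle hv
  refine ⟨y, hreg, ⟨S, hS⟩, ?_⟩
  have hmapeq : (P : Subgroup G) ⊓ (P : Subgroup G).map (MulAut.conj (y : G)).toMonoidHom = U := by
    ext z
    rw [Subgroup.mem_inf, mem_map_conj_iff, hUmem]
    refine and_congr_right fun _ => ?_
    have h10 : (y : G)⁻¹ * z * (y : G) = ((c : G)⁻¹ * (y : G))⁻¹ * ((c : G)⁻¹ * z * (c : G)) * ((c : G)⁻¹ * (y : G)) := by group
    constructor
    · intro h
      have h11 : (c : G)⁻¹ * z * (c : G) = ((c : G)⁻¹ * (y : G)) * ((y : G)⁻¹ * z * (y : G)) * ((c : G)⁻¹ * (y : G))⁻¹ := by group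
      rw [h11]
      exact P.mul_mem (P.mul_mem hyX.2 h) (P.inv_mem hyX.2)
    · intro h
      rw [h10]
      exact P.mul_mem (P.mul_mem (P.inv_mem hyX.2) h) hyX.2
  rw [hmapeq]
  have hDU : D ≤ U := by
    intro d hd
    refine (hUmem _).2 ⟨hDP hd, ?_⟩
    have h1 := (hCmem _).1 c.2 d hd
    have h2 : (c : G)⁻¹ * d * (c : G) = d := by
      rw [mul_assoc, h1]
      group
    rw [h2]
    exact hDP hd
  have hDA : D ≤ A := fun d hd => (hAmem _).2 ⟨hDU hd, Subgroup.le_normalizer hd⟩
  have hAC : A ≤ Subgroup.centralizer ({(y : G)} : Set G) := by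
    intro u hu
    rw [Subgroup.mem_centralizer_singleton_iff]
    have h1 := hyfix ⟨u, hu⟩
    have h2 : u * (y : G) * u⁻¹ = y := congrArg Subtype.val h1
    calc u * (y : G) = (u * (y : G) * u⁻¹) * u := by group
      _ = (y : G) * u := by rw [h2]
  have hAD : A = D := by
    symm
    apply Subgroup.eq_of_le_of_card_ge hDA
    obtain ⟨n, hn⟩ := IsPGroup.iff_card.1 hAp
    obtain ⟨m, hm⟩ := IsPGroup.iff_card.1 hDp
    have h1 : Nat.card A ∣ Nat.card (Subgroup.centralizer ({(y : G)} : Set G)) := by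
      have h2 : Nat.card (A.subgroupOf (Subgroup.centralizer ({(y : G)} : Set G))) = Nat.card A :=
        Nat.card_congr (Subgroup.subgroupOfEquivOfLe hAC).toEquiv
      rw [← h2]
      exact Subgroup.card_subgroup_dvd_card _
    have h3 : n ≤ (Nat.card (Subgroup.centralizer ({(y : G)} : Set G))).factorization p := by
      rw [hn] at h1
      exact (hp.out.pow_dvd_iff_le_factorization Nat.card_pos.ne').1 h1
    have h4 : (Nat.card D).factorization p = m := by
      rw [hm, Nat.factorization_pow]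
      simp [hp.out.factorization_self]
    rw [hn, hm]
    exact Nat.pow_le_pow_right hp.out.pos (by omega)
  -- normalizers grow
  by_contra hne2
  haveI hUnil : Group.IsNilpotent U := (P.isPGroup'.to_le (fun z hz => ((hUmem z).1 hz).1)).isNilpotent
  have h1 : D.subgroupOf U ≠ ⊤ := by
    intro h
    apply hne2
    apply le_antisymm _ hDU
    intro z hz
    have h2 : (⟨z, hz⟩ : U) ∈ D.subgroupOf U := by
      rw [h]
      trivial
    exact Subgroup.mem_subgroupOf.1 h2
  have h3 := Group.normalizerCondition_of_isNilpotent (G := U) (D.subgroupOf U) (lt_top_iff_ne_top.2 h1)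
  obtain ⟨x, hx, hx'⟩ := SetLike.exists_of_lt h3
  have h4 : (x : G) ∈ Subgroup.normalizer (D : Set G) := by
    rw [Subgroup.mem_normalizer_iff]
    intro d
    have hx2 := Subgroup.mem_normalizer_iff.1 hx
    constructor
    · intro hd
      have h5 := (hx2 ⟨d, hDU hd⟩).1 (Subgroup.mem_subgroupOf.2 hd)
      exact Subgroup.mem_subgroupOf.1 h5
    · intro hd
      have h6 : d ∈ U := by
        have h7 : d = (x : G)⁻¹ * ((x : G) * d * (x : G)⁻¹) * (x : G) := by group
        rw [h7]
        exact U.mul_mem (U.mul_mem (U.inv_mem x.2) (hDU hd)) x.2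
      have h5 := (hx2 ⟨d, h6⟩).2 (Subgroup.mem_subgroupOf.2 hd)
      exact Subgroup.mem_subgroupOf.1 h5
  apply hx'
  rw [Subgroup.mem_subgroupOf, ← hAD]
  exact (hAmem _).2 ⟨x.2, h4⟩

end Green

end Cfsg.Agent.Lib.Block
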