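import Cfsg.Agent.Lib.Block.OddSum
import Cfsg.Agent.S4931

/-!
# The sum of the squares of the odd degrees: conclusion
-/

set_option autoImplicit false
set_option linter.unusedSectionVars false
set_option linter.unusedVariables false

open scoped ComplexConjugate commutatorElement

namespace Cfsg.Agent.Lib.Block.OddSum

open Cfsg Cfsg.Agent.Lib.Char Cfsg.Agent.Lib.Degree Cfsg.Agent.Lib.Block

section Main

variable {G : Type*} [Group G] [Finite G]

open Classical in
theorem finsum_odd {X : Type*} [Group X] [Finite X] :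
    ∑ᶠ χ : {χ : IrrCharacter X // ¬ 2 ∣ charDegree (χ : X → ℂ)}, charDegree (χ.1 : X → ℂ) ^ 2 =
      ∑ χ ∈ Finset.univ.filter (fun χ : IrrCharacter X => ¬ 2 ∣ charDegree (χ : X → ℂ)),
        charDegree (χ : X → ℂ) ^ 2 := by
  rw [finsum_eq_sum_of_fintype]
  exact (Finset.sum_subtype (Finset.univ.filter (fun χ : IrrCharacter X => ¬ 2 ∣ charDegree (χ : X → ℂ)))
    (p := fun χ : IrrCharacter X => ¬ 2 ∣ charDegree (χ : X → ℂ))
    (fun x => by simp only [Finset.mem_filter, Finset.mem_univ, true_and])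
    (fun χ : IrrCharacter X => charDegree (χ : X → ℂ) ^ 2)).symm

open Classical in
/-- The order of the normalizer of a Sylow subgroup. -/
theorem card_normalizer_eq [Fintype G] {p : ℕ} [hp : Fact p.Prime] (P : Sylow p G) (N : Subgroup G) [Fintype N]
    (hN : N = Subgroup.normalizer ((P : Subgroup G) : Set G)) :
    Nat.card N = Nat.card (commutator ↥P) *
      ∑ θ ∈ Finset.univ.filter (fun θ : IrrCharacter N => ¬ p ∣ charDegree (θ : N → ℂ)),
        charDegree (θ : N → ℂ) ^ 2 := by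
  have hPN : (P : Subgroup G) ≤ N := by
    rw [hN]
    exact Subgroup.le_normalizer
  let A : Subgroup ↥N := (P : Subgroup G).subgroupOf N
  haveI hAn : A.Normal := by
    subst hN
    exact Subgroup.normal_in_normalizer
  have hAp : IsPGroup p A := Cfsg.Agent.Lib.FF.isPGroup_subgroupOf P.isPGroup'
  have hidx : ¬ p ∣ A.index := by
    intro hd
    apply P.not_dvd_index
    have h1 := Subgroup.relIndex_mul_index hPN
    rw [← h1]
    exact hd.trans (dvd_mul_right _ _)
  rw [sum_not_dvd_degree_sq A hAp hidx]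
  have h1 : Nat.card (⁅A, A⁆ : Subgroup N) = Nat.card (commutator ↥P) := by
    have h2 : A.map N.subtype = (P : Subgroup G) := Subgroup.map_subgroupOf_eq_of_le hPN
    have h3 : (⁅A, A⁆ : Subgroup N).map N.subtype = ⁅(P : Subgroup G), (P : Subgroup G)⁆ := by
      rw [Subgroup.map_commutator, h2]
    rw [← Subgroup.card_map_of_injective (f := N.subtype) N.subtype_injective, h3,
      ← (P : Subgroup G).map_subtype_commutator,
      Subgroup.card_map_of_injective (P : Subgroup G).subtype_injective]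
    rfl
  rw [← h1]
  exact (Subgroup.card_mul_index _).symm

open Classical in
/-- With a normal complement, the odd-degree characters contain the complement in their kernel, and
restrict injectively. -/
theorem sum_le_of_complement [Fintype G] (P : Sylow 2 G) (N : Subgroup G) [Fintype N]
    (hN : N = Subgroup.normalizer ((P : Subgroup G) : Set G))
    (K : Subgroup G) (hK : K.Normal) (hinf : K ⊓ N = ⊥) (hsup : K ⊔ N = ⊤) :
    ∑ χ ∈ Finset.univ.filter (fun χ : IrrCharacter G => ¬ 2 ∣ charDegree (χ : G → ℂ)), charDegree (χ : G → ℂ) ^ 2 ≤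
      ∑ γ ∈ Finset.univ.filter (fun γ : IrrCharacter N => ¬ 2 ∣ charDegree (γ : N → ℂ)), charDegree (γ : N → ℂ) ^ 2 := by
  haveI : Fact (Nat.Prime 2) := ⟨Nat.prime_two⟩
  have hfree : ∀ w ∈ K, (∀ q ∈ (P : Subgroup G), q * w * q⁻¹ = w) → w = 1 := by
    intro w hw hc
    have hcomm : ∀ q ∈ (P : Subgroup G), w * q * w⁻¹ = q := by
      intro q hq
      have h3 := hc q hq
      have h4 : q * w = w * q := by
        rw [← mul_inv_eq_iff_eq_mul, h3]
      rw [← h4]
      simp
    have h1 : w ∈ N := by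
      rw [hN, Subgroup.mem_normalizer_iff]
      intro h
      constructor
      · intro hh
        rwa [hcomm h hh]
      · intro hh
        have h7 : w * (w * h * w⁻¹) * w⁻¹ = w * h * w⁻¹ := hcomm _ hh
        have h8 : w * (w * h * w⁻¹) = w * h := by
          calc w * (w * h * w⁻¹) = w * (w * h * w⁻¹) * w⁻¹ * w := by group
            _ = w * h * w⁻¹ * w := by rw [h7]
            _ = w * h := by group
        have h9 := mul_left_cancel h8
        rwa [h9] at hh
    have h2 : w ∈ K ⊓ N := ⟨hw, h1⟩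
    rw [hinf] at h2
    exact h2
  have hker : ∀ χ : IrrCharacter G, ¬ 2 ∣ charDegree (χ : G → ℂ) → KerContains K (χ : G → ℂ) :=
    fun χ hχ => kerContains_of_fixedPointFree (P : Subgroup G) P.isPGroup' K hfree χ hχ
  haveI := hK
  -- the isomorphism `N ≃ G ⧸ K`
  let f : ↥N →* G ⧸ K := (QuotientGroup.mk' K).comp N.subtype
  have hf1 : Function.Injective f := by
    rw [injective_iff_map_eq_one]
    intro x hx
    have h1 : ((x : G)) ∈ K := (QuotientGroup.eq_one_iff _).mp hx
    have h2 : (x : G) ∈ K ⊓ N := ⟨h1, x.2⟩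
    rw [hinf] at h2
    exact Subtype.ext h2
  have hf2 : Function.Surjective f := by
    intro q
    obtain ⟨g, rfl⟩ := QuotientGroup.mk_surjective q
    have hg : g ∈ ((K ⊔ N : Subgroup G) : Set G) := by rw [hsup]; trivial
    rw [Subgroup.normal_mul] at hg
    obtain ⟨a, ha, b, hb, rfl⟩ := Set.mem_mul.mp hg
    refine ⟨⟨b, hb⟩, ?_⟩
    show ((b : G) : G ⧸ K) = ((a * b : G) : G ⧸ K)
    rw [QuotientGroup.mk_mul, (QuotientGroup.eq_one_iff a).mpr ha, one_mul]
  have hext : ∀ χ : IrrCharacter G, ¬ 2 ∣ charDegree (χ : G → ℂ) →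
      ∃ γ : IrrCharacter N, ∀ x : N, (γ : N → ℂ) x = (χ : G → ℂ) x := by
    intro χ hχ
    obtain ⟨c, rfl⟩ := exists_inflate K (hker χ hχ)
    refine ⟨⟨(c : G ⧸ K → ℂ) ∘ f, isIrr_comp_surjective f hf2 c.2⟩, fun x => rfl⟩
  haveI : Nonempty (IrrCharacter N) := ⟨oneIrr N⟩
  choose! g hg using hext
  have hdeg : ∀ χ : IrrCharacter G, ¬ 2 ∣ charDegree (χ : G → ℂ) →
      charDegree (g χ : N → ℂ) = charDegree (χ : G → ℂ) := by
    intro χ hχ
    unfold charDegree
    rw [hg χ hχ 1]
    rfl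
  have hinj : Set.InjOn g ((Finset.univ.filter (fun χ : IrrCharacter G => ¬ 2 ∣ charDegree (χ : G → ℂ)) :
      Finset (IrrCharacter G)) : Set (IrrCharacter G)) := by
    intro χ hχ χ' hχ' hgg
    have h1 : ¬ 2 ∣ charDegree (χ : G → ℂ) := by simpa using hχ
    have h2 : ¬ 2 ∣ charDegree (χ' : G → ℂ) := by simpa using hχ'
    apply Subtype.ext
    funext y
    have hy : y ∈ ((K ⊔ N : Subgroup G) : Set G) := by rw [hsup]; trivial
    rw [Subgroup.normal_mul] at hy
    obtain ⟨a, ha, b, hb, rfl⟩ := Set.mem_mul.mp hy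
    rw [irr_mul_of_ker χ (hker χ h1 a ha), irr_mul_of_ker χ' (hker χ' h2 a ha)]
    have h3 := hg χ h1 ⟨b, hb⟩
    have h4 := hg χ' h2 ⟨b, hb⟩
    rw [hgg] at h3
    exact h3.symm.trans h4
  have h1 : ∑ χ ∈ Finset.univ.filter (fun χ : IrrCharacter G => ¬ 2 ∣ charDegree (χ : G → ℂ)), charDegree (χ : G → ℂ) ^ 2 =
      ∑ γ ∈ (Finset.univ.filter (fun χ : IrrCharacter G => ¬ 2 ∣ charDegree (χ : G → ℂ))).image g,
        charDegree (γ : N → ℂ) ^ 2 := by
    rw [Finset.sum_image hinj]
    refine Finset.sum_congr rfl fun χ hχ => ?_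
    rw [hdeg χ (Finset.mem_filter.mp hχ).2]
  rw [h1]
  refine Finset.sum_le_sum_of_subset ?_
  intro γ hγ
  obtain ⟨χ, hχ, rfl⟩ := Finset.mem_image.mp hγ
  have h2 := (Finset.mem_filter.mp hχ).2
  refine Finset.mem_filter.mpr ⟨Finset.mem_univ _, ?_⟩
  rwa [hdeg χ h2]

end Main

end Cfsg.Agent.Lib.Block.OddSum
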