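import Cfsg.Agent.Lib.BPair.MajorQ
import Cfsg.Agent.Lib.Char.Brauer

/-!
# The indicator function of the `p`-elements; separation of `p`-regular classes
-/

set_option autoImplicit false
set_option linter.unusedSectionVars false
set_option linter.unusedVariables false
set_option linter.style.haveILetI false

open scoped ComplexConjugate

namespace Cfsg.Agent.Lib.Block

open Cfsg Cfsg.Agent.Lib.Char

section PElt

open Classical in
/-- The indicator function of the `p`-elements. -/
noncomputable def pEltInd (p : ℕ) (C : Type*) [Group C] : C → ℂ :=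
  fun g => if ∃ k : ℕ, g ^ p ^ k = 1 then 1 else 0

theorem isClassFunction_pEltInd (p : ℕ) (C : Type*) [Group C] : IsClassFunction C (pEltInd p C) := by
  classical
  intro g h
  unfold pEltInd
  have h1 : (∃ k : ℕ, (h * g * h⁻¹) ^ p ^ k = 1) ↔ ∃ k : ℕ, g ^ p ^ k = 1 := by
    refine exists_congr fun k => ?_
    rw [conj_pow]
    constructor
    · intro h2
      have := congrArg (fun t => h⁻¹ * t * h) h2
      simpa [mul_assoc] using this
    · intro h2
      rw [h2]
      simp
  simp only [h1]

theorem isNilpotent_of_isElementary {E : Type*} [Group E] [Finite E] {q : ℕ} (hq : q.Prime) (h : IsElementary q E) :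
    Group.IsNilpotent E := by
  obtain ⟨x, hx, _, k, hk⟩ := h
  haveI : Fact q.Prime := ⟨hq⟩
  refine of_quotient_center_nilpotent ?_
  have h1 : Subgroup.zpowers x ≤ Subgroup.center E := Subgroup.zpowers_le.2 hx
  have h2 : (Subgroup.center E).index ∣ (Subgroup.zpowers x).index := Subgroup.index_dvd_of_le h1
  rw [hk] at h2
  obtain ⟨m, -, hm⟩ := (Nat.dvd_prime_pow hq).1 h2
  have hpg : IsPGroup q (E ⧸ Subgroup.center E) := by
    rw [IsPGroup.iff_card]
    exact ⟨m, by rw [← hm, Subgroup.index_eq_card]⟩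
  exact hpg.isNilpotent

theorem pEltInd_of_mem {p : ℕ} {C : Type*} [Group C] {g : C} (h : ∃ k : ℕ, g ^ p ^ k = 1) :
    pEltInd p C g = 1 := by
  classical
  unfold pEltInd
  rw [if_pos h]

theorem pEltInd_of_not_mem {p : ℕ} {C : Type*} [Group C] {g : C} (h : ¬ ∃ k : ℕ, g ^ p ^ k = 1) :
    pEltInd p C g = 0 := by
  classical
  unfold pEltInd
  rw [if_neg h]

/-- In a finite group with a normal Sylow subgroup the `p`-elements are the elements of the Sylow subgroup. -/
theorem pElt_iff_mem_sylow {E : Type*} [Group E] [Finite E] {p : ℕ} [hp : Fact p.Prime] (P : Sylow p E)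
    (hP : (P : Subgroup E).Normal) (e : E) : (∃ k : ℕ, e ^ p ^ k = 1) ↔ e ∈ (P : Subgroup E) := by
  constructor
  · rintro ⟨k, hk⟩
    have h1 : IsPGroup p (Subgroup.zpowers e) := by
      obtain ⟨j, -, hj⟩ := (Nat.dvd_prime_pow hp.out).1 (orderOf_dvd_of_pow_eq_one hk)
      exact isPGroup_zpowers_of_orderOf ⟨j, hj⟩
    obtain ⟨Q, hQ⟩ := h1.exists_le_sylow
    haveI := Sylow.unique_of_normal P hP
    have h2 : Q = P := Subsingleton.elim _ _
    rw [← h2]
    exact hQ (Subgroup.mem_zpowers e)
  · intro he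
    obtain ⟨k, hk⟩ := P.isPGroup' ⟨e, he⟩
    exact ⟨k, by simpa using congrArg Subtype.val hk⟩

/-- The `p'`-part of the group order times the indicator of the `p`-elements is a generalized character. -/
theorem isGeneralized_pEltInd (p : ℕ) [hp : Fact p.Prime] (C : Type*) [Group C] [Fintype C] :
    IsGeneralizedCharacter C
      (fun g => ((Nat.card C / p ^ (Nat.card C).factorization p : ℕ) : ℂ) * pEltInd p C g) := by
  classical
  refine isGeneralized_of_elementary _ ?_ ?_
  · intro g h
    simp only []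
    rw [isClassFunction_pEltInd]
  · intro E q hq hE
    haveI : Fintype E := Fintype.ofFinite E
    haveI := isNilpotent_of_isElementary hq hE
    obtain ⟨P⟩ : Nonempty (Sylow p E) := inferInstance
    have hnorm : (P : Subgroup E).Normal :=
      inferInstance
    -- divisibility
    obtain ⟨s, hs⟩ : (P : Subgroup E).index ∣ Nat.card C / p ^ (Nat.card C).factorization p := by
      have h1 : (P : Subgroup E).index ∣ Nat.card E := Subgroup.index_dvd_card _
      have h2 : Nat.card E ∣ Nat.card C := Subgroup.card_subgroup_dvd_card E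
      have h3 : ((P : Subgroup E).index).Coprime (p ^ (Nat.card C).factorization p) :=
        Nat.Coprime.pow_right _ ((Nat.Prime.coprime_iff_not_dvd hp.out).2 P.not_dvd_index).symm
      have h4 : (p ^ (Nat.card C).factorization p) * (Nat.card C / p ^ (Nat.card C).factorization p) = Nat.card C :=
        Nat.mul_div_cancel' (Nat.ordProj_dvd _ _)
      have h5 : (P : Subgroup E).index ∣ (p ^ (Nat.card C).factorization p) * (Nat.card C / p ^ (Nat.card C).factorization p) := by
        rw [h4]
        exact h1.trans h2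
      exact h3.dvd_of_dvd_mul_left h5
    have hfun : (fun e : E => ((Nat.card C / p ^ (Nat.card C).factorization p : ℕ) : ℂ) * pEltInd p C e) =
        (((s : ℕ) : ℤ) : ℂ) • indFun (P : Subgroup E) (fun _ => (1 : ℂ)) := by
      funext e
      have hcard : ((Nat.card (P : Subgroup E) : ℂ))⁻¹ * (Nat.card E : ℂ) = ((P : Subgroup E).index : ℂ) := by
        have h1 := (P : Subgroup E).card_mul_index
        have h2 : (Nat.card (P : Subgroup E) : ℂ) ≠ 0 := Nat.cast_ne_zero.2 Nat.card_pos.ne'
        rw [← h1]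
        push_cast
        field_simp
      have hiff : (∃ k : ℕ, (e : C) ^ p ^ k = 1) ↔ e ∈ (P : Subgroup E) := by
        rw [← pElt_iff_mem_sylow P hnorm e]
        refine exists_congr fun k => ?_
        rw [← Subtype.coe_inj]
        simp
      simp only [Pi.smul_apply, indFun_apply, hs]
      by_cases he : e ∈ (P : Subgroup E)
      · rw [pEltInd_of_mem (hiff.2 he)]
        have h1 : ∀ x : E, extendByZero (P : Subgroup E) (fun _ => (1 : ℂ)) (x⁻¹ * e * x) = 1 := by
          intro x
          have h2 : x⁻¹ * e * x ∈ (P : Subgroup E) := by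
            have := hnorm.conj_mem e he x⁻¹
            simpa using this
          rw [extendByZero_of_mem _ _ h2]
        simp only [h1, Finset.sum_const, Finset.card_univ, nsmul_eq_mul, mul_one]
        rw [Nat.card_eq_fintype_card (α := E)] at hcard
        rw [hcard]
        push_cast
        simp [zsmul_eq_mul, mul_comm]
      · rw [pEltInd_of_not_mem (fun h => he (hiff.1 h))]
        have h1 : ∀ x : E, extendByZero (P : Subgroup E) (fun _ => (1 : ℂ)) (x⁻¹ * e * x) = 0 := by
          intro x
          have h2 : x⁻¹ * e * x ∉ (P : Subgroup E) := by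
            intro h3
            apply he
            have := hnorm.conj_mem _ h3 x
            simpa [mul_assoc] using this
          rw [extendByZero_of_not_mem _ _ h2]
        simp [h1]
    rw [hfun]
    exact IsGeneralizedCharacter.intCast_smul
      (IsGeneralizedCharacter.of_isCharacter (indFun_isCharacter _ IsCharacter.one)) _

end PElt

section Sep

variable {G : Type*} [Group G] [Fintype G] (p : ℕ) [hp : Fact p.Prime]

attribute [local instance] Cfsg.Agent.Lib.BPair.subFintype

/-- The coefficients of the separating combination. -/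
noncomputable def sepCoeff (x : G) (χ : IrrCharacter G) : ℂ :=
  classInner (fun c : Subgroup.centralizer ({x} : Set G) =>
      ((Nat.card (Subgroup.centralizer ({x} : Set G)) / p ^ (Nat.card (Subgroup.centralizer ({x} : Set G))).factorization p : ℕ) : ℂ) *
        pEltInd p _ c)
    (fun c : Subgroup.centralizer ({x} : Set G) => (χ : G → ℂ) (x * c))

theorem isIntegral_sepCoeff (x : G) (χ : IrrCharacter G) : IsIntegral ℤ (sepCoeff p x χ) := by
  classical
  unfold sepCoeff
  have h1 := classFunction_eq_sum _ (isClassFunction_section (x := x) (χ : G → ℂ)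
    (IsCharacter.isClassFunction (IsIrrCharacter.isCharacter χ.2)))
  rw [h1, classInner_sum_right]
  refine IsIntegral.sum _ fun ξ _ => ?_
  rw [classInner_smul_right]
  obtain ⟨n, hn⟩ := classInner_isGeneralized_int (isGeneralized_pEltInd p (Subgroup.centralizer ({x} : Set G)))
    (IsGeneralizedCharacter.of_isCharacter (IsIrrCharacter.isCharacter ξ.2))
  rw [hn]
  exact (Cfsg.Agent.Lib.BPair.isIntegral_conj_aa χ ξ).mul (isIntegral_intCast _)

theorem orderOf_conj_eq_of_helper10 {G : Type*} [Group G] (c g : G) : orderOf (c * g * c⁻¹) = orderOf g :=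
  orderOf_injective (MulAut.conj c).toMonoidHom (MulAut.conj c).injective g

open Classical in
theorem sum_sepCoeff_mul (x g : G) (hx : ¬ p ∣ orderOf x) (hg : ¬ p ∣ orderOf g) :
    ∑ χ : IrrCharacter G, sepCoeff p x χ * (χ : G → ℂ) g =
      if IsConj g x then ((Nat.card (Subgroup.centralizer ({x} : Set G)) / p ^ (Nat.card (Subgroup.centralizer ({x} : Set G))).factorization p : ℕ) : ℂ) else 0 := by
  obtain ⟨m, hm⟩ : ∃ m : ℕ, m = Nat.card (Subgroup.centralizer ({x} : Set G)) / p ^ (Nat.card (Subgroup.centralizer ({x} : Set G))).factorization p := ⟨_, rfl⟩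
  rw [← hm]
  unfold sepCoeff
  rw [← hm]
  have hcne : (Nat.card (Subgroup.centralizer ({x} : Set G)) : ℂ) ≠ 0 := Nat.cast_ne_zero.2 Nat.card_pos.ne'
  have h1 : ∀ χ : IrrCharacter G, classInner (fun c : Subgroup.centralizer ({x} : Set G) => (m : ℂ) * pEltInd p _ c)
      (fun c : Subgroup.centralizer ({x} : Set G) => (χ : G → ℂ) (x * c)) * (χ : G → ℂ) g =
      (Nat.card (Subgroup.centralizer ({x} : Set G)) : ℂ)⁻¹ * (m : ℂ) * ∑ c : Subgroup.centralizer ({x} : Set G),
        pEltInd p _ c * ((χ : G → ℂ) g * conj ((χ : G → ℂ) (x * c))) := by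
    intro χ
    rw [classInner_def, Finset.mul_sum, Finset.sum_mul, Finset.mul_sum]
    refine Finset.sum_congr rfl fun c _ => ?_
    ring
  simp only [h1]
  rw [← Finset.mul_sum, Finset.sum_comm]
  have h2 : ∀ c : Subgroup.centralizer ({x} : Set G), ∑ χ : IrrCharacter G,
      pEltInd p _ c * ((χ : G → ℂ) g * conj ((χ : G → ℂ) (x * c))) =
      pEltInd p _ c * (if IsConj g (x * c) then (Nat.card (Subgroup.centralizer ({((x : G) * c : G)} : Set G)) : ℂ) else 0) := by
    intro c
    rw [← Finset.mul_sum, second_orthogonality']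
  simp only [h2]
  rw [Finset.sum_eq_single (1 : Subgroup.centralizer ({x} : Set G))]
  · rw [pEltInd_of_mem ⟨0, by simp⟩]
    simp only [OneMemClass.coe_one, mul_one]
    split_ifs with h3
    · rw [one_mul]
      field_simp
    · simp
  · intro c _ hc
    by_cases h3 : ∃ k : ℕ, c ^ p ^ k = 1
    · rw [if_neg, mul_zero]
      intro h4
      have h5 : orderOf g = orderOf (x * c) := by
        obtain ⟨c', hc'⟩ := isConj_iff.1 h4
        rw [← hc']
        exact orderOf_conj_eq_of_helper10 c' g |>.symm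
      have hcomm : Commute x (c : G) := commute_of_mem_centralizer c
      obtain ⟨k, hk⟩ := h3
      obtain ⟨j, -, hj⟩ := (Nat.dvd_prime_pow hp.out).1 (orderOf_dvd_of_pow_eq_one hk)
      have hordc : orderOf (c : G) = p ^ j := by
        rw [← hj]
        exact Subgroup.orderOf_coe c
      have hcop : Nat.Coprime (orderOf x) (orderOf (c : G)) := by
        rw [hordc]
        exact Nat.Coprime.pow_right _ ((Nat.Prime.coprime_iff_not_dvd hp.out).2 hx).symm
      rw [hcomm.orderOf_mul_eq_mul_orderOf_of_coprime hcop, hordc] at h5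
      rcases Nat.eq_zero_or_pos j with rfl | hjpos
      · apply hc
        have : orderOf (c : G) = 1 := by simpa using hordc
        exact Subtype.ext (orderOf_eq_one_iff.1 this)
      · apply hg
        rw [h5]
        exact Dvd.dvd.mul_left (dvd_pow_self p hjpos.ne') _
    · rw [pEltInd_of_not_mem h3, zero_mul]
  · intro h
    exact absurd (Finset.mem_univ _) h

theorem not_dvd_card_div_factorization (n : ℕ) (hn : n ≠ 0) : ¬ p ∣ n / p ^ n.factorization p :=
  Nat.not_dvd_ordCompl hp.out hn

/-- Characters separate `p`-regular classes modulo `p`. -/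
theorem isConj_of_congr (x y : G) (hx : ¬ p ∣ orderOf x) (hy : ¬ p ∣ orderOf y)
    (h : ∀ χ : IrrCharacter G, ∃ γ : ℂ, IsIntegral ℤ γ ∧ (χ : G → ℂ) x - (χ : G → ℂ) y = p * γ) :
    IsConj x y := by
  classical
  by_contra hne
  obtain ⟨M, hM⟩ := Cfsg.Agent.Lib.Char.exists_isPModular p hp.out
  have := isPModular_isPrime hM
  choose γ hγ1 hγ2 using h
  have h1 : ∑ χ : IrrCharacter G, sepCoeff p x χ * ((χ : G → ℂ) x - (χ : G → ℂ) y) =
      ((Nat.card (Subgroup.centralizer ({x} : Set G)) / p ^ (Nat.card (Subgroup.centralizer ({x} : Set G))).factorization p : ℕ) : ℂ) := by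
    simp only [mul_sub, Finset.sum_sub_distrib]
    rw [sum_sepCoeff_mul p x x hx hx, sum_sepCoeff_mul p x y hx hy, if_pos (IsConj.refl x),
      if_neg (fun h => hne h.symm), sub_zero]
  have h2 : MemLocalIdeal M (∑ χ : IrrCharacter G, sepCoeff p x χ * ((χ : G → ℂ) x - (χ : G → ℂ) y)) := by
    refine memLocalIdeal_sum _ _ fun χ _ => ?_
    refine memLocalIdeal_mul_left (memLocalRing_of_isIntegral (isIntegral_sepCoeff p x χ)) ?_
    rw [hγ2]
    exact memLocalIdeal_mul_right (memLocalIdeal_p hM) (memLocalRing_of_isIntegral (hγ1 χ))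
  rw [h1, memLocalIdeal_natCast_iff hM] at h2
  exact not_dvd_card_div_factorization p _ Nat.card_pos.ne' h2

end Sep

section Power

variable {G : Type*} [Group G] [Fintype G] (p : ℕ) [hp : Fact p.Prime]

/-- A power of a sum of integers is congruent to the sum of powers. -/
theorem exists_sum_pow_sub {ι : Type*} (s : Finset ι) (f : ι → ℂ) (hf : ∀ i ∈ s, IsIntegral ℤ (f i)) (n : ℕ) :
    ∃ γ : ℂ, IsIntegral ℤ γ ∧ (∑ i ∈ s, f i) ^ p ^ n - ∑ i ∈ s, f i ^ p ^ n = p * γ := by
  classical
  induction s using Finset.induction_on with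
  | empty =>
    refine ⟨0, isIntegral_zero, ?_⟩
    simp
    exact fun h => absurd h hp.out.ne_zero
  | insert a s ha ih =>
    obtain ⟨γ, hγ, h1⟩ := ih (fun i hi => hf i (Finset.mem_insert_of_mem hi))
    have hs : IsIntegral ℤ (∑ i ∈ s, f i) := IsIntegral.sum _ fun i hi => hf i (Finset.mem_insert_of_mem hi)
    have ha' := hf a (Finset.mem_insert_self _ _)
    obtain ⟨r, hr⟩ := exists_add_pow_prime_pow_eq hp.out
      (⟨f a, ha'⟩ : AlgInt) (⟨∑ i ∈ s, f i, hs⟩ : AlgInt) n
    have hr' := congrArg (Subtype.val) hr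
    push_cast at hr'
    refine ⟨γ + f a * (∑ i ∈ s, f i) * (r : ℂ), hγ.add ((ha'.mul hs).mul r.2), ?_⟩
    rw [Finset.sum_insert ha, Finset.sum_insert ha, hr']
    linear_combination h1
/-- `χ(g)^{p^n} ≡ χ(g^{p^n})` modulo `p`. -/
theorem exists_char_pow_sub {χ : G → ℂ} (hχ : IsCharacter G χ) (g : G) (n : ℕ) :
    ∃ γ : ℂ, IsIntegral ℤ γ ∧ χ g ^ p ^ n - χ (g ^ p ^ n) = p * γ := by
  obtain ⟨d, ρ, rfl⟩ := hχ
  obtain ⟨ζ, hζ1, hζ2⟩ := character_eq_sum_roots ρ g (isOfFinOrder_of_finite g)
  have h0 : ∀ i, IsIntegral ℤ (ζ i) := fun i =>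
    IsIntegral.of_pow (orderOf_pos g) (by rw [hζ1 i]; exact isIntegral_one)
  obtain ⟨γ, hγ, h1⟩ := exists_sum_pow_sub p Finset.univ ζ (fun i _ => h0 i) n
  refine ⟨γ, hγ, ?_⟩
  have h2 := hζ2 1
  have h3 := hζ2 ((p ^ n : ℕ) : ℤ)
  simp only [zpow_one, zpow_natCast] at h2 h3
  rw [h2, h3]
  exact h1

/-- The `p^a`-th power kills the `p`-part. -/
theorem pow_eq_of_regular_part {x x' : G} (h1 : ∃ k : ℕ, orderOf (x * x'⁻¹) = p ^ k)
    (h2 : Commute (x * x'⁻¹) x') :
    x ^ p ^ (Nat.card G).factorization p = x' ^ p ^ (Nat.card G).factorization p := by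
  obtain ⟨k, hk⟩ := h1
  have h3 : x = (x * x'⁻¹) * x' := by group
  have h4 : (x * x'⁻¹) ^ p ^ (Nat.card G).factorization p = 1 := by
    apply orderOf_dvd_iff_pow_eq_one.1
    rw [hk]
    have h5 : p ^ k ∣ Nat.card G := by
      rw [← hk]
      exact orderOf_dvd_natCard _
    exact pow_dvd_pow _ ((Nat.Prime.pow_dvd_iff_le_factorization hp.out Nat.card_pos.ne').1 h5)
  calc x ^ p ^ (Nat.card G).factorization p
      = ((x * x'⁻¹) * x') ^ p ^ (Nat.card G).factorization p := by rw [← h3]
    _ = x' ^ p ^ (Nat.card G).factorization p := by rw [h2.mul_pow, h4, one_mul]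

theorem isConj_of_pow_isConj {x y : G} {q : ℕ} (hq : (q).Coprime (orderOf x * orderOf y)) (h : IsConj (x ^ q) (y ^ q)) :
    IsConj x y := by
  classical
  obtain ⟨n, hn⟩ : ∃ n, n = orderOf x * orderOf y := ⟨_, rfl⟩
  have hn0 : 0 < n := by
    rw [hn]
    exact Nat.mul_pos (orderOf_pos _) (orderOf_pos _)
  rw [← hn] at hq
  have h1 := Nat.ModEq.pow_totient hq
  have h2 : 0 < n.totient := Nat.totient_pos.2 hn0
  obtain ⟨t, ht⟩ : ∃ t, n.totient = t + 1 := ⟨n.totient - 1, by omega⟩
  have h3 : ∀ z : G, orderOf z ∣ n → (z ^ q) ^ q ^ t = z := by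
    intro z hz
    rw [← pow_mul, ← pow_succ', ← ht]
    have h4 : z ^ q ^ n.totient = z ^ 1 := by
      apply pow_eq_pow_iff_modEq.2
      exact h1.of_dvd hz
    rwa [pow_one] at h4
  have h5 := h.pow (q ^ t)
  rwa [h3 x (by rw [hn]; exact dvd_mul_right _ _), h3 y (by rw [hn]; exact dvd_mul_left _ _)] at h5

end Power

end Cfsg.Agent.Lib.Block
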