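import Cfsg.Agent.Lib.Block.OddSum
import Cfsg.Agent.Lib.Block.TraceInt
import Cfsg.Agent.Lib.Transfer.Tate
import Cfsg.Agent.Lib.Transfer.Frat
import Cfsg.Agent.Lib.Techniques.Goldschmidt

/-!
# The intersection of the kernels of the characters of degree prime to `p`
-/

set_option autoImplicit false
set_option linter.unusedSectionVars false
set_option linter.unusedVariables false
set_option linter.style.haveILetI false

open scoped ComplexConjugate commutatorElement

namespace Cfsg.Agent.Lib.Block.OddSum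

open Cfsg Cfsg.Agent.Lib.Char Cfsg.Agent.Lib.Degree Cfsg.Agent.Lib.Block Cfsg.Agent.Lib.Transfer

section Constituent

variable {G : Type*} [Group G] [Fintype G] (H : Subgroup G) [Fintype H]

/-- An element in the kernel of `χ` lies in the kernel of each constituent of the restriction. -/
theorem constituent_ker (χ : IrrCharacter G) {x : H} (hx : (χ : G → ℂ) x = (χ : G → ℂ) 1)
    (θ : IrrCharacter H) (hθ : mult H χ θ ≠ 0) : (θ : H → ℂ) x = (θ : H → ℂ) 1 := by
  classical
  have h1 := congrFun (restrict_eq_sum H χ) x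
  have h2 := congrFun (restrict_eq_sum H χ) 1
  simp only [Finset.sum_apply, Pi.smul_apply, smul_eq_mul] at h1 h2
  have hdeg : ∀ ν : IrrCharacter H, (ν : H → ℂ) 1 = (charDegree (ν : H → ℂ) : ℂ) :=
    fun ν => map_one_eq_charDegree (IsIrrCharacter.isCharacter ν.2)
  have hle : ∀ ν : IrrCharacter H, ((ν : H → ℂ) x).re ≤ (charDegree (ν : H → ℂ) : ℝ) := by
    intro ν
    have h3 := irr_norm_le ν x
    rw [hdeg ν, Complex.norm_natCast] at h3
    exact (Complex.re_le_norm _).trans h3
  have h3 : ∑ ν : IrrCharacter H, (mult H χ ν : ℝ) * (charDegree (ν : H → ℂ) - ((ν : H → ℂ) x).re) = 0 := by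
    have e1 : (χ : G → ℂ) ((1 : H) : G) = (χ : G → ℂ) ((x : H) : G) := by
      rw [hx]
      rfl
    rw [h1, h2] at e1
    have e2 := congrArg Complex.re e1
    simp only [Complex.re_sum, hdeg] at e2
    simp only [mul_sub, Finset.sum_sub_distrib]
    rw [sub_eq_zero]
    have e3 : ∀ ν : IrrCharacter H, ((mult H χ ν : ℂ) * (charDegree (ν : H → ℂ) : ℂ)).re =
        (mult H χ ν : ℝ) * charDegree (ν : H → ℂ) := by
      intro ν
      rw [← Nat.cast_mul, Complex.natCast_re]
      push_cast
      rfl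
    have e4 : ∀ ν : IrrCharacter H, ((mult H χ ν : ℂ) * (ν : H → ℂ) x).re =
        (mult H χ ν : ℝ) * ((ν : H → ℂ) x).re := by
      intro ν
      rw [Complex.mul_re]
      simp
    simpa only [e3, e4] using e2
  have h4 := (Finset.sum_eq_zero_iff_of_nonneg (fun ν _ => mul_nonneg (Nat.cast_nonneg _)
    (sub_nonneg.mpr (hle ν)))).mp h3 θ (Finset.mem_univ _)
  have hm : (mult H χ θ : ℝ) ≠ 0 := by exact_mod_cast hθ
  have h5 := (mul_eq_zero.mp h4).resolve_left hm
  have h6 : ((θ : H → ℂ) x).re = charDegree (θ : H → ℂ) := by linarith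
  have h7 := irr_norm_le θ x
  rw [hdeg θ, Complex.norm_natCast] at h7
  have h8 : ((θ : H → ℂ) x).im = 0 := by
    have h9 := Complex.sq_norm ((θ : H → ℂ) x)
    rw [Complex.normSq_apply, h6] at h9
    have h10 : 0 ≤ ‖(θ : H → ℂ) x‖ := norm_nonneg _
    have h11 : ‖(θ : H → ℂ) x‖ ^ 2 ≤ (charDegree (θ : H → ℂ) : ℝ) ^ 2 := by
      exact pow_le_pow_left₀ h10 h7 2
    nlinarith [mul_self_nonneg ((θ : H → ℂ) x).im]
  rw [hdeg θ]
  apply Complex.ext
  · simpa using h6
  · simpa using h8

open Classical in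
/-- A character of `H` of degree prime to `p`, for `H` of index prime to `p`, occurs in a character
of `G` of degree prime to `p`. -/
theorem exists_not_dvd_constituent {p : ℕ} [hp : Fact p.Prime] (hH : ¬ p ∣ H.index) (θ : IrrCharacter H)
    (hθ : ¬ p ∣ charDegree (θ : H → ℂ)) :
    ∃ χ : IrrCharacter G, ¬ p ∣ charDegree (χ : G → ℂ) ∧ mult H χ θ ≠ 0 := by
  by_contra hcon
  push Not at hcon
  have h1 : p ∣ ∑ χ : IrrCharacter G, mult H χ θ * charDegree (χ : G → ℂ) := by
    refine Finset.dvd_sum fun χ _ => ?_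
    by_cases h2 : p ∣ charDegree (χ : G → ℂ)
    · exact h2.mul_left _
    · rw [hcon χ h2]
      simp
  rw [sum_mult_degree] at h1
  exact (Nat.Prime.dvd_mul hp.out).mp h1 |>.elim hH hθ

end Constituent

section LemmaB

variable {G : Type*} [Group G] [Fintype G] {p : ℕ} [hp : Fact p.Prime]

open Classical in
/-- An element centralizing a Sylow `p`-subgroup but not lying in it is seen by a character of degree
prime to `p`. -/
theorem exists_not_ker_of_centralizer (P : Subgroup G) [Fintype P] (hP : ¬ p ∣ P.index) (c : G)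
    (hc : P ≤ Subgroup.centralizer ({c} : Set G)) (hcP : c ∉ P) :
    ∃ χ : IrrCharacter G, ¬ p ∣ charDegree (χ : G → ℂ) ∧ (χ : G → ℂ) c ≠ (χ : G → ℂ) 1 := by
  by_contra hcon
  push Not at hcon
  have hpp : p.Prime := hp.out
  let A : IrrCharacter G → ℂ := fun χ => (Nat.card P : ℂ)⁻¹ * ∑ a : P, (χ : G → ℂ) (c * a)
  have hAint : ∀ χ : IrrCharacter G, IsIntegral ℤ (A χ) := fun χ =>
    isIntegral_average_character (IsIrrCharacter.isCharacter χ.2) P hc
  have hsum0 : ∑ χ : IrrCharacter G, (χ : G → ℂ) 1 * A χ = 0 := by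
    have h1 : ∑ χ : IrrCharacter G, (χ : G → ℂ) 1 * A χ =
        (Nat.card P : ℂ)⁻¹ * ∑ a : P, ∑ χ : IrrCharacter G, (χ : G → ℂ) 1 * (χ : G → ℂ) (c * a) := by
      simp only [A, Finset.mul_sum]
      rw [Finset.sum_comm]
      refine Finset.sum_congr rfl fun χ _ => Finset.sum_congr rfl fun a _ => ?_
      ring
    rw [h1]
    have h2 : ∀ a : P, ∑ χ : IrrCharacter G, (χ : G → ℂ) 1 * (χ : G → ℂ) (c * a) = 0 := by
      intro a
      rw [sum_irr_degree_mul, if_neg]
      intro h
      apply hcP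
      have h3 : c = (a : G)⁻¹ := eq_inv_of_mul_eq_one_left h
      rw [h3]
      exact P.inv_mem a.2
    simp only [h2, Finset.sum_const_zero, mul_zero]
  -- the characters of degree prime to `p`
  have hA1 : ∀ χ : IrrCharacter G, ¬ p ∣ charDegree (χ : G → ℂ) → A χ = (mult P χ (oneIrr P) : ℂ) := by
    intro χ hχ
    rw [← mult_spec]
    unfold classInner
    rw [oneIrr_coe]
    simp only [A, map_one, mul_one]
    congr 1
    refine Finset.sum_congr rfl fun a _ => ?_
    exact irr_mul_of_ker χ (hcon χ hχ) _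
  have hdeg : ∀ χ : IrrCharacter G, (χ : G → ℂ) 1 = (charDegree (χ : G → ℂ) : ℂ) :=
    fun χ => map_one_eq_charDegree (IsIrrCharacter.isCharacter χ.2)
  have hone : charDegree ((oneIrr P : IrrCharacter P) : P → ℂ) = 1 := by
    unfold charDegree
    rw [oneIrr_coe]
    simp
  have htot := sum_mult_degree P (oneIrr P)
  rw [hone, mul_one] at htot
  let S₁ : ℕ := ∑ χ ∈ Finset.univ.filter (fun χ : IrrCharacter G => ¬ p ∣ charDegree (χ : G → ℂ)),
    mult P χ (oneIrr P) * charDegree (χ : G → ℂ)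
  have hsplit := Finset.sum_filter_add_sum_filter_not (Finset.univ : Finset (IrrCharacter G))
    (fun χ : IrrCharacter G => p ∣ charDegree (χ : G → ℂ)) (fun χ => mult P χ (oneIrr P) * charDegree (χ : G → ℂ))
  have hS₂ : p ∣ ∑ χ ∈ Finset.univ.filter (fun χ : IrrCharacter G => p ∣ charDegree (χ : G → ℂ)),
      mult P χ (oneIrr P) * charDegree (χ : G → ℂ) :=
    Finset.dvd_sum fun χ hχ => (Finset.mem_filter.mp hχ).2.mul_left _
  have hS₁ : p ∣ S₁ := by
    have hsplit2 := Finset.sum_filter_add_sum_filter_not (Finset.univ : Finset (IrrCharacter G))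
      (fun χ : IrrCharacter G => p ∣ charDegree (χ : G → ℂ)) (fun χ => (χ : G → ℂ) 1 * A χ)
    rw [hsum0] at hsplit2
    have h1 : ∑ χ ∈ Finset.univ.filter (fun χ : IrrCharacter G => ¬ p ∣ charDegree (χ : G → ℂ)),
        (χ : G → ℂ) 1 * A χ = (S₁ : ℂ) := by
      simp only [S₁]
      push_cast
      refine Finset.sum_congr rfl fun χ hχ => ?_
      rw [hA1 χ (Finset.mem_filter.mp hχ).2, hdeg]
      ring
    rw [h1] at hsplit2
    have hp0 : (p : ℂ) ≠ 0 := by exact_mod_cast hpp.ne_zero
    have h2 : ((S₁ : ℕ) : ℂ) / (p : ℂ) =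
        - ∑ χ ∈ Finset.univ.filter (fun χ : IrrCharacter G => p ∣ charDegree (χ : G → ℂ)),
          ((charDegree (χ : G → ℂ) / p : ℕ) : ℂ) * A χ := by
      have h3 : ∑ χ ∈ Finset.univ.filter (fun χ : IrrCharacter G => p ∣ charDegree (χ : G → ℂ)),
          (χ : G → ℂ) 1 * A χ = (p : ℂ) *
          ∑ χ ∈ Finset.univ.filter (fun χ : IrrCharacter G => p ∣ charDegree (χ : G → ℂ)),
            ((charDegree (χ : G → ℂ) / p : ℕ) : ℂ) * A χ := by
        rw [Finset.mul_sum]
        refine Finset.sum_congr rfl fun χ hχ => ?_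
        rw [hdeg]
        have h4 : ((charDegree (χ : G → ℂ) : ℕ) : ℂ) = (p : ℂ) * ((charDegree (χ : G → ℂ) / p : ℕ) : ℂ) := by
          rw [← Nat.cast_mul, Nat.mul_div_cancel' (Finset.mem_filter.mp hχ).2]
        rw [h4]
        ring
      rw [h3] at hsplit2
      field_simp
      linear_combination hsplit2
    have h3 : IsIntegral ℤ (((S₁ : ℕ) : ℂ) / (p : ℂ)) := by
      rw [h2]
      refine IsIntegral.neg (IsIntegral.sum _ fun χ _ => ?_)
      exact (isIntegral_natCast _).mul (hAint χ)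
    exact nat_dvd_of_isIntegral_div hpp.ne_zero h3
  apply hP
  rw [← htot, ← hsplit]
  exact dvd_add hS₂ hS₁

/-- The kernels of the characters of degree prime to `p` meet `P` inside `P′`. -/
theorem mem_commutator_of_ker (P : Subgroup G) [Fintype P] (hP : ¬ p ∣ P.index) {x : G} (hxP : x ∈ P)
    (hx : ∀ χ : IrrCharacter G, ¬ p ∣ charDegree (χ : G → ℂ) → (χ : G → ℂ) x = (χ : G → ℂ) 1) :
    x ∈ (⁅P, P⁆ : Subgroup G) := by
  classical
  let A : Subgroup ↥P := ⊤
  have hidx : ¬ p ∣ A.index := by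
    simp [A, Subgroup.index_top, (Fact.out : p.Prime).one_lt.ne', Nat.dvd_one]
  let x' : ↥A := ⟨⟨x, hxP⟩, Subgroup.mem_top _⟩
  have h1 : x' ∈ commutator ↥A := by
    apply mem_commutator_of_char A hidx
    intro θ hθ
    obtain ⟨χ, hχ, hm⟩ := exists_not_dvd_constituent P hP θ hθ
    exact constituent_ker P χ (x := ⟨x, hxP⟩) (hx χ hχ) θ hm
  let ι : ↥A →* G := P.subtype.comp A.subtype
  have h3 : (commutator ↥A).map ι ≤ ⁅P, P⁆ := by
    rw [commutator_def, Subgroup.map_commutator]
    have h4 : (⊤ : Subgroup ↥A).map ι ≤ P := by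
      rintro _ ⟨u, -, rfl⟩
      exact (u : ↥P).2
    exact Subgroup.commutator_mono h4 h4
  exact h3 ⟨_, h1, rfl⟩

end LemmaB

section LemmaE

variable {X : Type*} [Group X] [Fintype X] {p : ℕ} [hp : Fact p.Prime]

/-- A normal subgroup inside the derived subgroup of a `p`-subgroup lies in the kernel of every
character of degree prime to `p`. -/
theorem ker_of_le_commutator (Q : Subgroup X) [Fintype Q] (hQ : IsPGroup p Q) (Y : Subgroup X) [hY : Y.Normal]
    (hYQ : Y ≤ ⁅Q, Q⁆) (c : IrrCharacter X) (hc : ¬ p ∣ charDegree (c : X → ℂ)) :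
    ∀ y ∈ Y, (c : X → ℂ) y = (c : X → ℂ) 1 := by
  classical
  have hpp : p.Prime := hp.out
  have := Fintype.ofFinite Y
  rw [← classInner_one_iff Y c]
  have hYQ' : Y ≤ Q := hYQ.trans (by
    rw [← Q.map_subtype_commutator]
    exact Subgroup.map_subtype_le _)
  -- a linear constituent on `Q`
  have h1 : ∃ lam : IrrCharacter Q, mult Q c lam ≠ 0 ∧ charDegree (lam : Q → ℂ) = 1 := by
    by_contra hcon
    push Not at hcon
    apply hc
    rw [degree_eq_sum Q c]
    refine Finset.dvd_sum fun ν _ => ?_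
    by_cases h2 : mult Q c ν = 0
    · rw [h2]
      simp
    · have h3 := hcon ν h2
      have h4 : charDegree (ν : Q → ℂ) ∣ Nat.card Q := charDegree_dvd_card ν.2
      obtain ⟨k, hk⟩ := (IsPGroup.iff_card.mp hQ)
      rw [hk] at h4
      obtain ⟨j, -, hj⟩ := (Nat.dvd_prime_pow hpp).mp h4
      have hj0 : j ≠ 0 := by
        rintro rfl
        exact h3 (by simpa using hj)
      rw [hj]
      exact (dvd_pow_self p hj0).mul_left _
  obtain ⟨lam, hm, hlam⟩ := h1
  let D : Subgroup ↥Q := Y.subgroupOf Q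
  have := Fintype.ofFinite D
  have hone : ∀ ν : IrrCharacter Q, classInner (fun d : D => (ν : Q → ℂ) d) ((oneIrr D : IrrCharacter D) : D → ℂ) =
      (mult D ν (oneIrr D) : ℂ) := fun ν => mult_spec D ν (oneIrr D)
  have hsum : ∀ ν : IrrCharacter Q, ∑ d : D, (ν : Q → ℂ) d = (Nat.card D : ℂ) * (mult D ν (oneIrr D) : ℂ) := by
    intro ν
    rw [← hone]
    unfold classInner
    rw [oneIrr_coe]
    simp only [map_one, mul_one]
    have hD : (Nat.card D : ℂ) ≠ 0 := by exact_mod_cast Nat.card_pos.ne'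
    field_simp
  have hlam1 : mult D lam (oneIrr D) = 1 := by
    have h2 := hsum lam
    have h3 : ∀ d : D, (lam : Q → ℂ) d = 1 := by
      intro d
      have hd : ((d : Q) : X) ∈ ⁅Q, Q⁆ := hYQ (Subgroup.mem_subgroupOf.mp d.2)
      rw [← Q.map_subtype_commutator] at hd
      obtain ⟨z, hz, hzd⟩ := hd
      have hzd' : z = (d : Q) := Subtype.ext hzd
      rw [← hzd']
      have hdeg1 : (lam : Q → ℂ) 1 = 1 := by
        rw [map_one_eq_charDegree (IsIrrCharacter.isCharacter lam.2), hlam]
        simp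
      exact irr_linear_commutator lam hdeg1 hz
    simp only [h3, Finset.sum_const, Finset.card_univ, nsmul_eq_mul, mul_one] at h2
    have hD : (Nat.card D : ℂ) ≠ 0 := by exact_mod_cast Nat.card_pos.ne'
    have h4 : ((Fintype.card D : ℕ) : ℂ) = (Nat.card D : ℂ) := by
      rw [Nat.card_eq_fintype_card]
    rw [h4] at h2
    have h5 := mul_left_cancel₀ hD (h2.symm.trans (mul_one _).symm)
    exact_mod_cast h5
  -- the sum over `Y`
  have hYsum : ∑ y : Y, (c : X → ℂ) y = (Nat.card D : ℂ) * ((∑ ν : IrrCharacter Q, mult Q c ν * mult D ν (oneIrr D) : ℕ) : ℂ) := by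
    have e1 : ∑ y : Y, (c : X → ℂ) y = ∑ d : D, (c : X → ℂ) ((d : Q) : X) := by
      refine (Fintype.sum_equiv (Subgroup.subgroupOfEquivOfLe hYQ').toEquiv _ _ ?_).symm
      intro d
      rfl
    rw [e1]
    have e2 : ∀ d : D, (c : X → ℂ) ((d : Q) : X) = ∑ ν : IrrCharacter Q, (mult Q c ν : ℂ) * (ν : Q → ℂ) d := by
      intro d
      have h := congrFun (restrict_eq_sum Q c) (d : Q)
      simpa only [Finset.sum_apply, Pi.smul_apply, smul_eq_mul] using h
    simp only [e2]
    rw [Finset.sum_comm]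
    simp only [← Finset.mul_sum, hsum]
    push_cast
    rw [Finset.mul_sum]
    refine Finset.sum_congr rfl fun ν _ => ?_
    ring
  unfold classInner
  rw [oneIrr_coe]
  simp only [map_one, mul_one]
  rw [hYsum]
  have hY0 : (Nat.card Y : ℂ)⁻¹ ≠ 0 := inv_ne_zero (by exact_mod_cast Nat.card_pos.ne')
  have hD : (Nat.card D : ℂ) ≠ 0 := by exact_mod_cast Nat.card_pos.ne'
  refine mul_ne_zero hY0 (mul_ne_zero hD ?_)
  have hpos : 0 < ∑ ν : IrrCharacter Q, mult Q c ν * mult D ν (oneIrr D) := by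
    refine lt_of_lt_of_le ?_ (Finset.single_le_sum (f := fun ν : IrrCharacter Q => mult Q c ν * mult D ν (oneIrr D))
      (fun _ _ => Nat.zero_le _) (Finset.mem_univ lam))
    simp only [hlam1, mul_one]
    exact Nat.pos_of_ne_zero hm
  exact_mod_cast hpos.ne'

end LemmaE

section Main

variable {G : Type*} [Group G] [Finite G] {p : ℕ} [hp : Fact p.Prime]

theorem ker_eq_normalCore (P : Sylow p G) (N : Subgroup G) [hNn : N.Normal]
    (hN : N ⊓ Subgroup.centralizer ((P : Subgroup G) : Set G) = ⊥)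
    (hmax : ∀ L : Subgroup G, L.Normal → L ⊓ Subgroup.centralizer ((P : Subgroup G) : Set G) = ⊥ → L ≤ N) :
    {g : G | ∀ χ : IrrCharacter G, ¬ p ∣ charDegree (χ : G → ℂ) → (χ : G → ℂ) g = (χ : G → ℂ) 1} =
      ((N ⊔ ⁅(P : Subgroup G), (P : Subgroup G)⁆).normalCore : Set G) := by
  classical
  haveI : Fintype G := Fintype.ofFinite G
  haveI : Fintype (P : Subgroup G) := Fintype.ofFinite _
  have hidx : ¬ p ∣ (P : Subgroup G).index := P.not_dvd_index
  ext g
  constructor
  · intro hg
    -- the kernel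
    let S : Set (IrrCharacter G) := {χ | ¬ p ∣ charDegree (χ : G → ℂ)}
    let K : Subgroup G := kerSet S
    have hgK : g ∈ K := fun χ hχ => hg χ hχ
    have hKP : K ⊓ (P : Subgroup G) ≤ ⁅(P : Subgroup G), (P : Subgroup G)⁆ := by
      rintro x ⟨hxK, hxP⟩
      exact mem_commutator_of_ker (p := p) (P : Subgroup G) hidx hxP (fun χ hχ => hxK χ hχ)
    have hΦ : K ⊓ (P : Subgroup G) ≤ (frattini (P : Subgroup G)).map (P : Subgroup G).subtype := by
      refine hKP.trans ?_
      rw [← (P : Subgroup G).map_subtype_commutator]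
      exact Subgroup.map_mono (commutator_le_frattini P.isPGroup')
    let W : Subgroup G := (pResidual p ↥K).map K.subtype
    haveI hWn : W.Normal := residual_map_normal (p := p) K
    have hWK : W ≤ K := Subgroup.map_subtype_le _
    have hWP : W ⊓ (P : Subgroup G) = ⊥ := tate_core P W (residual_map_residual K) ((inf_le_inf_right _ hWK).trans hΦ)
    have hWN : W ≤ N := by
      refine hmax W hWn ?_
      rw [eq_bot_iff]
      rintro c ⟨hcW, hcC⟩
      by_contra hc1
      have hc1' : c ≠ 1 := hc1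
      have hcP : c ∉ (P : Subgroup G) := by
        intro hcP
        have h2 : c ∈ W ⊓ (P : Subgroup G) := ⟨hcW, hcP⟩
        rw [hWP] at h2
        exact hc1 h2
      have hcen : (P : Subgroup G) ≤ Subgroup.centralizer ({c} : Set G) := by
        intro a ha
        rw [Subgroup.mem_centralizer_singleton_iff]
        have h3 := (Subgroup.mem_centralizer_iff.mp hcC) a ha
        exact h3
      obtain ⟨χ, hχ, hne⟩ := exists_not_ker_of_centralizer (p := p) (P : Subgroup G) hidx c hcen hcP
      exact hne (hWK hcW χ hχ)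
    have hKle : K ≤ N ⊔ ⁅(P : Subgroup G), (P : Subgroup G)⁆ := by
      have h1 := Cfsg.Agent.Lib.FF.le_sup_oUpper (Cfsg.Agent.Lib.FF.inf_normal_isSylowIn P K)
      refine h1.trans (sup_le ?_ ?_)
      · exact (by
          rw [inf_comm]
          exact hKP.trans le_sup_right)
      · refine le_trans ?_ (hWN.trans le_sup_left)
        unfold Cfsg.Agent.Lib.FF.oUpper
        rw [Subgroup.closure_le]
        rintro z ⟨hz, hzc⟩
        refine ⟨⟨z, hz⟩, mem_pResidual_of_coprime ?_, rfl⟩
        rwa [Subgroup.orderOf_mk]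
    exact Subgroup.normal_le_normalCore.mpr hKle hgK
  · intro hg χ hχ
    have hg' : g ∈ (N ⊔ ⁅(P : Subgroup G), (P : Subgroup G)⁆).normalCore := hg
    let L := (N ⊔ ⁅(P : Subgroup G), (P : Subgroup G)⁆).normalCore
    haveI hLn : L.Normal := Subgroup.normalCore_normal _
    have hfree : ∀ w ∈ N, (∀ q ∈ (P : Subgroup G), q * w * q⁻¹ = w) → w = 1 := by
      intro w hw hc
      have h2 : w ∈ N ⊓ Subgroup.centralizer ((P : Subgroup G) : Set G) := by
        refine ⟨hw, ?_⟩
        show w ∈ Subgroup.centralizer _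
        rw [Subgroup.mem_centralizer_iff]
        intro a ha
        have h3 := hc a ha
        rw [mul_inv_eq_iff_eq_mul] at h3
        exact h3
      rw [hN] at h2
      exact h2
    have hker : KerContains N (χ : G → ℂ) :=
      kerContains_of_fixedPointFree (P : Subgroup G) P.isPGroup' N hfree χ hχ
    obtain ⟨c, rfl⟩ := exists_inflate N hker
    let π : G →* G ⧸ N := QuotientGroup.mk' N
    have hπ : Function.Surjective π := QuotientGroup.mk'_surjective N
    haveI : Fintype (G ⧸ N) := Fintype.ofFinite _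
    let Q : Subgroup (G ⧸ N) := (P : Subgroup G).map π
    haveI : Fintype Q := Fintype.ofFinite _
    have hQ : IsPGroup p Q := P.isPGroup'.map π
    let Y : Subgroup (G ⧸ N) := L.map π
    haveI hYn : Y.Normal := hLn.map π hπ
    have hYQ : Y ≤ ⁅Q, Q⁆ := by
      have h1 : L ≤ N ⊔ ⁅(P : Subgroup G), (P : Subgroup G)⁆ := Subgroup.normalCore_le _
      have h2 : Y ≤ (N ⊔ ⁅(P : Subgroup G), (P : Subgroup G)⁆).map π := Subgroup.map_mono h1
      refine h2.trans ?_
      rw [Subgroup.map_sup, Subgroup.map_commutator]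
      refine sup_le ?_ le_rfl
      rintro _ ⟨n, hn, rfl⟩
      have h3 : π n = 1 := (QuotientGroup.eq_one_iff n).mpr hn
      rw [h3]
      exact Subgroup.one_mem _
    have hdeg : ¬ p ∣ charDegree (c : G ⧸ N → ℂ) := by
      have h3 : charDegree ((inflate N c : IrrCharacter G) : G → ℂ) = charDegree (c : G ⧸ N → ℂ) := by
        unfold charDegree
        simp
      rwa [h3] at hχ
    have h5 := ker_of_le_commutator Q hQ Y hYQ c hdeg (π g) ⟨g, hg', rfl⟩
    exact h5

end Main

end Cfsg.Agent.Lib.Block.OddSum
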