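import Cfsg.Agent.Lib.Block.CentralDefect3
import Cfsg.Agent.Lib.Block.Subsect
import Cfsg.Agent.Lib.Block.SubAlg

/-!
# The `p`-regular rank of the principal block modulo a normal `p`-subgroup covered by its centralizer
-/

set_option autoImplicit false
set_option linter.unusedSectionVars false
set_option linter.unusedSimpArgs false
set_option linter.unusedVariables false
set_option linter.style.haveILetI false

open scoped ComplexConjugate
open Cfsg MonoidAlgebra Module
open Cfsg.Agent.Lib.Char Cfsg.Agent.Lib.Degree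

namespace Cfsg.Agent.Lib.Block

section QR

variable {G : Type*} [Group G] [Fintype G] {p : ℕ} [hp : Fact p.Prime] {M : Ideal AlgInt}
  (Q : Subgroup G) [hQn : Q.Normal] [Fintype (G ⧸ Q)] [Fintype Q]

open Classical in
/-- Extending functions on the quotient to the regular elements. -/
noncomputable def regLift (p : ℕ) (Q : Subgroup G) [Q.Normal] : (G ⧸ Q → ℂ) →ₗ[ℂ] (G → ℂ) where
  toFun f := fun g => if p ∣ orderOf g then 0 else f (g : G ⧸ Q)
  map_add' f f' := by
    funext g
    by_cases h : p ∣ orderOf g <;> simp [h]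
  map_smul' c f := by
    funext g
    by_cases h : p ∣ orderOf g <;> simp [h]

open Classical in
theorem regLift_apply (f : G ⧸ Q → ℂ) (g : G) :
    regLift p Q f g = if p ∣ orderOf g then 0 else f (g : G ⧸ Q) := rfl

theorem regLift_regPart (ζ : IrrCharacter (G ⧸ Q)) :
    regLift p Q (pRegularPart p (ζ : G ⧸ Q → ℂ)) = pRegularPart p ((inflate Q ζ : IrrCharacter G) : G → ℂ) := by
  classical
  funext g
  rw [regLift_apply]
  by_cases h : p ∣ orderOf g
  · rw [if_pos h, pRegularPart_of_sing h]
  · rw [if_neg h, pRegularPart_of_reg h, pRegularPart_of_reg (regular_map_mk Q h)]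
    rfl

theorem regLift_inj {f f' : G ⧸ Q → ℂ} (hf : ∀ k : G ⧸ Q, p ∣ orderOf k → f k = 0) (hf' : ∀ k : G ⧸ Q, p ∣ orderOf k → f' k = 0)
    (h : regLift p Q f = regLift p Q f') : f = f' := by
  classical
  funext k
  by_cases hk : p ∣ orderOf k
  · rw [hf k hk, hf' k hk]
  · obtain ⟨g, hg, rfl⟩ := reg_surj (p := p) k hk
    have := congrFun h g
    rwa [regLift_apply, regLift_apply, if_neg hg, if_neg hg] at this

/-- Every regular part is a combination of regular parts of characters of the quotient. -/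
theorem exists_regPart_eq_sum (hQ : IsPGroup p Q) (hC : ∀ g : G, ¬ p ∣ orderOf g → g ∈ Subgroup.centralizer (Q : Set G))
    (χ : IrrCharacter G) : ∃ c : IrrCharacter (G ⧸ Q) → ℂ,
      pRegularPart p (χ : G → ℂ) = ∑ ζ, c ζ • pRegularPart p ((inflate Q ζ : IrrCharacter G) : G → ℂ) := by
  classical
  -- the function on the quotient
  let f : G ⧸ Q → ℂ := fun k => if h : p ∣ orderOf k then 0 else (χ : G → ℂ) (Classical.choose (reg_surj (p := p) k h))
  have hf : ∀ g : G, ¬ p ∣ orderOf g → f (g : G ⧸ Q) = (χ : G → ℂ) g := by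
    intro g hg
    have h1 := regular_map_mk (p := p) Q hg
    simp only [f]
    rw [dif_neg h1]
    have h2 := Classical.choose_spec (reg_surj (p := p) (g : G ⧸ Q) h1)
    rw [reg_inj (p := p) hQ h2.1 hg (hC _ h2.1) h2.2]
  have hfs : ∀ k : G ⧸ Q, p ∣ orderOf k → f k = 0 := by
    intro k hk
    simp only [f]
    rw [dif_pos hk]
  have hcf : IsClassFunction (G ⧸ Q) f := by
    intro k a
    obtain ⟨x, rfl⟩ := QuotientGroup.mk_surjective a
    by_cases hk : p ∣ orderOf k
    · rw [hfs k hk, hfs _ (by rwa [orderOf_conj])]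
    · obtain ⟨g, hg, rfl⟩ := reg_surj (p := p) k hk
      have h1 : ¬ p ∣ orderOf (x * g * x⁻¹) := by rwa [orderOf_conj]
      have h2 : ((x : G) : G ⧸ Q) * (g : G ⧸ Q) * (x : G ⧸ Q)⁻¹ = ((x * g * x⁻¹ : G) : G ⧸ Q) := rfl
      rw [h2, hf _ h1, hf _ hg]
      exact IsCharacter.isClassFunction (IsIrrCharacter.isCharacter χ.2) g x
  have hexp := classFunction_eq_sum f hcf
  refine ⟨fun ζ => classInner f (ζ : G ⧸ Q → ℂ), ?_⟩
  funext g
  rw [Finset.sum_apply]
  by_cases hg : p ∣ orderOf g
  · rw [pRegularPart_of_sing hg]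
    symm
    apply Finset.sum_eq_zero
    intro ζ _
    rw [Pi.smul_apply, pRegularPart_of_sing hg, smul_zero]
  · rw [pRegularPart_of_reg hg, ← hf g hg]
    have h := congrFun hexp (g : G ⧸ Q)
    rw [Finset.sum_apply] at h
    refine h.trans (Finset.sum_congr rfl fun ζ _ => ?_)
    rw [Pi.smul_apply, Pi.smul_apply, pRegularPart_of_reg hg]
    rfl

/-- S4571. -/
theorem blockRank_principal_quot (hM : IsPModular p M) (hQ : IsPGroup p Q)
    (hC : ∀ g : G, ¬ p ∣ orderOf g → g ∈ Subgroup.centralizer (Q : Set G)) :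
    blockRank p (principalBlock M G) = blockRank p (principalBlock M (G ⧸ Q)) := by
  classical
  haveI := isPModular_isPrime hM
  have hBU : IsBlockUnion M (principalBlock M G) := isBlockUnion_of_isPBlock ⟨oneIrr G, rfl⟩
  have hmem : ∀ ζ : IrrCharacter (G ⧸ Q), ζ ∈ principalBlock M (G ⧸ Q) → inflate Q ζ ∈ principalBlock M G := by
    intro ζ hζ
    exact sameBlock_inflate_of_sameBlock Q (χ := oneIrr (G ⧸ Q)) (ψ := ζ) hζ
  have hnot : ∀ ζ : IrrCharacter (G ⧸ Q), ζ ∉ principalBlock M (G ⧸ Q) → inflate Q ζ ∉ principalBlock M G := by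
    intro ζ hζ hc
    exact hζ (sameBlock_of_sameBlock_inflate_reg hM hQ hC (χ := oneIrr (G ⧸ Q)) (ψ := ζ) hc)
  rw [blockRank_eq_finrank, blockRank_eq_finrank]
  obtain ⟨U, hU⟩ : ∃ U, U = regSpan p (principalBlock M (G ⧸ Q)) := ⟨_, rfl⟩
  rw [← hU]
  have hmap : U.map (regLift p Q) = regSpan p (principalBlock M G) := by
    apply le_antisymm
    · rw [hU, regSpan, Submodule.map_span, Submodule.span_le]
      rintro _ ⟨_, ⟨ζ, hζ, rfl⟩, rfl⟩
      rw [regLift_regPart]
      exact Submodule.subset_span ⟨_, hmem ζ hζ, rfl⟩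
    · rw [regSpan, Submodule.span_le]
      rintro _ ⟨χ, hχ, rfl⟩
      obtain ⟨c, hc⟩ := exists_regPart_eq_sum Q hQ hC χ
      -- split the sum
      obtain ⟨a, ha⟩ : ∃ a, a = ∑ ζ ∈ Finset.univ.filter (· ∈ principalBlock M (G ⧸ Q)),
          c ζ • pRegularPart p (ζ : G ⧸ Q → ℂ) := ⟨_, rfl⟩
      obtain ⟨b, hb⟩ : ∃ b, b = ∑ ζ ∈ Finset.univ.filter (· ∉ principalBlock M (G ⧸ Q)),
          c ζ • pRegularPart p ((inflate Q ζ : IrrCharacter G) : G → ℂ) := ⟨_, rfl⟩
      have haU : a ∈ U := by
        rw [ha, hU]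
        refine Submodule.sum_mem _ fun ζ hζ => Submodule.smul_mem _ _ (Submodule.subset_span ⟨ζ, ?_, rfl⟩)
        simpa using hζ
      have hsum : pRegularPart p (χ : G → ℂ) = regLift p Q a + b := by
        rw [hc, ← Finset.sum_filter_add_sum_filter_not Finset.univ (· ∈ principalBlock M (G ⧸ Q)), ha, hb, map_sum]
        congr 1
        refine Finset.sum_congr rfl fun ζ _ => ?_
        rw [map_smul, regLift_regPart]
      have hbs : b ∈ regSpan p (principalBlock M G)ᶜ := by
        rw [hb]
        refine Submodule.sum_mem _ fun ζ hζ => Submodule.smul_mem _ _ (Submodule.subset_span ⟨_, ?_, rfl⟩)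
        exact hnot ζ (by simpa using hζ)
      have hbs' : b ∈ regSpan p (principalBlock M G) := by
        have h1 : regLift p Q a ∈ regSpan p (principalBlock M G) := by
          rw [ha, map_sum]
          refine Submodule.sum_mem _ fun ζ hζ => ?_
          rw [map_smul, regLift_regPart]
          exact Submodule.smul_mem _ _ (Submodule.subset_span ⟨_, hmem ζ (by simpa using hζ), rfl⟩)
        have h2 : pRegularPart p (χ : G → ℂ) ∈ regSpan p (principalBlock M G) := Submodule.subset_span ⟨χ, hχ, rfl⟩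
        have h3 : b = pRegularPart p (χ : G → ℂ) - regLift p Q a := by
          rw [hsum]
          abel
        rw [h3]
        exact Submodule.sub_mem _ h2 h1
      have hb0 : b = 0 := by
        have h1 := regSpan_inf_eq_bot (p := p) hM hBU (disjoint_compl_right)
        have h2 : b ∈ regSpan p (principalBlock M G) ⊓ regSpan p (principalBlock M G)ᶜ := Submodule.mem_inf.2 ⟨hbs', hbs⟩
        rw [h1] at h2
        exact (Submodule.mem_bot ℂ).1 h2
      rw [SetLike.mem_coe, Submodule.mem_map]
      refine ⟨a, haU, ?_⟩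
      change regLift p Q a = pRegularPart p (χ : G → ℂ)
      rw [hsum, hb0, add_zero]
  rw [← hmap]
  have hvan : ∀ f ∈ U, ∀ k : G ⧸ Q, p ∣ orderOf k → f k = 0 := by
    intro f hf k hk
    rw [hU] at hf
    exact regSpan_vanish hf hk
  have hinj : Function.Injective ((regLift p Q).domRestrict U) := by
    intro f f' h
    apply Subtype.ext
    exact regLift_inj Q (hvan f f.2) (hvan f' f'.2) h
  have h1 := LinearMap.finrank_range_of_inj hinj
  rw [LinearMap.range_domRestrict] at h1
  exact h1

end QR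

end Cfsg.Agent.Lib.Block
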