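import Cfsg.Agent.Lib.Block.BrauerFeit
import Cfsg.Agent.Lib.Block.DefectInd
import Cfsg.Agent.Lib.Block.CentralDefect3
import Cfsg.Agent.Lib.CharExtra.DefectClass
import Cfsg.Agent.Lib.Char.OddOrder

/-!
# Real `2`-blocks of full defect

A `2`-block containing a character of odd degree and stable under inversion is the principal block.
-/

set_option autoImplicit false
set_option linter.unusedSectionVars false
set_option linter.unusedSimpArgs false
set_option linter.unusedVariables false

open scoped ComplexConjugate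
open Cfsg MonoidAlgebra Module Cfsg.Agent.Lib.CharExtra

namespace Cfsg.Agent.Lib.Block

section Invol

variable {M : Ideal AlgInt}

/-- Sums over a set stable under an involution, modulo a local ideal above `2`. -/
theorem memLocalIdeal_sum_of_involution {X : Type*} [DecidableEq X] (hM : IsPModular 2 M)
    (ι : X → X) (hι : ∀ x, ι (ι x) = x) (w : X → ℂ) (hw : ∀ x, MemLocalRing M (w x))
    (hinv : ∀ x, MemLocalIdeal M (w (ι x) - w x)) (s : Finset X) (hs : ∀ x ∈ s, ι x ∈ s)
    (hfix : ∀ x ∈ s, ι x = x → MemLocalIdeal M (w x)) : MemLocalIdeal M (∑ x ∈ s, w x) := by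
  have := isPModular_isPrime hM
  induction s using Finset.strongInduction with
  | H s ih =>
    rcases s.eq_empty_or_nonempty with rfl | ⟨x, hx⟩
    · simpa using memLocalIdeal_zero
    · by_cases hxx : ι x = x
      · rw [← Finset.add_sum_erase s w hx]
        refine memLocalIdeal_add (hfix x hx hxx) (ih _ (Finset.erase_ssubset hx) ?_ ?_)
        · intro y hy
          refine Finset.mem_erase.2 ⟨?_, hs y (Finset.mem_of_mem_erase hy)⟩
          intro h
          apply (Finset.mem_erase.1 hy).1
          rw [← hι y, h, hxx]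
        · intro y hy
          exact hfix y (Finset.mem_of_mem_erase hy)
      · have hxi : ι x ∈ s.erase x := Finset.mem_erase.2 ⟨hxx, hs x hx⟩
        rw [← Finset.add_sum_erase s w hx, ← Finset.add_sum_erase _ w hxi, ← add_assoc]
        refine memLocalIdeal_add ?_ (ih _ ?_ ?_ ?_)
        · have e : w x + w (ι x) = ((2 : ℕ) : ℂ) * w x + (w (ι x) - w x) := by
            push_cast
            ring
          rw [e]
          exact memLocalIdeal_add (memLocalIdeal_mul_right (memLocalIdeal_p hM) (hw x)) (hinv x)
        · exact (Finset.erase_subset _ _).trans_ssubset (Finset.erase_ssubset hx)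
        · intro y hy
          have hy1 := Finset.mem_erase.1 hy
          have hy2 := Finset.mem_erase.1 hy1.2
          refine Finset.mem_erase.2 ⟨?_, Finset.mem_erase.2 ⟨?_, hs y hy2.2⟩⟩
          · intro h
            apply hy2.1
            rw [← hι y, h, hι x]
          · intro h
            apply hy1.1
            rw [← hι y, h]
        · intro y hy
          exact hfix y (Finset.mem_of_mem_erase (Finset.mem_of_mem_erase hy))

end Invol

section Real

variable {G : Type*} [Group G] [Fintype G] {M : Ideal AlgInt}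

/-- The class of a real element of odd order different from `1` has even size. -/
theorem memLocalIdeal_index_of_real (hM : IsPModular 2 M) {g : G} (hg : ¬ 2 ∣ orderOf g) (hne : g ≠ 1)
    (hr : IsConj g g⁻¹) : MemLocalIdeal M (((Subgroup.centralizer ({g} : Set G)).index : ℕ) : ℂ) := by
  classical
  have := isPModular_isPrime hM
  have h1 := Cfsg.Agent.Lib.Char.sum_filter_isConj (fun _ : G => (1 : ℂ)) (fun _ _ => rfl) g
  have h2 : ((Subgroup.centralizer ({g} : Set G)).index : ℂ) =
      ∑ x ∈ Finset.univ.filter (fun x => IsConj g x), (1 : ℂ) := by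
    rw [h1]
    simp
  rw [h2]
  refine memLocalIdeal_sum_of_involution hM (fun x : G => x⁻¹) inv_inv (fun _ => 1)
    (fun _ => memLocalRing_one) (fun _ => by simpa using memLocalIdeal_zero) _ ?_ ?_
  · intro x hx
    refine Finset.mem_filter.2 ⟨Finset.mem_univ _, ?_⟩
    have hx' := (Finset.mem_filter.1 hx).2
    have h3 : IsConj g⁻¹ x⁻¹ := by
      obtain ⟨c, rfl⟩ := isConj_iff.mp hx'
      exact isConj_iff.mpr ⟨c, by group⟩
    exact hr.trans h3
  · intro x hx hxx
    exfalso
    have hx' := (Finset.mem_filter.1 hx).2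
    have h3 : orderOf x = orderOf g := (orderOf_eq_of_isConj hx').symm
    have h4 : x ^ 2 = 1 := by
      rw [pow_two]
      nth_rw 1 [← hxx]
      simp
    have h5 : orderOf x ∣ 2 := orderOf_dvd_of_pow_eq_one h4
    rw [h3] at h5
    have h6 : orderOf g = 1 := by
      rcases (Nat.dvd_prime Nat.prime_two).mp h5 with h | h
      · exact h
      · rw [h] at hg
        exact absurd dvd_rfl hg
    exact hne (orderOf_eq_one_iff.mp h6)

/-- The key congruence. -/
theorem memLocalIdeal_om_sub_coeff_one (hM : IsPModular 2 M) {B : Set (IrrCharacter G)} (hB : IsPBlock M B)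
    (θ : IrrCharacter G) (hodd : Odd (charDegree (θ : G → ℂ)))
    (ha : ∀ y : G, ¬ 2 ∣ orderOf y → blockCoeff B y⁻¹ = blockCoeff B y)
    (hb : ∀ y : G, ¬ 2 ∣ orderOf y → MemLocalIdeal M (centralChar (θ : G → ℂ) y⁻¹ - centralChar (θ : G → ℂ) y)) :
    MemLocalIdeal M (om (θ : G → ℂ) (blockElt B) - blockCoeff B 1) := by
  classical
  have := isPModular_isPrime hM
  have hU := isBlockUnion_of_isPBlock hB
  have hc := Cfsg.Agent.Lib.Char.IsCharacter.isClassFunction (Cfsg.Agent.Lib.Char.IsIrrCharacter.isCharacter θ.2)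
  -- the function
  set F : G → ℂ := fun g => blockCoeff B g * centralChar (θ : G → ℂ) g with hF
  have hcoeffconj : ∀ g h : G, IsConj g h → blockCoeff B h = blockCoeff B g := by
    intro g h hgh
    have h1 := isCentralElt_blockElt B
    obtain ⟨c, rfl⟩ := isConj_iff.mp hgh
    rw [← coeff_blockElt, ← coeff_blockElt]
    exact h1 c g
  have hFconj : ∀ g h : G, IsConj g h → F h = F g := by
    intro g h hgh
    simp only [hF]
    rw [hcoeffconj g h hgh, centralChar_of_isConj hc hgh]
  have hbloc : ∀ g, MemLocalRing M (blockCoeff B g) := by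
    intro g
    rw [← coeff_blockElt]
    exact localCoeff_blockElt hU g
  have hFloc : ∀ g, MemLocalRing M (F g) := fun g =>
    memLocalRing_mul (hbloc g) (memLocalRing_centralChar θ.2 g)
  have hone : Quotient.out (ConjClasses.mk (1 : G)) = 1 := by
    have h1 : IsConj (1 : G) (Quotient.out (ConjClasses.mk (1 : G))) :=
      (ConjClasses.mk_eq_mk_iff_isConj.1 (Quotient.out_eq _)).symm
    exact isConj_one_right.mp h1
  -- the involution on classes
  let ι : ConjClasses G → ConjClasses G := fun c => ConjClasses.mk (Quotient.out c)⁻¹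
  have hout : ∀ g : G, IsConj g (Quotient.out (ConjClasses.mk g)) := fun g =>
    (ConjClasses.mk_eq_mk_iff_isConj.1 (Quotient.out_eq _)).symm
  have hιout : ∀ c, IsConj (Quotient.out c)⁻¹ (Quotient.out (ι c)) := fun c => hout _
  have hιι : ∀ c, ι (ι c) = c := by
    intro c
    show ConjClasses.mk (Quotient.out (ι c))⁻¹ = c
    conv_rhs => rw [← Quotient.out_eq c]
    refine ConjClasses.mk_eq_mk_iff_isConj.2 ?_
    obtain ⟨a, ha'⟩ := isConj_iff.1 (hιout c)
    refine isConj_iff.2 ⟨a⁻¹, ?_⟩
    rw [← ha']
    group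
  have hι1 : ι (ConjClasses.mk 1) = ConjClasses.mk 1 := by
    show ConjClasses.mk (Quotient.out (ConjClasses.mk (1 : G)))⁻¹ = _
    rw [hone, inv_one]
  have hFinv : ∀ g : G, MemLocalIdeal M (F g⁻¹ - F g) := by
    intro g
    by_cases hg : 2 ∣ orderOf g
    · have h0 : blockCoeff B g = 0 := by
        by_contra h
        exact regular_of_blockCoeff_ne_zero hM hU h hg
      have h0' : blockCoeff B g⁻¹ = 0 := by
        by_contra h
        exact regular_of_blockCoeff_ne_zero hM hU h (by rwa [orderOf_inv])
      simp only [hF]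
      rw [h0, h0']
      simpa using memLocalIdeal_zero
    · simp only [hF]
      rw [ha g hg, ← mul_sub]
      exact memLocalIdeal_mul_left (hbloc g) (hb g hg)
  have hsum := memLocalIdeal_sum_of_involution (M := M) hM ι hιι
    (fun c => if c = ConjClasses.mk 1 then 0 else F (Quotient.out c)) (by
      intro c
      beta_reduce
      split_ifs
      · exact memLocalRing_zero
      · exact hFloc _) (by
      intro c
      beta_reduce
      by_cases hc1 : c = ConjClasses.mk 1
      · rw [if_pos hc1, hc1, hι1, if_pos rfl, sub_zero]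
        exact memLocalIdeal_zero
      · have hc2 : ι c ≠ ConjClasses.mk 1 := by
          intro h
          apply hc1
          rw [← hιι c, h, hι1]
        rw [if_neg hc1, if_neg hc2, hFconj _ _ (hιout c)]
        exact hFinv _) Finset.univ (fun _ _ => Finset.mem_univ _) (by
      intro c _ hcc
      beta_reduce
      by_cases hc1 : c = ConjClasses.mk 1
      · rw [if_pos hc1]
        exact memLocalIdeal_zero
      · rw [if_neg hc1]
        set g := Quotient.out c with hg
        have hg1 : g ≠ 1 := by
          intro h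
          apply hc1
          rw [← Quotient.out_eq c]
          show ConjClasses.mk (Quotient.out c) = _
          rw [← hg, h]
        have hreal : IsConj g g⁻¹ := by
          have h2 : ConjClasses.mk g⁻¹ = ConjClasses.mk g := by
            have h3 : ι c = ConjClasses.mk g⁻¹ := rfl
            rw [← h3, hcc]
            exact (Quotient.out_eq c).symm
          exact (ConjClasses.mk_eq_mk_iff_isConj.1 h2).symm
        by_cases hg2 : 2 ∣ orderOf g
        · have h0 : blockCoeff B g = 0 := by
            by_contra h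
            exact regular_of_blockCoeff_ne_zero hM hU h hg2
          simp only [hF]
          rw [h0, zero_mul]
          exact memLocalIdeal_zero
        · refine memLocalIdeal_mul_left (hbloc g) ?_
          unfold centralChar
          rw [mul_div_assoc]
          refine memLocalIdeal_mul_right (memLocalIdeal_index_of_real hM hg2 hg1 hreal) ?_
          rw [div_eq_mul_inv]
          have hdeg : (θ : G → ℂ) 1 = (charDegree (θ : G → ℂ) : ℂ) :=
            Cfsg.Agent.Lib.Char.map_one_eq_charDegree (Cfsg.Agent.Lib.Char.IsIrrCharacter.isCharacter θ.2)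
          rw [hdeg]
          refine memLocalRing_mul ?_ (memLocalRing_natCast_inv hM ?_)
          · exact memLocalRing_of_isIntegral (Cfsg.Agent.Lib.Char.IsCharacter.isIntegral' (Cfsg.Agent.Lib.Char.IsIrrCharacter.isCharacter θ.2) g)
          · intro h
            exact (Nat.not_even_iff_odd.2 hodd) (even_iff_two_dvd.2 h))
  have h1 : om (θ : G → ℂ) (blockElt B) = ∑ c : ConjClasses G, F (Quotient.out c) := by
    rw [om_eq_sum_conjClasses (isCentralElt_blockElt B) hc]
    refine Finset.sum_congr rfl fun c _ => ?_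
    rw [coeff_blockElt]
  have hcc1 : centralChar (θ : G → ℂ) 1 = 1 := by
    unfold centralChar
    have h0 : (θ : G → ℂ) 1 ≠ 0 := by
      intro h
      exact isIrr_one_ne_zero θ.2 h
    have h2 : (Subgroup.centralizer ({1} : Set G)).index = 1 := by
      rw [Subgroup.index_eq_one, eq_top_iff]
      intro x _
      rw [mem_centralizer_singleton]
      simp
    rw [h2]
    simp [h0]
  have h2 : ∑ c : ConjClasses G, (if c = ConjClasses.mk 1 then 0 else F (Quotient.out c)) =
      om (θ : G → ℂ) (blockElt B) - blockCoeff B 1 := by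
    have e : ∀ c : ConjClasses G, (if c = ConjClasses.mk 1 then (0 : ℂ) else F (Quotient.out c)) =
        F (Quotient.out c) - (if c = ConjClasses.mk 1 then F (Quotient.out c) else 0) := by
      intro c
      split_ifs <;> simp
    rw [h1]
    simp only [e]
    rw [Finset.sum_sub_distrib, Finset.sum_ite_eq', if_pos (Finset.mem_univ _), hone]
    simp only [hF, hcc1, mul_one]
  rw [← h2]
  exact hsum

theorem index_centralizer_inv (g : G) :
    (Subgroup.centralizer ({g⁻¹} : Set G)).index = (Subgroup.centralizer ({g} : Set G)).index := by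
  congr 1
  ext x
  rw [mem_centralizer_singleton, mem_centralizer_singleton]
  constructor
  · intro h
    have h2 : g * (x * g⁻¹) * g = g * (g⁻¹ * x) * g := by rw [h]
    simp only [mul_assoc, inv_mul_cancel, mul_one, mul_inv_cancel_left] at h2
    exact h2.symm
  · intro h
    calc x * g⁻¹ = g⁻¹ * (g * x) * g⁻¹ := by group
      _ = g⁻¹ * (x * g) * g⁻¹ := by rw [h]
      _ = g⁻¹ * x := by group

/-- **A `2`-block with a character of odd degree, stable under inversion, is principal.** -/
theorem principal_of_real (hM : IsPModular 2 M) {B : Set (IrrCharacter G)} (hB : IsPBlock M B)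
    {χ : IrrCharacter G} (hχ : χ ∈ B) (hodd : Odd (charDegree (χ : G → ℂ)))
    (ha : ∀ y : G, ¬ 2 ∣ orderOf y → blockCoeff B y⁻¹ = blockCoeff B y)
    (hb : ∀ y : G, ¬ 2 ∣ orderOf y → MemLocalIdeal M (centralChar (χ : G → ℂ) y⁻¹ - centralChar (χ : G → ℂ) y)) :
    B = principalBlock M G := by
  classical
  have := isPModular_isPrime hM
  have h1 := memLocalIdeal_om_sub_coeff_one hM hB χ hodd ha hb
  have hdeg1 : charDegree ((oneIrr G : IrrCharacter G) : G → ℂ) = 1 := charDegree_oneIrr
  have h2 := memLocalIdeal_om_sub_coeff_one hM hB (oneIrr G) (by rw [hdeg1]; exact odd_one) ha (by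
    intro y _
    have : centralChar ((oneIrr G : IrrCharacter G) : G → ℂ) y⁻¹ = centralChar ((oneIrr G : IrrCharacter G) : G → ℂ) y := by
      unfold centralChar
      rw [index_centralizer_inv, oneIrr_coe]
    rw [this, sub_self]
    exact memLocalIdeal_zero)
  rw [om_blockElt_of_mem hχ] at h1
  have h3 := memLocalIdeal_sub h2 h1
  have h4 : om ((oneIrr G : IrrCharacter G) : G → ℂ) (blockElt B) - blockCoeff B 1 - (1 - blockCoeff B 1) =
      om ((oneIrr G : IrrCharacter G) : G → ℂ) (blockElt B) - 1 := by ring
  rw [h4] at h3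
  have hmem : oneIrr G ∈ B := by
    by_contra hn
    rw [om_blockElt_of_notMem hn, zero_sub] at h3
    exact not_memLocalIdeal_one (by simpa using memLocalIdeal_neg h3)
  have h5 := blockOf_eq_of_mem hB hmem
  rw [h5, oneIrr_coe]
  rfl

/-- Existence of a character of odd degree in a block of full defect. -/
theorem exists_odd_of_full (hM : IsPModular 2 M) {B : Set (IrrCharacter G)} (hB : IsPBlock M B)
    (hdef : blockDefect 2 B = (Nat.card G).factorization 2) :
    ∃ χ ∈ B, Odd (charDegree (χ : G → ℂ)) := by
  obtain ⟨χ₀, h₀, h₁, hmin⟩ := exists_min_height hB hM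
  refine ⟨χ₀, h₀, ?_⟩
  have hle := factorization_le_card (p := 2) χ₀
  have hpos := Cfsg.Agent.Lib.Char.charDegree_pos_of_irr χ₀.2
  unfold blockDefect at hdef
  rw [← h₁] at hdef
  have h2 : (charDegree (χ₀ : G → ℂ)).factorization 2 = 0 := by omega
  rw [← Nat.not_even_iff_odd, even_iff_two_dvd]
  intro h
  have := (Nat.prime_two.dvd_iff_one_le_factorization hpos.ne').mp h
  omega

/-- The conjugate of an irreducible character. -/
noncomputable def barIrr (χ : IrrCharacter G) : IrrCharacter G :=
  ⟨fun g => conj ((χ : G → ℂ) g), Cfsg.Agent.Lib.Char.isIrr_conj χ.2⟩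

theorem barIrr_coe (χ : IrrCharacter G) : (barIrr χ : G → ℂ) = fun g => conj ((χ : G → ℂ) g) := rfl

theorem barIrr_barIrr (χ : IrrCharacter G) : barIrr (barIrr χ) = χ := by
  apply Subtype.ext
  funext g
  simp [barIrr_coe]

/-- The conjugate of a set of irreducible characters. -/
def barSet (B : Set (IrrCharacter G)) : Set (IrrCharacter G) :=
  {ψ | ∃ χ ∈ B, (ψ : G → ℂ) = fun g => conj ((χ : G → ℂ) g)}

theorem mem_barSet {B : Set (IrrCharacter G)} {ψ : IrrCharacter G} : ψ ∈ barSet B ↔ barIrr ψ ∈ B := by
  constructor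
  · rintro ⟨χ, hχ, h⟩
    have : barIrr ψ = χ := by
      apply Subtype.ext
      funext g
      rw [barIrr_coe, h]
      simp
    rwa [this]
  · intro h
    refine ⟨_, h, ?_⟩
    funext g
    simp [barIrr_coe]

theorem blockCoeff_barSet (B : Set (IrrCharacter G)) (g : G) : blockCoeff (barSet B) g = blockCoeff B g⁻¹ := by
  classical
  unfold blockCoeff
  congr 1
  rw [finsum_mem_irr, finsum_mem_irr]
  let e : IrrCharacter G ≃ IrrCharacter G := ⟨barIrr, barIrr, barIrr_barIrr, barIrr_barIrr⟩
  rw [← Equiv.sum_comp e]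
  refine Finset.sum_congr rfl fun χ _ => ?_
  show (if barIrr χ ∈ barSet B then _ else _) = _
  rw [mem_barSet, barIrr_barIrr]
  split_ifs with h
  · have hc := Cfsg.Agent.Lib.Char.IsIrrCharacter.isCharacter χ.2
    show (barIrr χ : G → ℂ) 1 * conj ((barIrr χ : G → ℂ) g) = (χ : G → ℂ) 1 * conj ((χ : G → ℂ) g⁻¹)
    rw [Cfsg.Agent.Lib.Char.IsCharacter.map_inv' hc, barIrr_coe]
    simp only [Cfsg.Agent.Lib.Char.map_one_eq_charDegree hc, map_natCast, Complex.conj_conj]
  · rfl

/-- The conjugate of a block is a block union. -/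
theorem isBlockUnion_barSet (hM : IsPModular 2 M) {B : Set (IrrCharacter G)} (hB : IsPBlock M B) :
    IsBlockUnion M (barSet B) := by
  have := isPModular_isPrime hM
  apply isBlockUnion_of_localCoeff
  intro g
  rw [coeff_blockElt, blockCoeff_barSet, ← coeff_blockElt]
  exact localCoeff_blockElt (isBlockUnion_of_isPBlock hB) _

/-- The block of a real character is real. -/
theorem barSet_eq_of_real (hM : IsPModular 2 M) {B : Set (IrrCharacter G)} (hB : IsPBlock M B)
    {χ : IrrCharacter G} (hχ : χ ∈ B) (hreal : barIrr χ = χ) : barSet B = B := by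
  have := isPModular_isPrime hM
  have hU := isBlockUnion_barSet hM hB
  have hχbar : χ ∈ barSet B := by
    rw [mem_barSet, hreal]
    exact hχ
  have h1 : B ⊆ barSet B := by
    intro ψ hψ
    by_contra hn
    exact hU χ hχbar ψ hn (sameBlock_of_mem hB hχ hψ)
  refine Set.Subset.antisymm ?_ h1
  intro ψ hψ
  have h2 := h1 (mem_barSet.1 hψ)
  rw [mem_barSet, barIrr_barIrr] at h2
  exact h2

theorem centralChar_inv_of_barSet (g : G) (χ : IrrCharacter G) :
    centralChar (χ : G → ℂ) g⁻¹ = centralChar (barIrr χ : G → ℂ) g := by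
  unfold centralChar
  have hc := Cfsg.Agent.Lib.Char.IsIrrCharacter.isCharacter χ.2
  rw [index_centralizer_inv, barIrr_coe, Cfsg.Agent.Lib.Char.IsCharacter.map_inv' hc]
  simp only [Cfsg.Agent.Lib.Char.map_one_eq_charDegree hc, map_natCast]

/-- A real block containing a character of odd degree is principal. -/
theorem principal_of_barSet (hM : IsPModular 2 M) {B : Set (IrrCharacter G)} (hB : IsPBlock M B)
    (hbar : barSet B = B) {χ : IrrCharacter G} (hχ : χ ∈ B) (hodd : Odd (charDegree (χ : G → ℂ))) :
    B = principalBlock M G := by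
  have := isPModular_isPrime hM
  refine principal_of_real hM hB hχ hodd (fun y _ => ?_) (fun y _ => ?_)
  · rw [← blockCoeff_barSet, hbar]
  · rw [centralChar_inv_of_barSet]
    have hχbar : barIrr χ ∈ B := by
      have h1 : barIrr χ ∈ barSet B := mem_barSet.2 (by rwa [barIrr_barIrr])
      rwa [hbar] at h1
    exact sameBlock_of_mem hB hχbar hχ y

/-- Stability under a power map inverting the odd-order elements. -/
theorem principal_of_pow_stable (hM : IsPModular 2 M) (k : ℕ) (hk : Nat.Coprime k (Nat.card G))
    (hk₂ : ∀ g : G, Odd (orderOf g) → g ^ k = g⁻¹) {B : Set (IrrCharacter G)} (hB : IsPBlock M B)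
    (hdef : blockDefect 2 B = (Nat.card G).factorization 2)
    (hstab : ∀ χ ∈ B, ∃ ψ ∈ B, ∀ g : G, (ψ : G → ℂ) g = (χ : G → ℂ) (g ^ k)) :
    B = principalBlock M G := by
  classical
  have := isPModular_isPrime hM
  obtain ⟨χ, hχ, hodd⟩ := exists_odd_of_full hM hB hdef
  let τ : B → B := fun χ => ⟨(hstab χ.1 χ.2).choose, (hstab χ.1 χ.2).choose_spec.1⟩
  have hτ : ∀ (χ : B) (g : G), ((τ χ : IrrCharacter G) : G → ℂ) g = ((χ : IrrCharacter G) : G → ℂ) (g ^ k) :=
    fun χ => (hstab χ.1 χ.2).choose_spec.2
  have hsurj : Function.Surjective (fun g : G => g ^ k) := (powCoprime hk.symm).surjective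
  have hinj : Function.Injective τ := by
    intro a b hab
    apply Subtype.ext
    apply Subtype.ext
    funext h
    obtain ⟨g, rfl⟩ := hsurj h
    show ((a : IrrCharacter G) : G → ℂ) (g ^ k) = ((b : IrrCharacter G) : G → ℂ) (g ^ k)
    rw [← hτ, ← hτ, hab]
  have hbij : Function.Bijective τ := Finite.injective_iff_bijective.mp hinj
  let e : B ≃ B := Equiv.ofBijective τ hbij
  have hodd' : ∀ y : G, ¬ 2 ∣ orderOf y → Odd (orderOf y) := fun y hy => Nat.odd_iff.2 (by omega)
  refine principal_of_real hM hB hχ hodd (fun y hy => ?_) (fun y hy => ?_)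
  · unfold blockCoeff
    congr 1
    rw [finsum_mem_irr, finsum_mem_irr, ← sum_coe_eq_ite, ← sum_coe_eq_ite, ← Equiv.sum_comp e (fun χ : B => ((χ : IrrCharacter G) : G → ℂ) 1 * conj (((χ : IrrCharacter G) : G → ℂ) y))]
    refine Finset.sum_congr rfl fun χ _ => ?_
    show _ = ((τ χ : IrrCharacter G) : G → ℂ) 1 * conj (((τ χ : IrrCharacter G) : G → ℂ) y)
    rw [hτ, hτ, one_pow, hk₂ y (hodd' y hy)]
  · let χ' : B := ⟨χ, hχ⟩
    have h1 : centralChar (χ : G → ℂ) y⁻¹ = centralChar ((τ χ' : IrrCharacter G) : G → ℂ) y := by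
      unfold centralChar
      rw [index_centralizer_inv, hτ, hτ, one_pow, hk₂ y (hodd' y hy)]
    rw [h1]
    exact sameBlock_of_mem hB (τ χ').2 hχ y

/-- Real characters of odd degree lie in the principal `2`-block. -/
theorem mem_principal_of_real (hM : IsPModular 2 M) (χ : IrrCharacter G) (hreal : ∀ g : G, ((χ : G → ℂ) g).im = 0)
    (hodd : Odd (charDegree (χ : G → ℂ))) : χ ∈ principalBlock M G := by
  have := isPModular_isPrime hM
  have hB : IsPBlock M (blockOf M (χ : G → ℂ)) := isPBlock_blockOf χ
  have hχ : χ ∈ blockOf M (χ : G → ℂ) := mem_blockOf_self χ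
  have hb : barIrr χ = χ := by
    apply Subtype.ext
    funext g
    rw [barIrr_coe]
    exact Complex.conj_eq_iff_im.2 (hreal g)
  have h1 := principal_of_barSet hM hB (barSet_eq_of_real hM hB hχ hb) hχ hodd
  rw [← h1]
  exact hχ

/-- The count of real characters of odd degree. -/
theorem card_real_odd_le (hM : IsPModular 2 M) :
    Nat.card {χ : IrrCharacter G // (∀ g : G, ((χ : G → ℂ) g).im = 0) ∧ Odd (charDegree (χ : G → ℂ))} ≤
      2 ^ (2 * (Nat.card G).factorization 2) := by
  classical
  have := isPModular_isPrime hM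
  have h1 : Nat.card {χ : IrrCharacter G // (∀ g : G, ((χ : G → ℂ) g).im = 0) ∧ Odd (charDegree (χ : G → ℂ))} ≤
      Nat.card (principalBlock M G) := by
    refine Nat.card_le_card_of_injective (fun χ => ⟨χ.1, mem_principal_of_real hM χ.1 χ.2.1 χ.2.2⟩) ?_
    intro a b hab
    apply Subtype.ext
    exact congrArg (fun x : principalBlock M G => (x : IrrCharacter G)) hab
  have h2 := brauer_feit hM (isPBlock_principalBlock (M := M) (G := G))
  rw [blockDefect_principalBlock] at h2
  obtain ⟨a, ha⟩ : ∃ a, a = (Nat.card G).factorization 2 := ⟨_, rfl⟩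
  rw [← ha] at h2 ⊢
  obtain ⟨X, hX⟩ : ∃ X, X = 2 ^ (2 * a) := ⟨_, rfl⟩
  rw [← hX] at h2 ⊢
  rcases Nat.eq_zero_or_pos a with h0 | h0
  · rw [h0] at hX
    simp at hX
    omega
  · have h4 : 4 ≤ X := by
      rw [hX]
      calc 4 = 2 ^ (2 * 1) := by norm_num
        _ ≤ 2 ^ (2 * a) := Nat.pow_le_pow_right (by norm_num) (by omega)
    omega

end Real

end Cfsg.Agent.Lib.Block
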