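import Cfsg.Agent.Lib.Block.Defect
import Cfsg.Agent.Lib.Char.Clifford

/-!
# Counting characters of a block of degree prime to `p` over a character of a normal subgroup
-/

set_option autoImplicit false
set_option linter.unusedSectionVars false
set_option linter.unusedVariables false
set_option linter.style.haveILetI false

open scoped ComplexConjugate

namespace Cfsg.Agent.Lib.Block

open Cfsg Cfsg.Agent.Lib.Char

variable {G : Type*} [Group G] [Fintype G] {p : ℕ} [hp : Fact p.Prime] {M : Ideal AlgInt}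

theorem dvd_index_of_not_le {P N : Subgroup G} [N.Normal] (hP : IsPGroup p P) (h : ¬ P ≤ N) : p ∣ N.index := by
  by_contra hp'
  apply h
  intro x hx
  obtain ⟨k, hk⟩ := hP ⟨x, hx⟩
  have h1 : ((x : G ⧸ N) ^ p ^ k) = 1 := by
    have : x ^ p ^ k = 1 := by
      have := congrArg Subtype.val hk
      simpa using this
    rw [← QuotientGroup.mk_pow, this]
    rfl
  have h2 : (x : G ⧸ N) ^ N.index = 1 := by
    have := pow_card_eq_one' (x := (x : G ⧸ N))
    rwa [← Subgroup.index_eq_card] at this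
  have hcop : Nat.Coprime (p ^ k) N.index := by
    apply Nat.Coprime.pow_left
    exact (Nat.Prime.coprime_iff_not_dvd hp.out).2 hp'
  have h3 : (x : G ⧸ N) ^ 1 = 1 := by
    have := pow_gcd_eq_one.2 ⟨h1, h2⟩
    rwa [hcop.gcd_eq_one] at this
  rw [pow_one] at h3
  exact (QuotientGroup.eq_one_iff x).1 h3

/-- The weighted sum of the multiplicities is divisible by the index. -/
theorem sum_deg_mul_eq (N : Subgroup G) [Fintype N] [DecidablePred (· ∈ N)] (θ : IrrCharacter N) (B : Set (IrrCharacter G))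
    [DecidablePred (· ∈ B)] :
    (N.index : ℂ) * ∑ n : N, conj ((θ : N → ℂ) n) * blockCoeff B ((n : G)⁻¹) =
      ∑ χ : IrrCharacter G, if χ ∈ B then (χ : G → ℂ) 1 * classInner (fun n : N => (χ : G → ℂ) n) (θ : N → ℂ) else 0 := by
  classical
  have hc : (N.index : ℂ) * (Nat.card N : ℂ) = (Nat.card G : ℂ) := by
    have := N.index_mul_card
    exact_mod_cast this
  have hG : (Nat.card G : ℂ) ≠ 0 := by exact_mod_cast (Nat.card_pos (α := G)).ne'
  have hN : (Nat.card N : ℂ) ≠ 0 := by exact_mod_cast (Nat.card_pos (α := N)).ne'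
  have hi : (N.index : ℂ) ≠ 0 := by exact_mod_cast Subgroup.index_ne_zero_of_finite
  have h1 : ∀ n : N, blockCoeff B ((n : G)⁻¹) = (Nat.card G : ℂ)⁻¹ *
      ∑ χ : IrrCharacter G, if χ ∈ B then (χ : G → ℂ) 1 * (χ : G → ℂ) n else 0 := by
    intro n
    rw [blockCoeff_eq_sum_inv, inv_inv]
    congr 1
    refine Finset.sum_congr rfl fun χ _ => ?_
    split_ifs <;> rfl
  simp_rw [h1]
  have h2 : ∑ n : N, conj ((θ : N → ℂ) n) * ((Nat.card G : ℂ)⁻¹ *
      ∑ χ : IrrCharacter G, if χ ∈ B then (χ : G → ℂ) 1 * (χ : G → ℂ) n else 0) =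
      (Nat.card G : ℂ)⁻¹ * ∑ χ : IrrCharacter G, if χ ∈ B then
        (χ : G → ℂ) 1 * ((Nat.card N : ℂ) * classInner (fun n : N => (χ : G → ℂ) n) (θ : N → ℂ)) else 0 := by
    simp_rw [← mul_assoc, mul_comm _ (Nat.card G : ℂ)⁻¹, mul_assoc]
    rw [← Finset.mul_sum]
    congr 1
    simp_rw [Finset.mul_sum]
    rw [Finset.sum_comm]
    refine Finset.sum_congr rfl fun χ _ => ?_
    by_cases hχ : χ ∈ B
    · simp only [if_pos hχ]
      rw [classInner_def, mul_inv_cancel_left₀ hN, Finset.mul_sum]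
      refine Finset.sum_congr rfl fun n _ => ?_
      ring
    · simp only [if_neg hχ, mul_zero, Finset.sum_const_zero]
  have h3 : (∑ χ : IrrCharacter G, if χ ∈ B then
        (χ : G → ℂ) 1 * ((Nat.card N : ℂ) * classInner (fun n : N => (χ : G → ℂ) n) (θ : N → ℂ)) else 0) =
      (Nat.card N : ℂ) * ∑ χ : IrrCharacter G, if χ ∈ B then (χ : G → ℂ) 1 * classInner (fun n : N => (χ : G → ℂ) n) (θ : N → ℂ) else 0 := by
    rw [Finset.mul_sum]
    refine Finset.sum_congr rfl fun χ _ => ?_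
    split_ifs
    · ring
    · simp
  rw [h2, h3, ← hc]
  field_simp

open Classical in
/-- **The count of characters of degree prime to `p` over `θ`.** -/
theorem count_over (hM : IsPModular p M) {B : Set (IrrCharacter G)} (hB : IsPBlock M B) {P N : Subgroup G} [N.Normal] [Fintype N]
    (hP : IsPGroup p P) (hPN : ¬ P ≤ N) (θ : IrrCharacter N) :
    ((Finset.univ.filter fun χ : IrrCharacter G => χ ∈ B ∧ ¬ p ∣ charDegree (χ : G → ℂ) ∧
        classInner (fun n : N => (χ : G → ℂ) n) (θ : N → ℂ) ≠ 0).card ≠ 1) ∧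
      (p ≤ 3 → p ∣ (Finset.univ.filter fun χ : IrrCharacter G => χ ∈ B ∧ ¬ p ∣ charDegree (χ : G → ℂ) ∧
        classInner (fun n : N => (χ : G → ℂ) n) (θ : N → ℂ) ≠ 0).card) := by
  have := isPModular_isPrime hM
  have hN : N.Normal := inferInstance
  have hmult := fun χ : IrrCharacter G => classInner_isCharacter_nat
    (IsCharacter.restrict N (IsIrrCharacter.isCharacter χ.2)) (IsIrrCharacter.isCharacter θ.2)
  choose n hn using hmult
  obtain ⟨c, hc⟩ : ∃ c, c = (inertia hN (θ : N → ℂ)).index * charDegree (θ : N → ℂ) := ⟨_, rfl⟩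
  have hdeg : ∀ χ : IrrCharacter G, n χ ≠ 0 → charDegree (χ : G → ℂ) = n χ * c := by
    intro χ h0
    rw [hc, ← mul_assoc]
    exact clifford_degree hN χ.2 θ.2 (hn χ) h0
  obtain ⟨Y, hY⟩ : ∃ Y : ℕ, Y = ∑ χ : IrrCharacter G, if χ ∈ B then charDegree (χ : G → ℂ) * n χ else 0 := ⟨_, rfl⟩
  -- `p` divides `Y`
  have hpY : p ∣ Y := by
    have h1 := sum_deg_mul_eq N θ B
    have h2 : (Y : ℂ) = (N.index : ℂ) * ∑ n : N, conj ((θ : N → ℂ) n) * blockCoeff B ((n : G)⁻¹) := by
      rw [h1, hY]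
      push_cast
      refine Finset.sum_congr rfl fun χ _ => ?_
      split_ifs
      · rw [hn, map_one_eq_charDegree (IsIrrCharacter.isCharacter χ.2)]
      · rfl
    have h3 : MemLocalIdeal M (Y : ℂ) := by
      rw [h2]
      refine memLocalIdeal_mul_right ?_ (memLocalRing_sum _ _ fun m _ => memLocalRing_mul ?_ ?_)
      · rw [memLocalIdeal_natCast_iff hM]
        exact dvd_index_of_not_le hP hPN
      · have := (IsCharacter.isIntegral' (IsIrrCharacter.isCharacter θ.2) m⁻¹)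
        rw [IsCharacter.map_inv' (IsIrrCharacter.isCharacter θ.2)] at this
        exact memLocalRing_of_isIntegral this
      · exact memLocalRing_blockCoeff (isBlockUnion_of_isPBlock hB) _
    exact (memLocalIdeal_natCast_iff hM _).1 h3
  obtain ⟨A, hA⟩ : ∃ A, A = Finset.univ.filter fun χ : IrrCharacter G => χ ∈ B ∧ ¬ p ∣ charDegree (χ : G → ℂ) ∧
        classInner (fun n : N => (χ : G → ℂ) n) (θ : N → ℂ) ≠ 0 := ⟨_, rfl⟩
  rw [← hA]
  have hmA : ∀ χ, χ ∈ A ↔ χ ∈ B ∧ ¬ p ∣ charDegree (χ : G → ℂ) ∧ n χ ≠ 0 := by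
    intro χ
    rw [hA, Finset.mem_filter, hn]
    simp
  -- modulo `p`
  have hmod : ((Y : ℕ) : ZMod p) = ∑ χ ∈ A, ((charDegree (χ : G → ℂ) * n χ : ℕ) : ZMod p) := by
    rw [hY, Nat.cast_sum, ← Finset.sum_subset (Finset.subset_univ A)]
    · refine Finset.sum_congr rfl fun χ hχ => ?_
      rw [if_pos ((hmA χ).1 hχ).1]
    · intro χ _ hχ
      split_ifs with hχB
      · by_cases h0 : n χ = 0
        · rw [h0, mul_zero, Nat.cast_zero]
        · have : p ∣ charDegree (χ : G → ℂ) := by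
            by_contra hcon
            exact hχ ((hmA χ).2 ⟨hχB, hcon, h0⟩)
          exact (ZMod.natCast_eq_zero_iff _ _).2 (Dvd.dvd.mul_right this _)
      · exact Nat.cast_zero
  have hY0 : ((Y : ℕ) : ZMod p) = 0 := (ZMod.natCast_eq_zero_iff _ _).2 hpY
  have hterm : ∀ χ ∈ A, ¬ p ∣ n χ ∧ ¬ p ∣ c := by
    intro χ hχ
    have h1 := (hmA χ).1 hχ
    rw [hdeg χ h1.2.2] at h1
    exact ⟨fun h => h1.2.1 (Dvd.dvd.mul_right h _), fun h => h1.2.1 (Dvd.dvd.mul_left h _)⟩
  constructor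
  · intro hcard
    obtain ⟨χ₁, hχ₁⟩ := Finset.card_eq_one.1 hcard
    rw [hχ₁, Finset.sum_singleton, hY0] at hmod
    have h1 := hmA χ₁
    have h2 := h1.1 (by simp [hχ₁])
    have h3 := hterm χ₁ (by simp [hχ₁])
    have h4 : p ∣ charDegree (χ₁ : G → ℂ) * n χ₁ := (ZMod.natCast_eq_zero_iff _ _).1 hmod.symm
    rcases (Nat.Prime.dvd_mul hp.out).1 h4 with h5 | h5
    · exact h2.2.1 h5
    · exact h3.1 h5
  · intro hp3
    by_cases hAe : A = ∅
    · rw [hAe]
      simp
    obtain ⟨χ₁, hχ₁⟩ := Finset.nonempty_iff_ne_empty.2 hAe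
    have hcu := (hterm χ₁ hχ₁).2
    have hsq : ∀ x : ZMod p, x ≠ 0 → x * x = 1 := by
      intro x hx
      have h1 := ZMod.pow_card_sub_one_eq_one hx
      have h2 := hp.out.two_le
      have h3 : p = 2 ∨ p = 3 := by omega
      rcases h3 with rfl | rfl
      · have h4 : x = 1 := by simpa using h1
        rw [h4, one_mul]
      · have h4 : x ^ 2 = 1 := h1
        rwa [sq] at h4
    have h1 : ∀ χ ∈ A, ((charDegree (χ : G → ℂ) * n χ : ℕ) : ZMod p) = (c : ZMod p) := by
      intro χ hχ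
      have h2 := (hmA χ).1 hχ
      rw [hdeg χ h2.2.2]
      have h3 : ((n χ : ℕ) : ZMod p) ≠ 0 := fun h => (hterm χ hχ).1 ((ZMod.natCast_eq_zero_iff _ _).1 h)
      push_cast
      calc (n χ : ZMod p) * c * n χ = ((n χ : ZMod p) * n χ) * c := by ring
        _ = c := by rw [hsq _ h3, one_mul]
    rw [Finset.sum_congr rfl h1, Finset.sum_const, nsmul_eq_mul, hY0] at hmod
    have h2 : p ∣ A.card * c := by
      rw [← ZMod.natCast_eq_zero_iff]
      push_cast
      exact hmod.symm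
    rcases (Nat.Prime.dvd_mul hp.out).1 h2 with h5 | h5
    · exact h5
    · exact absurd h5 hcu

end Cfsg.Agent.Lib.Block
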