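import Cfsg.Agent.Lib.Block.PPower
import Cfsg.Agent.Lib.Block.GreenDefect
import Cfsg.Agent.Lib.CharExtra.FS

/-!
# An irreducible character vanishing on the elements of order `p` has `p`-defect zero
-/

set_option autoImplicit false
set_option linter.unusedSectionVars false
set_option linter.unusedSimpArgs false
set_option linter.unusedVariables false
set_option linter.style.haveILetI false

open scoped ComplexConjugate
open Cfsg MonoidAlgebra
open Cfsg.Agent.Lib.Char Cfsg.Agent.Lib.CharExtra

namespace Cfsg.Agent.Lib.Block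

section VOP

variable {G : Type*} [Group G] [Fintype G] {p : ℕ} [hp : Fact p.Prime] {M : Ideal AlgInt} [hMp : M.IsPrime]

open Classical in
/-- The sum of the solutions of `g ^ p = 1`. -/
noncomputable def omP (G : Type*) [Group G] [Fintype G] (p : ℕ) : MonoidAlgebra ℂ G :=
  ofFun (fun g => if g ^ p = 1 then 1 else 0)

open Classical in
theorem coeff_omP (g : G) : (omP G p).coeff g = if g ^ p = 1 then 1 else 0 := coeff_ofFun _ _

theorem isCentralElt_omP : IsCentralElt (omP G p) := by
  classical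
  intro x g
  rw [coeff_omP, coeff_omP]
  have h : (x * g * x⁻¹) ^ p = x * g ^ p * x⁻¹ := by
    rw [conj_pow]
  rw [h]
  by_cases h1 : g ^ p = 1
  · rw [if_pos h1, if_pos]
    rw [h1]
    group
  · rw [if_neg h1, if_neg]
    intro h2
    apply h1
    have h3 : g ^ p = x⁻¹ * (x * g ^ p * x⁻¹) * x := by group
    rw [h3, h2]
    group

theorem localCoeff_omP : LocalCoeff M (omP G p) := by
  classical
  intro g
  rw [coeff_omP]
  split_ifs
  · exact memLocalRing_one
  · exact memLocalRing_zero

omit hMp in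
/-- The `p`-power congruence behind Külshammer's ideals. -/
theorem mem_of_coeff_pow [M.IsPrime] (hM : IsPModular p M) (w : MonoidAlgebra ℂ G) (hw : LocalCoeff M w)
    (h : MemLocalIdeal M ((w ^ p).coeff 1)) : MemLocalIdeal M ((w * omP G p).coeff 1) := by
  classical
  have h1 := memLocalIdeal_tr_pow_sub hM w hw (fun g => if g = 1 then 1 else 0)
    (fun g => by
      split_ifs
      · exact memLocalRing_one
      · exact memLocalRing_zero)
    (fun x g => by
      by_cases hg : g = 1
      · simp [hg]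
      · rw [if_neg hg, if_neg]
        intro h2
        apply hg
        have h3 : g = x⁻¹ * (x * g * x⁻¹) * x := by group
        rw [h3, h2]
        group) 1
  have h2 : tr (fun g : G => if g = 1 then (1 : ℂ) else 0) (w ^ p ^ 1) = (w ^ p).coeff 1 := by
    unfold tr
    rw [Finset.sum_eq_single 1]
    · simp
    · intro b _ hb
      simp [hb]
    · intro h
      exact absurd (Finset.mem_univ _) h
  rw [h2] at h1
  have h3 : (w * omP G p).coeff 1 = ∑ g ∈ Finset.univ.filter (fun g : G => g ^ p = 1), w.coeff g := by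
    rw [coeff_mul_eq, Finset.sum_filter]
    refine Finset.sum_congr rfl fun g _ => ?_
    rw [mul_one, coeff_omP]
    by_cases hg : g ^ p = 1
    · rw [if_pos hg, if_pos (by rw [inv_pow, hg, inv_one]), mul_one]
    · rw [if_neg hg, if_neg (by
        rw [inv_pow]
        intro h4
        exact hg (inv_eq_one.1 h4)), mul_zero]
  have h4 : ∑ g, w.coeff g ^ p ^ 1 * (if g ^ p ^ 1 = 1 then (1 : ℂ) else 0) =
      ∑ g ∈ Finset.univ.filter (fun g : G => g ^ p = 1), w.coeff g ^ p := by
    rw [Finset.sum_filter]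
    refine Finset.sum_congr rfl fun g _ => ?_
    simp only [pow_one]
    split_ifs <;> simp
  rw [h4] at h1
  have h5 := memLocalIdeal_sum_pow_prime_sub hM (Finset.univ.filter (fun g : G => g ^ p = 1)) w.coeff hw
  rw [← h3] at h5
  have hl : MemLocalRing M ((w * omP G p).coeff 1) := localCoeff_mul hw localCoeff_omP 1
  apply memLocalIdeal_of_pow hl (n := p)
  have h6 : ((w * omP G p).coeff 1) ^ p = (((w * omP G p).coeff 1) ^ p - ∑ g ∈ Finset.univ.filter (fun g : G => g ^ p = 1), w.coeff g ^ p)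
      - ((w ^ p ^ 1).coeff 1 - 0) * 0 + (- ((w ^ p).coeff 1 - ∑ g ∈ Finset.univ.filter (fun g : G => g ^ p = 1), w.coeff g ^ p) + (w ^ p).coeff 1) := by
    ring
  rw [h6]
  refine memLocalIdeal_add ?_ (memLocalIdeal_add (memLocalIdeal_neg h1) h)
  simpa using h5

omit hMp in
/-- **The chain**. -/
theorem chain_omP [M.IsPrime] (hM : IsPModular p M) (r : ℕ) : ∀ Y : MonoidAlgebra ℂ G, LocalCoeff M Y →
    LocalIdealCoeff M (Y ^ p ^ r) → ∀ z : MonoidAlgebra ℂ G, IsCentralElt z → LocalCoeff M z →
      MemLocalIdeal M ((Y * z * omP G p ^ r).coeff 1) := by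
  induction r with
  | zero =>
    intro Y _ hY z _ hzl
    rw [pow_zero, mul_one]
    rw [pow_zero, pow_one] at hY
    exact localIdealCoeff_mul_right hY hzl 1
  | succ r ih =>
    intro Y hY hY2 z hz hzl
    have hcen : IsCentralElt (z * omP G p ^ r) := isCentralElt_mul hz (isCentralElt_pow isCentralElt_omP r)
    have hloc : LocalCoeff M (z * omP G p ^ r) := localCoeff_mul hzl (localCoeff_pow localCoeff_omP r)
    have h1 := ih (Y ^ p) (localCoeff_pow hY p) (by
        rw [← pow_mul, ← pow_succ']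
        exact hY2) (z ^ p * (omP G p ^ r) ^ (p - 1)) (isCentralElt_mul (isCentralElt_pow hz p)
          (isCentralElt_pow (isCentralElt_pow isCentralElt_omP r) (p - 1)))
        (localCoeff_mul (localCoeff_pow hzl p) (localCoeff_pow (localCoeff_pow localCoeff_omP r) (p - 1)))
    have hcomm : Commute Y (z * omP G p ^ r) := (isCentralElt_commute hcen Y).symm
    have hcomm2 : Commute z (omP G p ^ r) := isCentralElt_commute hz _
    have h2 : (Y * (z * omP G p ^ r)) ^ p = Y ^ p * (z ^ p * (omP G p ^ r) ^ (p - 1)) * omP G p ^ r := by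
      rw [hcomm.mul_pow, hcomm2.mul_pow, mul_assoc, mul_assoc, ← pow_succ, Nat.sub_add_cancel hp.out.one_le]
    have h3 := mem_of_coeff_pow hM (Y * (z * omP G p ^ r)) (localCoeff_mul hY hloc) (by
      rw [h2]
      exact h1)
    have h4 : Y * (z * omP G p ^ r) * omP G p = Y * z * omP G p ^ (r + 1) := by
      rw [pow_succ, mul_assoc, mul_assoc, mul_assoc]
    rw [h4] at h3
    exact h3

omit hMp in
theorem coeff_natCast_mul (n : ℕ) (z : MonoidAlgebra ℂ G) (g : G) :
    (((n : MonoidAlgebra ℂ G)) * z).coeff g = (n : ℂ) * z.coeff g := by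
  rw [← nsmul_eq_mul, MonoidAlgebra.coeff_smul, Finsupp.smul_apply, nsmul_eq_mul]

theorem localCoeff_natCast (n : ℕ) : LocalCoeff M ((n : MonoidAlgebra ℂ G)) := by
  intro g
  have h := coeff_natCast_mul n (1 : MonoidAlgebra ℂ G) g
  rw [mul_one] at h
  rw [h]
  exact memLocalRing_mul (memLocalRing_natCast n) (localCoeff_one g)

theorem localCoeff_sum' {ι : Type*} (t : Finset ι) (f : ι → MonoidAlgebra ℂ G) (h : ∀ i ∈ t, LocalCoeff M (f i)) :
    LocalCoeff M (∑ i ∈ t, f i) :=
  Finset.sum_induction f (LocalCoeff M) (fun _ _ => localCoeff_add) localCoeff_zero h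

omit hMp in
/-- The difference of a `p`-element and `1` is nilpotent modulo the local ideal. -/
theorem localIdealCoeff_sub_one_pow [M.IsPrime] (hM : IsPModular p M) {s : G} {c : ℕ} (hc0 : c ≠ 0) (hs : s ^ p ^ c = 1) :
    LocalIdealCoeff M ((MonoidAlgebra.single s (1 : ℂ) - 1) ^ p ^ c) := by
  classical
  obtain ⟨u, hu⟩ : ∃ u : MonoidAlgebra ℂ G, u = MonoidAlgebra.single s (1 : ℂ) := ⟨_, rfl⟩
  have hul : LocalCoeff M u := by
    intro g
    rw [hu, MonoidAlgebra.coeff_single, Finsupp.single_apply]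
    split_ifs
    · exact memLocalRing_one
    · exact memLocalRing_zero
  have h1 : u ^ p ^ c = 1 := by
    rw [hu, MonoidAlgebra.single_pow, hs, one_pow, MonoidAlgebra.one_def]
  have h2 := (Commute.neg_one_right u).add_pow_prime_pow_eq hp.out c
  rw [← hu, sub_eq_add_neg, h2, h1]
  obtain ⟨R, hR⟩ : ∃ R : MonoidAlgebra ℂ G, R = u * -1 * ∑ k ∈ Finset.Ioo 0 (p ^ c), u ^ (k - 1) * (-1) ^ (p ^ c - k - 1) * (((p ^ c).choose k / p : ℕ) : MonoidAlgebra ℂ G) := ⟨_, rfl⟩
  have hR2 : (p : MonoidAlgebra ℂ G) * u * -1 * ∑ k ∈ Finset.Ioo 0 (p ^ c), u ^ (k - 1) * (-1) ^ (p ^ c - k - 1) * (((p ^ c).choose k / p : ℕ) : MonoidAlgebra ℂ G) = (p : MonoidAlgebra ℂ G) * R := by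
    rw [hR]
    simp only [mul_assoc]
  rw [hR2]
  have hRl : LocalCoeff M R := by
    rw [hR]
    refine localCoeff_mul (localCoeff_mul hul (localCoeff_neg localCoeff_one)) (localCoeff_sum' _ _ fun k _ => localCoeff_mul (localCoeff_mul (localCoeff_pow hul _)
      (localCoeff_pow (localCoeff_neg localCoeff_one) _)) (localCoeff_natCast _))
  have h3 : (1 : MonoidAlgebra ℂ G) + (-1) ^ p ^ c = (p : MonoidAlgebra ℂ G) * (if p = 2 then 1 else 0) := by
    rcases hp.out.eq_two_or_odd' with h | h
    · subst h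
      have : Even (2 ^ c) := (Nat.even_pow.2 ⟨even_two, hc0⟩)
      rw [this.neg_one_pow, if_pos rfl, mul_one]
      norm_num
    · have hne : p ≠ 2 := by
        rintro rfl
        exact absurd h (by decide)
      rw [(h.pow (n := c)).neg_one_pow, if_neg hne, mul_zero]
      simp
  rw [h3, ← mul_add]
  intro g
  rw [coeff_natCast_mul]
  refine memLocalIdeal_mul_right (memLocalIdeal_p hM) ?_
  refine localCoeff_add ?_ hRl g
  split_ifs
  · exact localCoeff_one
  · exact localCoeff_zero

omit hMp in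
/-- In the block of a character with `om χ omP = 1`, the element `omP` is invertible. -/
theorem exists_inverse_omP [M.IsPrime] (hM : IsPModular p M) {B : Set (IrrCharacter G)} (hBU : IsBlockUnion M B)
    (hunit : ∀ ψ ∈ B, ¬ MemLocalIdeal M (om (ψ : G → ℂ) (omP G p))) :
    ∃ z : MonoidAlgebra ℂ G, IsCentralElt z ∧ LocalCoeff M z ∧ omP G p * z = blockElt B := by
  classical
  have key : ∀ T : Finset (IrrCharacter G), (∀ ψ ∈ T, ψ ∈ B) → ∃ F : MonoidAlgebra ℂ G, IsCentralElt F ∧ LocalCoeff M F ∧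
      ∀ ψ ∈ T, om (ψ : G → ℂ) (omP G p * F) = 1 := by
    intro T
    induction T using Finset.induction_on with
    | empty =>
      intro _
      exact ⟨0, isCentralElt_zero, localCoeff_zero, by simp⟩
    | insert ψ₀ T hψ₀ ih =>
      intro hT
      obtain ⟨F, hF, hFl, hF1⟩ := ih fun ψ hψ => hT ψ (Finset.mem_insert_of_mem hψ)
      have hΩ := isCentralElt_omP (G := G) (p := p)
      have hα := hunit ψ₀ (hT ψ₀ (Finset.mem_insert_self _ _))
      have hαl : MemLocalRing M (om (ψ₀ : G → ℂ) (omP G p)) := memLocalRing_om ψ₀.2 hΩ localCoeff_omP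
      have hα0 := ne_zero_of_not_memLocalIdeal hα
      have hαi := memLocalRing_inv hαl hα
      obtain ⟨A, hA⟩ : ∃ A : MonoidAlgebra ℂ G, A = 1 - omP G p * F := ⟨_, rfl⟩
      have hAc : IsCentralElt A := by
        rw [hA]
        exact isCentralElt_sub isCentralElt_one (isCentralElt_mul hΩ hF)
      have hAl : LocalCoeff M A := by
        rw [hA]
        exact localCoeff_sub localCoeff_one (localCoeff_mul localCoeff_omP hFl)
      refine ⟨F + (om (ψ₀ : G → ℂ) (omP G p))⁻¹ • A, isCentralElt_add hF (isCentralElt_smul _ hAc),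
        localCoeff_add hFl (localCoeff_smul hαi hAl), ?_⟩
      intro ψ hψ
      have hcalc : ∀ ξ : IrrCharacter G, om (ξ : G → ℂ) (omP G p * (F + (om (ψ₀ : G → ℂ) (omP G p))⁻¹ • A)) =
          om (ξ : G → ℂ) (omP G p) * (om (ξ : G → ℂ) F + (om (ψ₀ : G → ℂ) (omP G p))⁻¹ *
            (1 - om (ξ : G → ℂ) (omP G p) * om (ξ : G → ℂ) F)) := by
        intro ξ
        rw [om_mul ξ.2 hΩ, om_add, om_smul, hA, om_sub, om_one ξ.2, om_mul ξ.2 hΩ]
      rw [hcalc]
      rcases Finset.mem_insert.1 hψ with rfl | hψT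
      · field_simp
        ring
      · have h1 := hF1 ψ hψT
        rw [om_mul ψ.2 hΩ] at h1
        rw [h1, sub_self, mul_zero, add_zero, h1]
  obtain ⟨F, hF, hFl, hF1⟩ := key (Finset.univ.filter (· ∈ B)) (fun ψ hψ => (Finset.mem_filter.1 hψ).2)
  have hU : LocalCoeff M (blockElt B) := localCoeff_blockElt hBU
  refine ⟨F * blockElt B, isCentralElt_mul hF (isCentralElt_blockElt B), localCoeff_mul hFl hU, ?_⟩
  apply central_ext_om (isCentralElt_mul isCentralElt_omP (isCentralElt_mul hF (isCentralElt_blockElt B))) (isCentralElt_blockElt B)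
  intro ψ
  rw [← mul_assoc, om_mul ψ.2 (isCentralElt_mul isCentralElt_omP hF)]
  by_cases hψ : ψ ∈ B
  · rw [hF1 ψ (Finset.mem_filter.2 ⟨Finset.mem_univ _, hψ⟩), one_mul]
  · rw [om_blockElt_of_notMem hψ, mul_zero]

/-- **If `χ` vanishes on the elements of order `p`, then `χ` has `p`-defect zero.** -/
theorem defect_zero_of_vanish (p : ℕ) [hp : Fact p.Prime] (χ : IrrCharacter G)
    (hvan : ∀ g : G, orderOf g = p → (χ : G → ℂ) g = 0) :
    (charDegree (χ : G → ℂ)).factorization p = (Nat.card G).factorization p := by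
  classical
  obtain ⟨M, hM⟩ := Cfsg.Agent.Lib.Char.exists_isPModular p hp.out
  haveI := isPModular_isPrime hM
  have hB : IsPBlock M (blockOf M (χ : G → ℂ)) := isPBlock_blockOf χ
  obtain ⟨B, hBdef⟩ : ∃ B, B = blockOf M (χ : G → ℂ) := ⟨_, rfl⟩
  rw [← hBdef] at hB
  have hχB : χ ∈ B := by
    rw [hBdef]
    exact mem_blockOf_self χ
  obtain ⟨D, hD⟩ := exists_isDefectGroup hM hB
  have hU := isBlockUnion_of_isPBlock hB
  have hΩχ : om (χ : G → ℂ) (omP G p) = 1 := by
    have h10 := isIrr_one_ne_zero χ.2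
    unfold om tr
    rw [Finset.sum_eq_single 1]
    · rw [coeff_omP, if_pos (one_pow p), one_mul, div_self h10]
    · intro g _ hg
      rw [coeff_omP]
      split_ifs with h
      · rw [hvan g (orderOf_eq_prime h hg), mul_zero]
      · rw [zero_mul]
    · intro h
      exact absurd (Finset.mem_univ _) h
  have hΩ := isCentralElt_omP (G := G) (p := p)
  have hunit : ∀ ψ ∈ B, ¬ MemLocalIdeal M (om (ψ : G → ℂ) (omP G p)) := by
    intro ψ hψ h
    apply not_memLocalIdeal_one (M := M)
    have hsb := sameBlock_of_mem hB hχB hψ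
    have h1 : MemLocalIdeal M (om (χ : G → ℂ) (omP G p) - om (ψ : G → ℂ) (omP G p)) := by
      haveI : Fintype (ConjClasses G) := Fintype.ofFinite _
      rw [om_eq_sum_conjClasses hΩ (IsCharacter.isClassFunction (IsIrrCharacter.isCharacter χ.2)),
        om_eq_sum_conjClasses hΩ (IsCharacter.isClassFunction (IsIrrCharacter.isCharacter ψ.2)),
        ← Finset.sum_sub_distrib]
      refine memLocalIdeal_sum _ _ fun c _ => ?_
      rw [← mul_sub]
      exact memLocalIdeal_mul_left (localCoeff_omP c.out) (hsb c.out)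
    rw [hΩχ] at h1
    have h2 := memLocalIdeal_add h1 h
    simpa using h2
  obtain ⟨z₀, hz₀, hz₀l, hz₀e⟩ := exists_inverse_omP hM hU hunit
  have hDbot : D = ⊥ := by
    by_contra hne
    obtain ⟨⟨s, hs⟩, hs1⟩ := (Subgroup.ne_bot_iff_exists_ne_one).1 hne
    have hs1' : s ≠ 1 := fun h => hs1 (Subtype.ext h)
    have hDp : IsPGroup p D := isPGroup_of_isDefectGroup hD
    obtain ⟨x, hx, S, hS⟩ := hD
    have hsx : Commute x s := by
      rw [hS] at hs
      obtain ⟨a, _, rfl⟩ := hs
      exact (Subgroup.mem_centralizer_singleton_iff.1 a.2).symm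
    have hxreg := regular_of_blockCoeff_ne_zero hM hU (ne_zero_of_not_memLocalIdeal hx.2.1)
    obtain ⟨c, hc⟩ := IsPGroup.iff_orderOf.1 hDp ⟨s, hs⟩
    rw [Subgroup.orderOf_mk] at hc
    have hc0 : c ≠ 0 := by
      rintro rfl
      rw [pow_zero, orderOf_eq_one_iff] at hc
      exact hs1' hc
    have hsq : s ^ p ^ c = 1 := by
      rw [← hc]
      exact pow_orderOf_eq_one s
    have hsq' : (s⁻¹) ^ p ^ c = 1 := by
      rw [inv_pow, hsq, inv_one]
    obtain ⟨U, hUdef⟩ : ∃ U : MonoidAlgebra ℂ G, U = MonoidAlgebra.single s⁻¹ (1 : ℂ) - 1 := ⟨_, rfl⟩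
    obtain ⟨V, hVdef⟩ : ∃ V : MonoidAlgebra ℂ G, V = MonoidAlgebra.single x⁻¹ (1 : ℂ) := ⟨_, rfl⟩
    have hsingle : ∀ g : G, LocalCoeff M (MonoidAlgebra.single g (1 : ℂ)) := by
      intro g g'
      rw [MonoidAlgebra.coeff_single, Finsupp.single_apply]
      split_ifs
      · exact memLocalRing_one
      · exact memLocalRing_zero
    have hUl : LocalCoeff M U := by
      rw [hUdef]
      exact localCoeff_sub (hsingle _) localCoeff_one
    have hVl : LocalCoeff M V := by
      rw [hVdef]
      exact hsingle _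
    have hUV : Commute U V := by
      rw [hUdef, hVdef]
      apply Commute.sub_left _ (Commute.one_left _)
      change MonoidAlgebra.single s⁻¹ (1 : ℂ) * MonoidAlgebra.single x⁻¹ 1 = MonoidAlgebra.single x⁻¹ 1 * MonoidAlgebra.single s⁻¹ 1
      rw [MonoidAlgebra.single_mul_single, MonoidAlgebra.single_mul_single, mul_one]
      congr 1
      exact (hsx.inv_inv).eq.symm
    have hY : LocalIdealCoeff M ((U * V) ^ p ^ c) := by
      rw [hUV.mul_pow, hUdef]
      exact localIdealCoeff_mul_right (localIdealCoeff_sub_one_pow hM hc0 hsq') (localCoeff_pow hVl _)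
    have h1 := chain_omP hM c (U * V) (localCoeff_mul hUl hVl) hY (z₀ ^ c) (isCentralElt_pow hz₀ c) (localCoeff_pow hz₀l c)
    have h2 : z₀ ^ c * omP G p ^ c = blockElt B := by
      have hcomm : Commute (omP G p) z₀ := isCentralElt_commute isCentralElt_omP z₀
      rw [← (hcomm.pow_pow c c).eq, ← hcomm.mul_pow, hz₀e]
      have : ∀ n : ℕ, blockElt B ^ (n + 1) = blockElt B := by
        intro n
        induction n with
        | zero => simp
        | succ n ih => rw [pow_succ, ih, blockElt_mul_self]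
      obtain ⟨n, rfl⟩ := Nat.exists_eq_succ_of_ne_zero hc0
      exact this n
    rw [mul_assoc, h2, ← isCentralElt_commute (isCentralElt_blockElt B) (U * V)] at h1
    have h3 : U * V = MonoidAlgebra.single (x * s)⁻¹ (1 : ℂ) - MonoidAlgebra.single x⁻¹ 1 := by
      rw [hUdef, hVdef, sub_mul, one_mul, MonoidAlgebra.single_mul_single, mul_one, mul_inv_rev]
    rw [h3, mul_sub, MonoidAlgebra.coeff_sub, Finsupp.sub_apply, coeff_mul_single_inv, coeff_mul_single_inv, one_mul, one_mul,
      coeff_blockElt, coeff_blockElt] at h1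
    have h4 : blockCoeff B (x * s) = 0 := by
      by_contra h5
      exact regular_of_blockCoeff_ne_zero hM hU h5 (dvd_orderOf_mul hsx hxreg ⟨c, hc⟩ hs1')
    rw [h4, zero_sub] at h1
    apply hx.2.1
    simpa using memLocalIdeal_neg h1
  have hcard := card_defect_group hM hB hD
  rw [hDbot, Subgroup.card_bot] at hcard
  have hδ : blockDefect p B = 0 := by
    by_contra h
    have : p ∣ p ^ blockDefect p B := dvd_pow_self p h
    rw [← hcard] at this
    exact hp.out.one_lt.ne' (Nat.dvd_one.1 this)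
  have h1 := minExp_le (p := p) hχB
  have h2 := minExp_le_factorization_card (p := p) (IsPBlock_nonempty hB)
  have h3 : blockDefect p B = (Nat.card G).factorization p - minExp p B := rfl
  have h4 : (charDegree (χ : G → ℂ)).factorization p ≤ (Nat.card G).factorization p :=
    (Nat.factorization_le_iff_dvd (charDegree_pos_of_irr χ.2).ne' Nat.card_pos.ne').2 (charDegree_dvd_card χ.2) p
  omega

end VOP

end Cfsg.Agent.Lib.Block
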